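import Mathlib

/-! Families of `2`-groups used for blocks whose defect group has a cyclic subgroup of index
at most four. -/

set_option autoImplicit false

namespace K44

open Subgroup (zpowers)

universe u

variable {G : Type*} [Group G]

/-- Abelian with at most three involutions. -/
def AbF (P : Subgroup G) : Prop :=
  (∀ u ∈ P, ∀ v ∈ P, u * v = v * u) ∧ Nat.card {g : P // g ^ 2 = 1} ≤ 4

/-- Generators of a dihedral, semidihedral or quaternion group of order `2 ^ (k + 3)`. -/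
structure TmG (k : ℕ) (P : Subgroup G) (a : ℤ) (x y : G) : Prop where
  al : a = -1 ∨ (1 ≤ k ∧ a = 2 ^ (k + 1) - 1)
  mx : x ∈ P
  my : y ∈ P
  ord : orderOf x = 2 ^ (k + 2)
  card : Nat.card P = 2 ^ (k + 3)
  ny : y ∉ zpowers x
  conj : y * x * y⁻¹ = x ^ a
  sq : y ^ 2 = 1 ∨ y ^ 2 = x ^ 2 ^ (k + 1)

/-- Dihedral, semidihedral or quaternion. -/
def TmF (P : Subgroup G) : Prop := ∃ k a x y, TmG k P a x y

/-- `A = ⟨a⟩ × ⟨c⟩` has index two in `P`, the centre of `P` is `Ω₁(A)`, and no element outside `A`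
squares to the involution of `⟨a⟩`. -/
structure QS0 (k : ℕ) (P A : Subgroup G) (a c : G) : Prop where
  le : A ≤ P
  ex : ∃ s ∈ P, s ∉ A
  two : ∀ s ∈ P, s ∉ A → ∀ s' ∈ P, s' ∉ A → s⁻¹ * s' ∈ A
  ord : orderOf a = 2 ^ (k + 2)
  c_sq : c ^ 2 = 1
  c_not : c ∉ zpowers a
  ac : a * c = c * a
  mem : ∀ u, u ∈ A ↔ u ∈ zpowers a ∨ u * c ∈ zpowers a
  fix : ∀ s ∈ P, s ∉ A → ∀ u ∈ A, (s * u = u * s ↔ u ^ 2 = 1)
  nz : ∀ s ∈ P, s ∉ A → s ^ 2 ≠ a ^ 2 ^ (k + 1)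

/-- The same, together with the involution `d` of the derived subgroup. -/
structure QS (k : ℕ) (P A : Subgroup G) (a c d : G) : Prop extends QS0 k P A a c where
  dl : ∀ s ∈ P, s ∉ A → a ^ 2 ^ k * s * (a ^ 2 ^ k)⁻¹ = s * d

/-- The three families. -/
def Fam (P : Subgroup G) : Prop := AbF P ∨ TmF P ∨ ∃ k A a c, QS0 k P A a c

/-- Some quotient of `D` by a central cyclic subgroup lies in one of the three families. -/
def Good (D : Type u) [Group D] : Prop :=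
  ∃ z : D, (∀ g, g * z = z * g) ∧ ∀ (H : Type u) [Group H] [Finite H] (π : D →* H),
    π.ker = zpowers z → Fam π.range

/-- A `2`-group with a cyclic subgroup `⟨x⟩` of index four, `x ^ 2` not central, and no cyclic
subgroup of index two. -/
structure MS {D : Type*} [Group D] (n : ℕ) (x y t : D) : Prop where
  ord : orderOf x = 2 ^ (n + 3)
  card : Nat.card D = 2 ^ (n + 5)
  y_sq : y ^ 2 = 1
  y_not : y ∉ zpowers x
  yx : y * x * y⁻¹ = x ∨ y * x * y⁻¹ = x * x ^ 2 ^ (n + 2)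
  cov : ∀ g : D, ∃ i : ℤ, g = x ^ i ∨ g = x ^ i * y ∨ g = x ^ i * t ∨ g = x ^ i * y * t
  t_not : ∀ i : ℤ, t ≠ x ^ i ∧ t ≠ x ^ i * y
  tx : ∃ i : ℤ, t * x * t⁻¹ = x ^ i ∨ t * x * t⁻¹ = x ^ i * y
  ty : t * y * t⁻¹ = y ∨ t * y * t⁻¹ = y * x ^ 2 ^ (n + 2)
  tt : ∃ i : ℤ, t ^ 2 = x ^ i ∨ t ^ 2 = x ^ i * y
  th : t * x ^ 2 * t⁻¹ ≠ x ^ 2
  th' : (1 ≤ n ∧ t * x ^ 2 * t⁻¹ = x ^ 2 * x ^ 2 ^ (n + 2)) ∨ t * x ^ 2 * t⁻¹ = (x ^ 2)⁻¹ ∨
    t * x ^ 2 * t⁻¹ = (x ^ 2)⁻¹ * x ^ 2 ^ (n + 2)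

end K44
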