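import Mathlib
import Cfsg.Agent.Lib.Tame.Fus
import Cfsg.Agent.Lib.K44.Defs

/-! Extension and Sylow properties of the fusion of Brauer pairs below a maximal pair. -/

set_option autoImplicit false
set_option linter.unusedSectionVars false
set_option linter.style.haveILetI false
attribute [local irreducible] H33.instFieldF

namespace K44

open Cfsg H84 H85
open H33 (F eB)
open H86 (Cen Nor cj cs eS St IsBlk IsDef IsNil PQuot Mor Act)
open Subgroup (zpowers)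
open scoped SubFin

theorem eq_of_reg {G : Type*} [Group G] [Finite G] {p : ℕ} [Fact p.Prime] {K T : Subgroup G}
    (hKT : K ≤ T) (h : ∀ t ∈ T, ¬ p ∣ orderOf t → t ∈ K) (hd : ¬ p ∣ K.relIndex T) : K = T := by
  let C : Subgroup G := Subgroup.closure {t | t ∈ T ∧ ¬ p ∣ orderOf t}
  have hC : PQuot p C T := fun t ht ho => Subgroup.subset_closure ⟨ht, ho⟩
  refine hC.eq_of_not_dvd (fun s hs => H86.mem_Nor_of_cs_le ?_)
    ((Subgroup.closure_le _).2 fun t ht => h t ht.1 ht.2) hKT hd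
  rw [H86.cs, Subgroup.map_le_iff_le_comap, Subgroup.closure_le]
  rintro t ⟨h1, h2⟩
  refine Subgroup.subset_closure ⟨mul_mem (mul_mem hs h1) (inv_mem hs), ?_⟩
  change ¬ p ∣ orderOf (s * t * s⁻¹)
  rwa [H35.orderOf_conj]

variable {G : Type*} [Group G] [Fintype G] {p : ℕ} [Fact p.Prime] {M : Ideal AlgInt}
  [M.IsMaximal] {B : Set (IrrCharacter G)} {P Q : Subgroup G} {e : MonoidAlgebra (F M) G}
  {u v g : G}

/-- `u` is fully centralized. -/
def FC (p : ℕ) {F G : Type*} [Field F] [Group G] (P : Subgroup G) (e : MonoidAlgebra F G)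
    (u : G) : Prop :=
  ∀ v, Fus p P e u v → Nat.card (P ⊓ Cen (zpowers v) : Subgroup G) ≤
    Nat.card (P ⊓ Cen (zpowers u) : Subgroup G)

/-- `Q` is fully normalized. -/
def FN (p : ℕ) {F G : Type*} [Field F] [Group G] (P : Subgroup G) (e : MonoidAlgebra F G)
    (Q : Subgroup G) : Prop :=
  ∀ g, Mor p ⊤ P e Q g → Nat.card (P ⊓ Nor (cs g Q) : Subgroup G) ≤
    Nat.card (P ⊓ Nor Q : Subgroup G)

/-- The stabilizer of the pair of `Q` below `(P, e)`. -/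
noncomputable abbrev SQ (p : ℕ) {G : Type*} [Group G] [Finite G] (M : Ideal AlgInt) [M.IsMaximal]
    (P : Subgroup G) (e : MonoidAlgebra (F M) G) (Q : Subgroup G) : Subgroup G :=
  St ⊤ Q (eS M (Cen Q) (loc p M P e Q))

theorem fc_of_central (hu : P ≤ Cen (zpowers u)) : FC p P e u := fun _ _ => by
  rw [inf_eq_left.2 hu]
  exact Subgroup.card_le_of_le inf_le_left

theorem fn_of_normal (hQ : P ≤ Nor Q) : FN p P e Q := fun _ _ => by
  rw [inf_eq_left.2 hQ]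
  exact Subgroup.card_le_of_le inf_le_left

theorem SQ_le_Nor : SQ p M P e Q ≤ Nor Q := H86.St_le_Nor _ _ _

theorem Cen_le_SQ (h : MP p M B P e) (hQ : Q ≤ P) : Cen Q ≤ SQ p M P e Q :=
  le_trans (by rw [top_inf_eq]) (h.pairOf hQ).toPair.Cen_le_St

theorem inf_Nor_le_SQ (h : MP p M B P e) (hQ : Q ≤ P) : P ⊓ Nor Q ≤ SQ p M P e Q := by
  haveI := H33.charP h.hM
  exact (h.sub hQ).inf_Nor_le_St h.max.toPair

theorem mor_of_SQ (h : MP p M B P e) (hQ : Q ≤ P) (hg : g ∈ SQ p M P e Q) : Mor p ⊤ P e Q g := by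
  haveI := H33.charP h.hM
  exact (h.sub hQ).mor_of_mem_St hg

theorem mem_SQ (h : MP p M B P e) (hg : Mor p ⊤ P e Q g) (hc : cs g Q = Q) :
    g ∈ SQ p M P e Q := by
  haveI := H33.charP h.hM
  exact hg.mem_St h.max.toPair (h.sub hg.le) hc

theorem mor_restrict (h : MP p M B P e) (hg : Mor p ⊤ P e Q g) {R : Subgroup G} (hR : R ≤ Q) :
    Mor p ⊤ P e R g := by
  haveI := H33.charP h.hM
  exact hg.restrict h.max.toPair hR

theorem mor_mul (h : MP p M B P e) (hg : Mor p ⊤ P e Q g) {R : Subgroup G} {g' : G}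
    (hg' : Mor p ⊤ P e R g') (hR : cs g Q ≤ R) : Mor p ⊤ P e Q (g' * g) := by
  haveI := H33.charP h.hM
  exact hg.mul' hg' hR h.max.toPair

theorem fus_of_SQ (h : MP p M B P e) (hQ : Q ≤ P) (hg : g ∈ SQ p M P e Q) (hv : v ∈ Q) :
    Fus p P e v (g * v * g⁻¹) := H33.Tame.fus_of_mor h (mor_of_SQ h hQ hg) hv

theorem SQ_top (h : MP p M B P e) : SQ p M P e P = St ⊤ P e := by rw [SQ, h.eS_top]

theorem isDef_of_fc (h : MP p M B P e) (hu : u ∈ P) (hf : FC p P e u) :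
    haveI := H33.charP h.hM
    IsDef p (Cen (zpowers u)) (eS M _ (loc p M P e (zpowers u))) (P ⊓ Cen (zpowers u)) := by
  haveI := H33.charP h.hM
  have hQ : zpowers u ≤ P := Subgroup.zpowers_le.mpr hu
  refine ((h.sub hQ).isDef_iff_card h.max (H86.isBlk_eB h.hB) (Cen_le_SQ h hQ)
    (H86.isBlk_eS (h.blk hQ))).mpr fun g hg h1 => ?_
  rw [H86.cs_Cen, H86.cs_zpowers]
  exact hf _ ⟨g, ⟨hg, _, h.sub hQ, h1⟩, rfl⟩

theorem isDef_of_fn (h : MP p M B P e) (hQ : Q ≤ P) (hf : FN p P e Q) :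
    haveI := H33.charP h.hM
    IsDef p (SQ p M P e Q) (eS M _ (loc p M P e Q)) (P ⊓ SQ p M P e Q) := by
  haveI := H33.charP h.hM
  refine ((h.sub hQ).isDef_iff_card h.max (H86.isBlk_eB h.hB) le_rfl
    (h.pairOf hQ).toPair.isBlk_St).mpr fun g hg h1 => ?_
  rw [H86.cs_St_mem hg, h1.inf_St h.max.toPair, (h.sub hQ).inf_St h.max.toPair]
  exact hf g ⟨hg, _, h.sub hQ, h1⟩

/-- A fusion onto a fully centralized element extends to the centralizer. -/
theorem extC (h : MP p M B P e) (huv : Fus p P e u v) (hv : FC p P e v) :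
    ∃ g, Mor p ⊤ P e (P ⊓ Cen (zpowers u)) g ∧ v = g * u * g⁻¹ := by
  haveI := H33.charP h.hM
  have hv' := huv.right
  obtain ⟨x, hx, rfl⟩ := huv
  have hQ : zpowers (x * u * x⁻¹) ≤ P := Subgroup.zpowers_le.mpr hv'
  obtain ⟨t, ht, h1⟩ := H86.exists_mor_ext h.max.toPair (h.sub hQ) (zpowers_le_Cen _)
    (by rw [top_inf_eq]) (Cen_le_SQ h hQ) (isDef_of_fc h hv' hv) hx (H86.cs_zpowers x u)
    (le_inf hx.le (zpowers_le_Cen u)) inf_le_left (inf_le_right.trans (H86.Cen_le_Nor _))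
    (by rw [← H86.cs_zpowers, ← H86.cs_Cen]; exact H86.cs_mono x inf_le_right)
  refine ⟨t * x, h1, ?_⟩
  rw [show t * x * u * (t * x)⁻¹ = t * (x * u * x⁻¹) * t⁻¹ by group,
    ← H86.mem_Cen_zpowers.mp ht, mul_inv_cancel_right]

/-- A morphism onto a fully normalized subgroup extends, after an automorphism, to the
normalizer. -/
theorem extN (h : MP p M B P e) (hg : Mor p ⊤ P e Q g) (hf : FN p P e (cs g Q)) :
    ∃ t ∈ SQ p M P e (cs g Q), Mor p ⊤ P e (P ⊓ Nor Q) (t * g) := by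
  haveI := H33.charP h.hM
  have hQ := hg.cs_le
  refine H86.exists_mor_ext h.max.toPair (h.sub hQ) (h.pairOf hQ).toPair.le_St
    (h.pairOf hQ).toPair.Cen_le_St le_rfl (isDef_of_fn h hQ hf) hg rfl
    (le_inf hg.le Subgroup.le_normalizer) inf_le_left inf_le_right ?_
  rw [← (h.mor_iff hg.le hQ).1 hg, ← H86.cs_St_mem (Subgroup.mem_top g)]
  exact H86.cs_mono g (inf_Nor_le_SQ h hg.le)

theorem syl (h : MP p M B P e) (hQ : Q ≤ P) (hf : FN p P e Q) :
    ¬ p ∣ (P ⊓ Nor Q ⊔ Cen Q).relIndex (SQ p M P e Q) := by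
  haveI := H33.charP h.hM; haveI := H86.good h.hM G
  have := ((h.pairOf hQ).toPair.isDef_St (isDef_of_fn h hQ hf)).1
  rwa [(h.sub hQ).inf_St h.max.toPair, top_inf_eq] at this

/-- A subgroup containing `N_P(Q)`, `C_G(Q)` and all `p'`-elements of the stabilizer contains
the stabilizer. -/
theorem SQ_le_of_reg (h : MP p M B P e) (hQ : Q ≤ P) (hf : FN p P e Q) {K : Subgroup G}
    (h1 : P ⊓ Nor Q ≤ K) (h2 : Cen Q ≤ K) (h3 : ∀ t ∈ SQ p M P e Q, ¬ p ∣ orderOf t → t ∈ K) :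
    SQ p M P e Q ≤ K := by
  have h4 : K ⊓ SQ p M P e Q = SQ p M P e Q :=
    eq_of_reg inf_le_right (fun t ht ho => ⟨h3 t ht ho, ht⟩) fun h5 => syl h hQ hf
      (h5.trans (Subgroup.relIndex_dvd_of_le_left _ (sup_le (le_inf h1 (inf_Nor_le_SQ h hQ))
        (le_inf h2 (Cen_le_SQ h hQ)))))
  exact inf_eq_right.1 h4

/-- An intermediate subgroup whose `p'`-elements centralize `Q` acts on `Q` like `N_P(Q)`. -/
theorem act_of_le (h : MP p M B P e) (hQ : Q ≤ P) (hf : FN p P e Q) {T : Subgroup G}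
    (h1 : P ⊓ Nor Q ≤ T) (h2 : Cen Q ≤ T) (h3 : T ≤ SQ p M P e Q)
    (h4 : ∀ t ∈ T, ¬ p ∣ orderOf t → t ∈ Cen Q) {t : G} (ht : t ∈ T) :
    ∃ c ∈ P ⊓ Nor Q, ∀ q ∈ Q, t * q * t⁻¹ = c * q * c⁻¹ := by
  have h5 : P ⊓ Nor Q ⊔ Cen Q = T :=
    eq_of_reg (sup_le h1 h2) (fun t ht ho => Subgroup.mem_sup_right (h4 t ht ho)) fun h5 =>
      syl h hQ hf (h5.trans (Dvd.intro _ (Subgroup.relIndex_mul_relIndex _ _ _ (sup_le h1 h2) h3)))
  rw [← h5] at ht
  obtain ⟨c, hc, c', hc', rfl⟩ := (H86.mem_sup_of_le_Nor (inf_le_right.trans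
    (H86.Nor_le_Nor_Cen Q))).1 ht
  exact ⟨c, hc, H86.act_iff.2 (by simpa using hc')⟩

theorem rank_one_of_ab (h : MP p M B P e) (hu : u ∈ P) (hf : FC p P e u)
    (hab : P ⊓ Cen (zpowers u) ≤ Cen (P ⊓ Cen (zpowers u) : Subgroup G))
    (ho : ∀ t ∈ Cen (zpowers u), t ∈ Nor (P ⊓ Cen (zpowers u) : Subgroup G) → ¬ p ∣ orderOf t →
      t ∈ Cen (P ⊓ Cen (zpowers u) : Subgroup G)) :
    blockRank p (loc p M P e (zpowers u)) = 1 := by
  haveI := H33.charP h.hM; haveI := H86.good h.hM G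
  have hblk := h.blk (Subgroup.zpowers_le.mpr hu)
  exact MP.blockRank_of_nil h.hM ((H86.isNilpotentBlock_sub_iff hblk).mpr
    (H33.Tame.isNil_of_ab (H86.isBlk_eS hblk) (isDef_of_fc h hu hf) hab ho))

theorem defect_of_fc (h : MP p M B P e) (hu : u ∈ P) (hf : FC p P e u) {n : ℕ}
    (hn : Nat.card (P ⊓ Cen (zpowers u) : Subgroup G) = p ^ n) :
    blockDefect p (loc p M P e (zpowers u)) = n :=
  H33.Tame.defect_of_isDef h.hM (h.blk (Subgroup.zpowers_le.mpr hu)) inf_le_right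
    (isDef_of_fc h hu hf) hn

theorem rank_pos (h : MP p M B P e) (hQ : Q ≤ P) : 1 ≤ blockRank p (loc p M P e Q) :=
  blockRank_pos (H33.block_nonempty (h.blk hQ))

/-- `s` is not fused into `A`. -/
def NF {F G : Type*} [Field F] [Group G] (P : Subgroup G) (e : MonoidAlgebra F G)
    (A : Subgroup G) (s : G) : Prop := ∀ u ∈ A, ¬ Fus 2 P e u s

end K44
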