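import Mathlib
import Cfsg.Agent.Lib.K44.Ext
import Cfsg.Agent.Lib.H85.Contrib2

set_option autoImplicit false
set_option linter.unusedSectionVars false
set_option linter.style.haveILetI false
attribute [local irreducible] H33.instFieldF

namespace K44

open Cfsg H84 H85
open H33 (F eB)
open H86 (Cen Nor cj cs eS St Mor)
open Subgroup (zpowers)
open scoped SubFin

variable {G : Type*} [Group G] [Fintype G] {M : Ideal AlgInt} [M.IsMaximal]
  {B : Set (IrrCharacter G)} {P : Subgroup G} {e : MonoidAlgebra (F M) G} {u : G}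

/-- The number of characters of height zero in a `2`-block. -/
noncomputable def k0 {G : Type*} [Group G] [Finite G] (B : Set (IrrCharacter G)) : ℕ :=
  Nat.card {χ : IrrCharacter G // χ ∈ B ∧ blockHeight 2 B (χ : G → ℂ) = 0}

theorem num_split (B : Set (IrrCharacter G)) : ∃ X Y : Finset (IrrCharacter G),
    (∀ χ, χ ∈ X ↔ χ ∈ B ∧ blockHeight 2 B (χ : G → ℂ) = 0) ∧
    (∀ χ, χ ∈ Y ↔ χ ∈ B ∧ blockHeight 2 B (χ : G → ℂ) ≠ 0) ∧ k0 B = X.card ∧
    Nat.card B = X.card + Y.card ∧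
    ∀ f : IrrCharacter G → ℝ, ∑ χ ∈ bset B, f χ = ∑ χ ∈ X, f χ + ∑ χ ∈ Y, f χ := by
  classical
  have hmem : ∀ χ : IrrCharacter G,
      χ ∈ (bset B).filter (fun χ : IrrCharacter G => blockHeight 2 B (χ : G → ℂ) = 0) ↔
        χ ∈ B ∧ blockHeight 2 B (χ : G → ℂ) = 0 := fun χ => by
    rw [Finset.mem_filter, mem_bset]
  refine ⟨(bset B).filter fun χ : IrrCharacter G => blockHeight 2 B (χ : G → ℂ) = 0,
    (bset B).filter fun χ : IrrCharacter G => ¬ blockHeight 2 B (χ : G → ℂ) = 0, hmem,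
    fun χ => by rw [Finset.mem_filter, mem_bset], Nat.subtype_card _ hmem, ?_, fun f => ?_⟩
  · rw [← card_bset, Finset.card_filter_add_card_filter_not]
  · rw [Finset.sum_filter_add_sum_filter_not]

theorem k0_le (h : MP 2 M B P e) (hu : u ∈ P) : k0 B ≤
    2 ^ blockDefect 2 (loc 2 M P e (zpowers u)) * blockRank 2 (loc 2 M P e (zpowers u)) := by
  obtain ⟨X, Y, hX, -, e1, -, hs⟩ := num_split B
  have hC := isCen_zpowers u
  obtain ⟨a, w, ha⟩ := exists_avg h.hM (h.isPElt hu) hC (h.induced_z hu)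
  have h1 := ha.sum_a
  rw [hs] at h1
  have h2 := Finset.card_nsmul_le_sum X a 1 fun χ hχ => by
    obtain ⟨m, e2, h0, ho⟩ := ha.odd h.hM (h.isPElt hu) hC (h.induced_z hu) ((hX _).1 hχ).1
    obtain ⟨i, rfl⟩ := ho.2 ((hX _).1 hχ).2
    rw [e2]
    exact_mod_cast (by omega : 1 ≤ 2 * i + 1)
  have h3 : 0 ≤ ∑ χ ∈ Y, a χ := Finset.sum_nonneg fun χ _ => ha.a_nonneg χ
  rw [nsmul_eq_mul, mul_one] at h2
  have : (X.card : ℝ) ≤ ((2 : ℕ) : ℝ) ^ blockDefect 2 (loc 2 M P e (zpowers u)) *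
      blockRank 2 (loc 2 M P e (zpowers u)) := by linarith
  rw [e1]
  exact_mod_cast this

theorem num_cen (hu : u ∈ P ⊓ Cen P) : P ≤ Cen (zpowers u) := fun g hg =>
  H86.mem_Cen_zpowers.2 (Subgroup.mem_centralizer_iff.1 hu.2 g hg).symm

theorem four_card_le (h : MP 2 M B P e) (hu : u ∈ P ⊓ Cen P) :
    4 * Nat.card B ≤ Nat.card P * blockRank 2 (loc 2 M P e (zpowers u)) + 3 * k0 B := by
  obtain ⟨X, Y, hX, hY, e1, e2, hs⟩ := num_split B
  have hC := isCen_zpowers u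
  have hd := h.defect_loc (Subgroup.zpowers_le.2 hu.1) (num_cen hu)
  obtain ⟨a, w, ha⟩ := exists_avg h.hM (h.isPElt hu.1) hC (h.induced_z hu.1)
  have h1 := ha.sum_a
  rw [hs, hd] at h1
  have h2 := Finset.card_nsmul_le_sum X a 1 fun χ hχ => by
    obtain ⟨m, e2, h0, ho⟩ := ha.odd h.hM (h.isPElt hu.1) hC (h.induced_z hu.1) ((hX _).1 hχ).1
    obtain ⟨i, rfl⟩ := ho.2 ((hX _).1 hχ).2
    rw [e2]
    exact_mod_cast (by omega : 1 ≤ 2 * i + 1)
  have h3 := Finset.card_nsmul_le_sum Y a 4 fun χ hχ => by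
    obtain ⟨m, hm, e3⟩ := ha.pos_height h.hM (h.isPElt hu.1) hC (h.induced_z hu.1) hd
      ((hY _).1 hχ).1 ((hY _).1 hχ).2
    obtain ⟨j, hj⟩ := Nat.exists_eq_succ_of_ne_zero ((hY _).1 hχ).2
    rw [e3, hj, Nat.succ_eq_add_one, pow_succ, pow_succ]
    have h5 : (1 : ℝ) ≤ 2 ^ j := one_le_pow₀ (by norm_num)
    have h6 : (1 : ℝ) ≤ m := by exact_mod_cast hm
    nlinarith
  rw [nsmul_eq_mul, mul_one] at h2
  rw [nsmul_eq_mul] at h3
  have : (X.card : ℝ) + Y.card * 4 ≤ ((2 : ℕ) : ℝ) ^ blockDefect 2 B *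
      blockRank 2 (loc 2 M P e (zpowers u)) := by linarith
  have h7 : X.card + Y.card * 4 ≤ 2 ^ blockDefect 2 B * blockRank 2 (loc 2 M P e (zpowers u)) := by
    exact_mod_cast this
  rw [e1, e2, h.card_eq]
  omega

theorem card_le_of_rank (h : MP 2 M B P e) (hu : u ∈ P ⊓ Cen P)
    (hl : blockRank 2 (loc 2 M P e (zpowers u)) ≤ 3) : Nat.card B ≤ Nat.card P := by
  obtain ⟨X, Y, hX, hY, -, e2, -⟩ := num_split B
  obtain ⟨X', Y', hX', hY', -, -, hs⟩ := num_split B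
  obtain rfl : X = X' := Finset.ext fun χ => (hX χ).trans (hX' χ).symm
  obtain rfl : Y = Y' := Finset.ext fun χ => (hY χ).trans (hY' χ).symm
  have hC := isCen_zpowers u
  have hM := h.hM
  have hp := h.isPElt hu.1
  have hb := h.induced_z hu.1
  have hd := h.defect_loc (Subgroup.zpowers_le.2 hu.1) (num_cen hu)
  obtain ⟨a, w, ha⟩ := exists_avg hM hp hC hb
  have key : (X.card : ℝ) + Y.card ≤ ((2 : ℕ) : ℝ) ^ blockDefect 2 B := by
    by_cases h3 : ∀ χ ∈ X, 3 ≤ a χ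
    · have h1 := ha.sum_a
      rw [hs, hd] at h1
      have h2 := Finset.card_nsmul_le_sum _ _ _ h3
      have h4 := Finset.card_nsmul_le_sum Y a 3 fun χ hχ => by
        obtain ⟨m, hm, e3⟩ := ha.pos_height hM hp hC hb hd ((hY _).1 hχ).1 ((hY _).1 hχ).2
        obtain ⟨j, hj⟩ := Nat.exists_eq_succ_of_ne_zero ((hY _).1 hχ).2
        rw [e3, hj, Nat.succ_eq_add_one, pow_succ, pow_succ]
        have h5 : (1 : ℝ) ≤ 2 ^ j := one_le_pow₀ (by norm_num)
        have h6 : (1 : ℝ) ≤ m := by exact_mod_cast hm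
        nlinarith
      have h5 : (blockRank 2 (loc 2 M P e (zpowers u)) : ℝ) ≤ 3 := by exact_mod_cast hl
      rw [nsmul_eq_mul] at h2 h4
      nlinarith [pow_pos (show (0 : ℝ) < ((2 : ℕ) : ℝ) by norm_num) (blockDefect 2 B)]
    · push Not at h3
      obtain ⟨χ', hχ', h3⟩ := h3
      obtain ⟨m, e3, h0, ho⟩ := ha.odd hM hp hC hb ((hX _).1 hχ').1
      have ho := ho.2 ((hX _).1 hχ').2
      rw [e3] at h3
      have h3 : m < 3 := by exact_mod_cast h3
      obtain rfl : m = 1 := by obtain ⟨i, rfl⟩ := ho; omega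
      have h1 := ha.sum_w χ'
      rw [e3, hs, hd] at h1
      have h2 := Finset.card_nsmul_le_sum X (fun χ => w χ χ') 1 fun χ hχ =>
        ha.one_le_w_of_height hM hp hC hb ((hX _).1 hχ).1
          ((hX _).1 hχ').1 ((hX _).1 hχ).2 ((hX _).1 hχ').2
      have h4 := Finset.card_nsmul_le_sum Y (fun χ => w χ χ') 1 fun χ hχ =>
        le_trans (one_le_pow₀ (one_le_pow₀ (by norm_num)))
          (ha.pow_le_w hM hp hC hb hd ((hY _).1 hχ).1 ((hX _).1 hχ').1 ((hX _).1 hχ').2)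
      rw [nsmul_eq_mul, mul_one] at h2 h4
      push_cast at h1 ⊢
      linarith
  rw [e2, h.card_eq]
  exact_mod_cast key

theorem sum_rank_le {p : ℕ} [Fact p.Prime] (h : MP p M B P e) (Y : Finset G) (hY : ∀ y ∈ Y, y ∈ P)
    (hn : ∀ y ∈ Y, ∀ y' ∈ Y, Fus p P e y y' → y = y') :
    ∑ y ∈ Y, blockRank p (loc p M P e (zpowers y)) ≤ Nat.card B := by
  classical
  obtain ⟨R, hR⟩ := h.exists_reps
  have hex : ∀ y : G, ∃ r : G, y ∈ Y → r ∈ R ∧ Fus p P e r y := fun y => by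
    by_cases hy : y ∈ Y
    · obtain ⟨r, h1, h2⟩ := hR.ex y (hY y hy)
      exact ⟨r, fun _ => ⟨h1, h2⟩⟩
    · exact ⟨1, fun h' => absurd h' hy⟩
  choose r hr using hex
  have hinj : Set.InjOn r Y := fun y hy y' hy' e1 =>
    hn y hy y' hy' (h.fus_trans (hr y hy).2.symm (e1 ▸ (hr y' hy').2))
  rw [h.card_eq_sum hR]
  calc ∑ y ∈ Y, blockRank p (loc p M P e (zpowers y))
      = ∑ y ∈ Y, blockRank p (loc p M P e (zpowers (r y))) :=
        Finset.sum_congr rfl fun y hy => h.blockRank_fus (hr y hy).2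
    _ = ∑ z ∈ Y.image r, blockRank p (loc p M P e (zpowers z)) :=
        (Finset.sum_image (f := fun z => blockRank p (loc p M P e (zpowers z))) hinj).symm
    _ ≤ _ := Finset.sum_le_sum_of_subset fun z hz => by
        obtain ⟨y, hy, rfl⟩ := Finset.mem_image.1 hz
        exact (hr y hy).1

end K44
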