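import Mathlib
import Cfsg.Agent.Lib.K44.Num
import Cfsg.Agent.Lib.Tame.Final
import Cfsg.Agent.Lib.H85.Rk2Blk
import Cfsg.Agent.Lib.Block.QuotRank

set_option autoImplicit false
set_option linter.unusedSectionVars false
set_option linter.style.haveILetI false
attribute [local irreducible] H33.instFieldF

namespace K44

open Cfsg H84 H85
open H33 (F eB)
open H86 (Cen Nor cj cs eS St Mor)
open Subgroup (zpowers)
open scoped SubFin

universe u

variable {G : Type u} [Group G] [Finite G] {M : Ideal AlgInt} {B : Set (IrrCharacter G)}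
  {P : Subgroup G}

theorem t0_aut {D : Type*} [Group D] [Finite D] (hD : IsPGroup 2 D) (hab : ∀ u v : D, u * v = v * u)
    (h1 : ∀ s t : D, s ≠ 1 → t ≠ 1 → s ^ 2 = 1 → t ^ 2 = 1 → s = t) {α : MulAut D}
    (hα : Odd (orderOf α)) : α = 1 := by
  have key : ∀ j : ℕ, ∀ x : D, x ^ 2 ^ j = 1 → α x = x := fun j => by
    induction j with
    | zero => intro x hx; rw [pow_zero, pow_one] at hx; rw [hx, map_one]
    | succ j ih =>
      intro x hx
      have e := ih (x ^ 2) (by rw [← pow_mul, ← pow_succ', hx])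
      have w2 : (α x * x⁻¹) ^ 2 = 1 := by
        rw [Commute.mul_pow (hab _ _), ← map_pow, e, inv_pow, mul_inv_cancel]
      have fx : α (α x * x⁻¹) = α x * x⁻¹ := by
        by_cases k : α x * x⁻¹ = 1
        · rw [k, map_one]
        · exact h1 _ _ (fun e' => k (α.injective (e'.trans (map_one α).symm))) k
            (by rw [← map_pow, w2, map_one]) w2
      exact mul_inv_eq_one.1 (eq_one_of_aut_eq_mul hα (x := x) (by simp) fx w2)
  ext x
  obtain ⟨j, hj⟩ := hD x
  exact key j x hj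

theorem t0_rk2 (h : AbF P) {s t : G} (hs : s ∈ P) (ht : t ∈ P) (s1 : s ≠ 1) (t1 : t ≠ 1)
    (st : s ≠ t) (s2 : s ^ 2 = 1) (t2 : t ^ 2 = 1) : H34.Rk2 P := by
  classical
  refine ⟨h.1, ⟨s, hs, t, ht, s1, t1, st, s2, t2⟩, fun s hs t ht u hu s2 t2 u2 s1 t1 u1 st us ut => ?_⟩
  by_contra hn
  have m2 : (s * t) ^ 2 = 1 := by rw [Commute.mul_pow (h.1 s hs t ht), s2, t2, mul_one]
  have m1 : s * t ≠ 1 := fun e => st (by
    rw [eq_inv_of_mul_eq_one_left e, eq_comm, eq_inv_iff_mul_eq_one, ← pow_two, t2])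
  have ms : s * t ≠ s := fun e => t1 (by simpa using e)
  have mt : s * t ≠ t := fun e => s1 (by simpa using e)
  let f : Fin 5 → {g : P // g ^ 2 = 1} := ![⟨1, one_pow _⟩, ⟨⟨s, hs⟩, Subtype.ext s2⟩,
    ⟨⟨t, ht⟩, Subtype.ext t2⟩, ⟨⟨u, hu⟩, Subtype.ext u2⟩, ⟨⟨s * t, mul_mem hs ht⟩, Subtype.ext m2⟩]
  have hf : Function.Injective f := by
    have : Function.Injective (fun i => ((f i).1 : G)) := by
      intro i j e
      fin_cases i <;> fin_cases j <;> first
        | rfl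
        | exact absurd e (by assumption)
        | exact absurd e.symm (by assumption)
    exact Function.Injective.of_comp (f := fun g : {g : P // g ^ 2 = 1} => (g.1 : G)) this
  have := (Nat.card_le_card_of_injective f hf).trans h.2
  simp at this

theorem rank_le_of_abF (hM : IsPModular 2 M) (hB : IsPBlock M B) (hD : IsDefectGroup 2 M B P)
    (h : AbF P) : blockRank 2 B ≤ 3 := by
  letI := Fintype.ofFinite G
  haveI := H33.isMaximal_of hM
  obtain ⟨e, m⟩ := exists_mp hM hB hD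
  by_cases k : ∃ s ∈ P, ∃ t ∈ P, s ≠ 1 ∧ t ≠ 1 ∧ s ≠ t ∧ s ^ 2 = 1 ∧ t ^ 2 = 1
  · obtain ⟨s, hs, t, ht, s1, t1, st, s2, t2⟩ := k
    have r := t0_rk2 h hs ht s1 t1 st s2 t2
    rw [(m.counts_of_rk2 r).1]
    rcases m.card_inq_of_rk2 r with e | e <;> omega
  · have hab : P ≤ Cen P := fun u hu => Subgroup.mem_centralizer_iff.2 fun v hv => h.1 v hv u hu
    have o := m.odd_card_inq hab
    rw [m.blockRank_of_ctrl ((m.ctrl_iff hab).2 ?_)]
    · norm_num
    rw [eq_bot_iff]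
    intro α hα
    refine t0_aut m.pgrp (fun u v => Subtype.ext (h.1 u u.2 v v.2)) (fun s t s1 t1 s2 t2 => ?_)
      (o.of_dvd_nat (Subgroup.orderOf_dvd_natCard _ hα))
    by_contra st
    exact k ⟨s, s.2, t, t.2, fun e => s1 (Subtype.ext e), fun e => t1 (Subtype.ext e),
      fun e => st (Subtype.ext e), congrArg Subtype.val s2, congrArg Subtype.val t2⟩

theorem tm_bounds (hM : IsPModular 2 M) (hB : IsPBlock M B) (hD : IsDefectGroup 2 M B P) {k : ℕ}
    {a : ℤ} {x y : G} (h : TmG k P a x y) : blockRank 2 B ≤ 3 ∧ 2 ^ (k + 1) + 3 ≤ Nat.card B := by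
  letI := Fintype.ofFinite G
  haveI := H33.isMaximal_of hM
  obtain ⟨e, m⟩ := exists_mp hM hB hD
  obtain ⟨g, hg⟩ := exists_cycP 2 (k + 1)
  letI := Fintype.ofFinite (rootsOfUnity (2 ^ (k + 1 + 1)) ℂ)
  obtain ⟨ι, -, t⟩ := H33.Tame.exists_tm hg h.al h.mx h.my h.ord h.card h.ny h.conj h.sq
  obtain ⟨g, c₁, c₂, k1, k2, k3, -⟩ :=
    @H33.Tame.tame_main _ _ _ _ _ _ _ _ _ _ _ _ _ _ _ _ (H33.Tame.noExo hM) m t
      (Classical.dec _) (Classical.dec _)
  exact ⟨by omega, by omega⟩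

theorem card_le_of_good (hM : IsPModular 2 M) (hB : IsPBlock M B) (hD : IsDefectGroup 2 M B P)
    (H : ∀ (K : Type u) [Group K] [Finite K] (b : Set (IrrCharacter K)) (Q A : Subgroup K) (k : ℕ)
      (a c : K), IsPBlock M b → IsDefectGroup 2 M b Q → QS0 k Q A a c → blockRank 2 b ≤ 3)
    (h : Good P) : Nat.card B ≤ Nat.card P := by
  letI := Fintype.ofFinite G
  haveI := H33.isMaximal_of hM
  obtain ⟨e, m⟩ := exists_mp hM hB hD
  obtain ⟨z, hz, hg⟩ := h
  have c : ∀ g ∈ P, g * z = z * g := fun g hg => congrArg Subtype.val (hz ⟨g, hg⟩)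
  have hQ : zpowers (z : G) ≤ P := Subgroup.zpowers_le.2 z.2
  have hc : P ≤ Cen (zpowers (z : G)) := fun g hg => by
    rw [Subgroup.mem_centralizer_iff]
    rintro _ ⟨n, rfl⟩
    exact (Commute.zpow_left (c g hg).symm n).eq
  refine card_le_of_rank m (u := z) ⟨z.2, Subgroup.mem_centralizer_iff.2 c⟩ ?_
  let z' : Cen (zpowers (z : G)) := ⟨z, hc z.2⟩
  have cz : ∀ g : Cen (zpowers (z : G)), Commute z' g := fun g =>
    Subtype.ext (Subgroup.mem_centralizer_iff.1 g.2 z (Subgroup.mem_zpowers _))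
  have cZ : ∀ g, g ∈ Cen (zpowers z') := fun g => by
    rw [Subgroup.mem_centralizer_iff]
    rintro _ ⟨n, rfl⟩
    exact ((cz g).zpow_left n).eq
  haveI : (zpowers z').Normal := ⟨fun n hn g => by
    rw [← Subgroup.mem_centralizer_iff.1 (cZ g) n hn, mul_inv_cancel_right]; exact hn⟩
  have hb := m.blk hQ
  have hd := m.isDef_loc hQ hc
  have hZ : IsPGroup 2 (zpowers z') := (H33.defect_isPGroup hd).to_le
    (Subgroup.zpowers_le.2 (Subgroup.mem_subgroupOf.2 z.2))
  have hq : H86.PQuot 2 (Cen (zpowers z')) ⊤ := fun g _ _ => cZ g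
  have b1 := H86.isPBlock_quotSet hM hb hZ hq
  have b2 := H86.isDefectGroup_quotSet hM hb hZ hq hd
  rw [← blockRank_quotSet hM hb hZ hq]
  have f := hg _ ((QuotientGroup.mk' (zpowers z')).comp (Subgroup.inclusion hc)) (by
    ext g
    rw [MonoidHom.mem_ker, MonoidHom.comp_apply, QuotientGroup.mk'_apply, QuotientGroup.eq_one_iff]
    constructor
    · rintro ⟨n, hn⟩
      exact ⟨n, Subtype.ext (by simpa [z'] using congrArg Subtype.val hn)⟩
    · rintro ⟨n, rfl⟩
      exact ⟨n, Subtype.ext (by simp [z'])⟩)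
  rw [MonoidHom.range_comp, Subgroup.inclusion_range] at f
  rcases f with f | ⟨k, a, x, y, f⟩ | ⟨k, A, a, c, f⟩
  · exact rank_le_of_abF hM b1 b2 f
  · exact (tm_bounds hM b1 b2 f).1
  · exact H _ _ _ A k a c b1 b2 f

end K44
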