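import Mathlib
import Cfsg.Agent.Lib.K44.Num

/-! A bound for the number of characters of height zero from a real cyclic subsection. -/

set_option autoImplicit false
set_option linter.unusedSectionVars false
set_option linter.style.haveILetI false
attribute [local irreducible] H33.instFieldF

namespace K44

open Cfsg H84 H85
open H33 (F eB)
open H86 (Cen Nor cj cs eS St Mor)
open Subgroup (zpowers)
open scoped SubFin ComplexConjugate

theorem av_card_gens {D : Type*} [CommGroup D] [Fintype D] {k : ℕ} {g : D} (hg : CycP 2 k g) :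
    2 ^ k ≤ (gens 2 k D).card := by
  classical
  haveI : IsCyclic D := ⟨⟨g, hg.gen⟩⟩
  have h1 := IsCyclic.card_pow_eq_one_le (α := D) (n := 2 ^ k) (by positivity)
  have h2 := Finset.card_filter_add_card_filter_not (s := Finset.univ)
    (fun v : D => v ^ 2 ^ k = 1)
  have h3 : (Finset.univ.filter fun v : D => ¬ v ^ 2 ^ k = 1) = gens 2 k D := by
    ext v; simp [mem_gens]
  rw [h3, Finset.card_univ, ← Nat.card_eq_fintype_card, hg.card, pow_succ] at h2
  omega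

variable {G : Type*} [Group G] [Fintype G] {M : Ideal AlgInt} [M.IsMaximal]
  {B : Set (IrrCharacter G)} {P : Subgroup G} {e : MonoidAlgebra (F M) G} {u : G}

theorem av_main {D : Type*} [CommGroup D] [Fintype D] {k : ℕ} {g : D} (hg : CycP 2 (k + 1) g)
    (ι : D →* G) (h : MP 2 M B P e) (hu : ι g ∈ P) (ho : orderOf (ι g) = 2 ^ (k + 2))
    (hl : blockRank 2 (loc 2 M P e (zpowers (ι g))) = 1) (h1 : Fus 2 P e (ι g) (ι g)⁻¹)
    (h2 : ∀ v ∈ zpowers (ι g), Fus 2 P e (ι g) v → v = ι g ∨ v = (ι g)⁻¹) :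
    k0 B * 2 ^ k ≤ 2 ^ blockDefect 2 (loc 2 M P e (zpowers (ι g))) := by
  letI := Classical.decEq D
  have hinj : Function.Injective ι := (injective_iff_map_eq_one ι).2 fun v hv => by
    obtain ⟨m, rfl⟩ := hg.exists_pow v
    rw [map_pow, ← orderOf_dvd_iff_pow_eq_one, ho, ← hg.ord, orderOf_dvd_iff_pow_eq_one] at hv
    exact hv
  have hz : ∀ v, ι v ∈ zpowers (ι g) := fun v => by
    obtain ⟨m, rfl⟩ := hg.exists_pow v
    rw [map_pow]
    exact Subgroup.pow_mem _ (Subgroup.mem_zpowers _) m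
  have hP : ∀ v, ι v ∈ P := fun v => Subgroup.zpowers_le.2 hu (hz v)
  have hι : CenHom ι (Cen (zpowers (ι g))) := ⟨fun v => zpowers_le_Cen _ (hz v), fun v c hc =>
    H86.mem_Cen.mp hc _ (hz v)⟩
  have hinv : ∀ v, Fus 2 P e (ι v) (ι v⁻¹) := fun v => by
    obtain ⟨m, rfl⟩ := hg.exists_pow v
    have := h.fus_zpow h1 m
    rwa [zpow_natCast, zpow_natCast, inv_pow, ← map_pow, ← map_inv] at this
  have hfus : ∀ v ∈ gens 2 (k + 1) D, ∀ v',
      Fus 2 P e (ι v) (ι v') → v' = v ∨ v' = v⁻¹ := fun v hv v' hf => by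
    obtain ⟨n, hn⟩ := (hg.of_mem hv).exists_pow g
    obtain ⟨m, hm⟩ := hg.exists_pow v
    obtain ⟨j, hj⟩ := (hg.of_mem hv).exists_pow v'
    have h3 := h.fus_zpow hf n
    rw [zpow_natCast, zpow_natCast, ← map_pow, ← map_pow, ← hn] at h3
    have h4 : v' = (v' ^ n) ^ m := by
      have h4 : (v ^ n) ^ m = v := by rw [← hn, ← hm]
      rw [hj, pow_right_comm v j n, pow_right_comm (v ^ n) j m, h4]
    rcases h2 _ (hz _) h3 with h5 | h5
    · left; rw [h4, hinj h5, ← hm]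
    · right; rw [← map_inv] at h5; rw [h4, hinj h5, inv_pow, ← hm]
  obtain ⟨S, hS⟩ : ∃ S, S = gens 2 (k + 1) D := ⟨_, rfl⟩
  obtain ⟨b, hb⟩ : ∃ b, b = loc 2 M P e (zpowers (ι g)) := ⟨_, rfl⟩
  rw [← hb]
  have hdv : ∀ (χ : IrrCharacter G), ∀ v ∈ S, qf 2 b (sub 2 (ι v) _ b χ) (brc 2 b) =
      dv 2 M P e χ (ι v) := fun χ v hv => by
    rw [hb, H33.Tame.dv_of_zpowers (hg.zpowers_map ι (hS ▸ hv))]
  have hav : ∀ χ : IrrCharacter G, ∃ a : ℤ, ∑ v ∈ S, dv 2 M P e χ (ι v) = S.card * a ∧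
      H33.red M (dv 2 M P e χ (ι g)) = a := fun χ => by
    have hx := hι.isGen_qf_left (p := 2) (b := b) (irr_gen χ) (brc_mem_lat b)
    obtain ⟨a, h3, h4⟩ := hg.exists_avg_real h.hM hx fun v hv => by
      rw [← H6.gen_inv hx, hdv χ v (hS ▸ hv), hdv χ _ (hS ▸ inv_mem_gens hv),
        h.dv_fus (hinv v) (H6.gen_isClassFunction (irr_gen χ))]
    rw [← hS] at h3
    rw [hdv χ g (hS ▸ hg.mem)] at h4
    exact ⟨a, by rw [← h3]; exact Finset.sum_congr rfl fun v hv => (hdv χ v hv).symm, h4⟩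
  choose a ha ha' using hav
  have key : ∑ χ ∈ bset B, ((S.card : ℂ) * a χ) * conj ((S.card : ℂ) * a χ) =
      S.card * (2 * 2 ^ blockDefect 2 b) := by
    simp only [← ha, map_sum, Finset.sum_mul_sum]
    rw [Finset.sum_comm, ← nsmul_eq_mul, ← Finset.sum_const]
    refine Finset.sum_congr rfl fun v hv₀ => ?_
    have hv : v ∈ gens 2 (k + 1) D := hS ▸ hv₀
    have hne : v ≠ v⁻¹ := fun h3 => mem_gens.1 hv (by
      rw [pow_succ', pow_mul, sq, eq_inv_iff_mul_eq_one.1 h3, one_pow])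
    have hl' : blockRank 2 (loc 2 M P e (zpowers (ι v))) = 1 := by
      rw [hg.zpowers_map ι hv]; exact hl
    have hd : blockDefect 2 (loc 2 M P e (zpowers (ι v))) = blockDefect 2 b := by
      rw [hg.zpowers_map ι hv, hb]
    rw [Finset.sum_comm, ← Finset.sum_subset (s₁ := {v, v⁻¹}) (by
        simp [Finset.insert_subset_iff, hS, hv, inv_mem_gens hv]) fun v' _ hv' =>
        h.sum_dv_of_not_fus (hP v) (hP v') fun hf => hv' (by simpa using hfus v hv v' hf),
      Finset.sum_pair hne, h.sum_dv_of_fus (h.fus_refl (hP v)) hl', h.sum_dv_of_fus (hinv v) hl',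
      hd]
    push_cast
    ring
  have hc : 0 < S.card := hS ▸ hg.card_gens_pos
  have key2 : (S.card : ℤ) * ∑ χ ∈ bset B, a χ ^ 2 = 2 * 2 ^ blockDefect 2 b := by
    apply Int.cast_injective (α := ℂ)
    apply mul_left_cancel₀ (show (S.card : ℂ) ≠ 0 by exact_mod_cast hc.ne')
    push_cast
    rw [← key, Finset.mul_sum, Finset.mul_sum]
    exact Finset.sum_congr rfl fun χ _ => by simp only [map_mul, map_natCast, map_intCast]; ring
  obtain ⟨X, hX⟩ : ∃ X, X = (bset B).filter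
    fun χ : IrrCharacter G => blockHeight 2 B (χ : G → ℂ) = 0 := ⟨_, rfl⟩
  have hk : k0 B = X.card := Nat.subtype_card X fun χ => by rw [hX, Finset.mem_filter, mem_bset]
  have h3 : (X.card : ℤ) ≤ ∑ χ ∈ bset B, a χ ^ 2 := by
    refine le_trans ?_ (Finset.sum_le_sum_of_subset_of_nonneg (hX ▸ Finset.filter_subset _ _ : X ⊆ _)
      fun χ _ _ => sq_nonneg (a χ))
    have := Finset.card_nsmul_le_sum X (fun χ => a χ ^ 2) 1 fun χ hχ => by
      obtain ⟨h4, h5⟩ := Finset.mem_filter.1 (hX ▸ hχ)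
      have h6 := (h.red_dv_ne_zero_iff hu hl (mem_bset.1 h4)).2 h5
      rw [ha'] at h6
      have h7 : a χ ≠ 0 := fun h7 => h6 (by rw [h7, Int.cast_zero])
      exact Int.add_one_le_iff.2 (show (0 : ℤ) < a χ ^ 2 by positivity)
    simpa using this
  have h4 : ((2 ^ (k + 1) : ℕ) : ℤ) ≤ S.card := by rw [hS]; exact_mod_cast av_card_gens hg
  have h5 : ((2 ^ (k + 1) : ℕ) : ℤ) * X.card ≤ 2 * 2 ^ blockDefect 2 b := by
    rw [← key2]
    exact mul_le_mul h4 h3 (by positivity) (by positivity)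
  rw [hk]
  have h6 : 2 ^ (k + 1) * X.card ≤ 2 * 2 ^ blockDefect 2 b := by exact_mod_cast h5
  rw [pow_succ', mul_assoc] at h6
  rw [mul_comm]
  omega

theorem k0_mul_le (h : MP 2 M B P e) (hu : u ∈ P) {k : ℕ} (ho : orderOf u = 2 ^ (k + 2))
    (hl : blockRank 2 (loc 2 M P e (zpowers u)) = 1) (h1 : Fus 2 P e u u⁻¹)
    (h2 : ∀ v ∈ zpowers u, Fus 2 P e u v → v = u ∨ v = u⁻¹) :
    k0 B * 2 ^ k ≤ 2 ^ blockDefect 2 (loc 2 M P e (zpowers u)) := by
  obtain ⟨g, hg⟩ := exists_cycP 2 (k + 1)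
  letI := Fintype.ofFinite (rootsOfUnity (2 ^ (k + 1 + 1)) ℂ)
  obtain ⟨ι, rfl⟩ := hg.exists_hom (u := u) (by rw [← ho, pow_orderOf_eq_one])
  exact av_main hg ι h hu ho hl h1 h2

end K44
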