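import Mathlib
import Cfsg.Agent.Lib.K44.Defs

set_option autoImplicit false

namespace K44

open Subgroup (zpowers)

variable {G : Type*} [Group G] [Finite G] {P : Subgroup G}

theorem ga_dvd {n : ℕ} {a b : ℤ} (h : (2 : ℤ) ^ n ∣ a * b) (o : Odd a) : (2 : ℤ) ^ n ∣ b :=
  ((Int.isCoprime_two_left.2 o).pow_left (m := n)).dvd_of_dvd_mul_left h

omit [Finite G] in
theorem ga_zpow {x : G} {n : ℕ} (hx : orderOf x = 2 ^ n) {a b : ℤ} :
    x ^ a = x ^ b ↔ (2 : ℤ) ^ n ∣ b - a := by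
  rw [zpow_eq_zpow_iff_modEq, Int.modEq_iff_dvd, hx]; simp

theorem sq_roots {x : G} {n : ℕ} (hx : orderOf x = 2 ^ n) {i : ℤ} (h : (x ^ i) ^ i = x) :
    (x ^ i) ^ 2 = x ^ 2 ∨ (x ^ i) ^ 2 = (x ^ 2)⁻¹ := by
  have h1 : (2 : ℤ) ^ n ∣ 1 - i * i := (ga_zpow hx).1 (by rw [zpow_mul, h, zpow_one])
  have e1 : (x ^ i) ^ 2 = x ^ (i * 2) := by rw [zpow_mul]; norm_cast
  have e2 : x ^ 2 = x ^ (2 : ℤ) := by norm_cast
  rw [e1, e2, ← zpow_neg, ga_zpow hx, ga_zpow hx]
  obtain ⟨j, rfl | rfl⟩ := Int.even_or_odd' i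
  · left
    have := ga_dvd (a := 2 * j + 1) (b := 1 - 2 * j) (by convert h1 using 1; ring) ⟨j, rfl⟩
    exact (show (1 - 2 * j) * 2 = 2 - 2 * j * 2 by ring) ▸ Dvd.dvd.mul_right this 2
  · rcases Int.even_or_odd j with hj | hj
    · left
      exact ga_dvd (a := j + 1) (by convert h1 using 1; ring) hj.add_one
    · right
      exact ga_dvd (a := j) (by convert h1 using 1; ring) hj

theorem eq_of_sq_eq_one {x g : G} {n : ℕ} (hx : orderOf x = 2 ^ (n + 1)) (hg : g ∈ zpowers x)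
    (h : g ^ 2 = 1) : g = 1 ∨ g = x ^ 2 ^ n := by
  obtain ⟨m, rfl⟩ := Subgroup.mem_zpowers_iff.1 hg
  have h1 : (2 : ℤ) ^ (n + 1) ∣ m * 2 - 0 := (ga_zpow hx).1 (by
    rw [zpow_mul, zpow_zero]; exact_mod_cast h.symm)
  rw [sub_zero, pow_succ] at h1
  obtain ⟨l, rfl⟩ := (mul_dvd_mul_iff_right two_ne_zero).1 h1
  have e : x ^ 2 ^ n = x ^ ((2 : ℤ) ^ n) := by norm_cast
  rw [e, ← zpow_zero x, ga_zpow hx, ga_zpow hx]
  obtain ⟨j, rfl | rfl⟩ := Int.even_or_odd' l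
  · exact Or.inl ⟨-j, by ring⟩
  · exact Or.inr ⟨-j, by ring⟩

theorem card_range_mul {D : Type*} [Group D] [Finite D] (π : D →* G) {z : D}
    (h : π.ker = zpowers z) : Nat.card π.range * orderOf z = Nat.card D := by
  rw [← Subgroup.index_ker, ← Nat.card_zpowers, ← h, Subgroup.index_mul_card]

theorem abF_of_card (hP : IsPGroup 2 P) (h : Nat.card P ≤ 4) : AbF P := by
  refine ⟨fun u hu v hv => ?_, (Finite.card_subtype_le _).trans h⟩
  obtain ⟨k, hk⟩ := hP.exists_card_eq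
  have hc : IsMulCommutative P := by
    have hk2 : k ≤ 2 := by
      by_contra hk2
      have : 2 ^ 3 ≤ 2 ^ k := Nat.pow_le_pow_right (by omega) (by omega)
      omega
    interval_cases k
    · haveI := (Nat.card_eq_one_iff_unique.1 hk).1
      exact ⟨⟨fun a b => Subsingleton.elim _ _⟩⟩
    · haveI := isCyclic_of_prime_card (p := 2) hk
      infer_instance
    · exact IsPGroup.isMulCommutative_of_card_eq_prime_sq hk
  exact congrArg Subtype.val (hc.is_comm.comm ⟨u, hu⟩ ⟨v, hv⟩)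

theorem abF_of_two {u v : G} (hc : u * v = v * u) (h : P = Subgroup.closure {u, v}) : AbF P := by
  have hC : Commute u v := hc
  have hm : ∀ g ∈ P, ∃ a b : ℤ, g = u ^ a * v ^ b := by
    intro g hg
    rw [h] at hg
    induction hg using Subgroup.closure_induction with
    | mem x hx =>
      rcases hx with rfl | rfl
      · exact ⟨1, 0, by simp⟩
      · exact ⟨0, 1, by simp⟩
    | one => exact ⟨0, 0, by simp⟩
    | mul x y _ _ hx hy =>
      obtain ⟨a, b, rfl⟩ := hx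
      obtain ⟨c, d, rfl⟩ := hy
      exact ⟨a + c, b + d, by
        rw [zpow_add, zpow_add, (hC.zpow_zpow c b).symm.mul_mul_mul_comm]⟩
    | inv x _ hx =>
      obtain ⟨a, b, rfl⟩ := hx
      exact ⟨-a, -b, by rw [(hC.zpow_zpow (-a) (-b)).eq]; group⟩
  have hcomm : ∀ a ∈ P, ∀ b ∈ P, a * b = b * a := by
    intro x hx y hy
    obtain ⟨a, b, rfl⟩ := hm x hx
    obtain ⟨c, d, rfl⟩ := hm y hy
    exact (((Commute.refl u).zpow_zpow a c).mul_right (hC.zpow_zpow a d)).mul_left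
      ((hC.symm.zpow_zpow b c).mul_right ((Commute.refl v).zpow_zpow b d))
  refine ⟨hcomm, ?_⟩
  letI : CommGroup P := { (inferInstance : Group P) with
    mul_comm := fun a b => Subtype.ext (hcomm a a.2 b b.2) }
  let f : P →* P := powMonoidHom 2
  have h1 : Nat.card {g : P // g ^ 2 = 1} = f.range.index := by
    change Nat.card f.ker = _
    refine Nat.eq_of_mul_eq_mul_right (Nat.card_pos (α := f.range)) ?_
    rw [Subgroup.index_mul_card, ← Subgroup.index_ker, Subgroup.card_mul_index]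
  let u' : P := ⟨u, h ▸ Subgroup.subset_closure (by simp)⟩
  let v' : P := ⟨v, h ▸ Subgroup.subset_closure (by simp)⟩
  let φ : Fin 2 × Fin 2 → P ⧸ f.range := fun r => ((u' ^ (r.1 : ℤ) * v' ^ (r.2 : ℤ) : P) : _)
  have hφ : Function.Surjective φ := by
    intro q
    obtain ⟨g, rfl⟩ := QuotientGroup.mk_surjective q
    obtain ⟨a, b, hg⟩ := hm g g.2
    have hg' : g = u' ^ a * v' ^ b := Subtype.ext hg
    have hr : ∀ a : ℤ, ∃ (c : ℤ) (r : Fin 2), a = 2 * c + (r : ℤ) := fun a => by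
      obtain ⟨j, rfl | rfl⟩ := Int.even_or_odd' a
      · exact ⟨j, 0, by simp⟩
      · exact ⟨j, 1, by simp⟩
    obtain ⟨c, r, rfl⟩ := hr a
    obtain ⟨d, s, rfl⟩ := hr b
    refine ⟨(r, s), QuotientGroup.eq.2 ⟨u' ^ c * v' ^ d, ?_⟩⟩
    rw [hg']
    change (u' ^ c * v' ^ d) ^ 2 = _
    apply Additive.ofMul.injective
    simp only [ofMul_mul, ofMul_zpow, ofMul_pow, ofMul_inv]
    module
  rw [h1]
  exact (Nat.card_le_card_of_surjective φ hφ).trans (by simp)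

theorem ga_tm {k : ℕ} {a : ℤ} {x y : G} (al : a = -1 ∨ (1 ≤ k ∧ a = 2 ^ (k + 1) - 1)) (mx : x ∈ P)
    (my : y ∈ P) (ord : orderOf x = 2 ^ (k + 2)) (card : Nat.card P = 2 * orderOf x)
    (ny : y ∉ zpowers x) (conj : y * x * y⁻¹ = x ^ a) (sq : y ^ 2 ∈ zpowers x) : TmF P := by
  refine ⟨k, a, x, y, al, mx, my, ord, by rw [card, ord]; ring, ny, conj,
    eq_of_sq_eq_one ord sq ?_⟩
  obtain ⟨j, hj⟩ := Subgroup.mem_zpowers_iff.1 sq
  have h1 : (2 : ℤ) ^ (k + 2) ∣ j - a * j := (ga_zpow ord).1 (by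
    rw [zpow_mul, ← conj, conj_zpow, hj]; group)
  have h2 : x ^ (0 : ℤ) = x ^ (j * 2) := by
    rw [ga_zpow ord]
    rcases al with rfl | ⟨hk, rfl⟩
    · convert h1 using 1; ring
    · refine ga_dvd (a := 1 - 2 ^ k) (by convert h1 using 1; ring) ?_
      exact odd_one.sub_even (Even.pow_of_ne_zero even_two (by omega))
  rw [zpow_zero, zpow_mul, hj] at h2
  exact_mod_cast h2.symm

theorem ga_cyc {x : G} (h : P = zpowers x) : AbF P :=
  abF_of_two (u := x) (v := x) rfl (by rw [h, Subgroup.zpowers_eq_closure, Set.pair_eq_singleton])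

theorem fam_of_idx2 (hP : IsPGroup 2 P) {x : G} (hx : x ∈ P) (hc : Nat.card P ≤ 2 * orderOf x)
    (h : (∀ g ∈ P, g * x ^ 2 = x ^ 2 * g) → x ^ 4 = 1) : AbF P ∨ TmF P := by
  have hle : zpowers x ≤ P := (Subgroup.zpowers_le).2 hx
  by_cases hC : P = zpowers x
  · exact Or.inl (ga_cyc hC)
  obtain ⟨y, hy, hny⟩ := SetLike.exists_of_lt (lt_of_le_of_ne hle (Ne.symm hC))
  have hcard : ((zpowers x).subgroupOf P).index * orderOf x = Nat.card P := by
    rw [← Nat.card_zpowers, ← Nat.card_congr (Subgroup.subgroupOfEquivOfLe hle).toEquiv,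
      Subgroup.index_mul_card]
  have hpos : 0 < orderOf x := orderOf_pos x
  have hidx : ((zpowers x).subgroupOf P).index = 2 := by
    have h1 : ((zpowers x).subgroupOf P).index ≠ 1 := fun e =>
      hny (Subgroup.subgroupOf_eq_top.1 (Subgroup.index_eq_one.1 e) hy)
    have h0 : ((zpowers x).subgroupOf P).index ≠ 0 := Subgroup.index_ne_zero_of_finite
    have h2 : ((zpowers x).subgroupOf P).index ≤ 2 :=
      Nat.le_of_mul_le_mul_right (hcard ▸ hc) hpos
    omega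
  rw [hidx] at hcard
  have hcov : ∀ g ∈ P, g ∈ zpowers x ∨ g * y⁻¹ ∈ zpowers x := fun g hg => by
    by_cases h1 : g ∈ zpowers x
    · exact Or.inl h1
    · exact Or.inr ((Subgroup.mul_mem_iff_of_index_two hidx (a := ⟨g, hg⟩)
        (b := ⟨y⁻¹, inv_mem hy⟩)).2 (iff_of_false h1 fun e => hny (inv_mem_iff.1 e)))
  have hsq : y ^ 2 ∈ zpowers x := Subgroup.sq_mem_of_index_two hidx ⟨y, hy⟩
  obtain ⟨i, hi⟩ := Subgroup.mem_zpowers_iff.1 ((Subgroup.normal_of_index_eq_two hidx).conj_mem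
    ⟨x, hx⟩ (Subgroup.mem_zpowers x) ⟨y, hy⟩ : y * x * y⁻¹ ∈ zpowers x)
  change x ^ i = y * x * y⁻¹ at hi
  have hab : y * x * y⁻¹ = x → AbF P := fun e => by
    refine abF_of_two (u := x) (v := y) (mul_inv_eq_iff_eq_mul.1 e).symm (le_antisymm
      (fun g hg => ?_) ((Subgroup.closure_le _).2 (by rintro _ (rfl | rfl) <;> assumption)))
    have h1 : zpowers x ≤ Subgroup.closure {x, y} :=
      (Subgroup.zpowers_le).2 (Subgroup.subset_closure (by simp))
    rcases hcov g hg with h2 | h2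
    · exact h1 h2
    · simpa using mul_mem (h1 h2) (Subgroup.subset_closure (by simp) : y ∈ Subgroup.closure {x, y})
  obtain ⟨n, hn⟩ := (IsPGroup.iff_orderOf.1 hP) ⟨x, hx⟩
  rw [Subgroup.orderOf_mk] at hn
  by_cases hn1 : n ≤ 1
  · refine Or.inl (abF_of_card hP ?_)
    have : 2 ^ n ≤ 2 ^ 1 := Nat.pow_le_pow_right (by omega) hn1
    omega
  obtain ⟨k, rfl⟩ : ∃ k, n = k + 2 := ⟨n - 2, by omega⟩
  have hii : (x ^ i) ^ i = x := by
    obtain ⟨j, hj⟩ := Subgroup.mem_zpowers_iff.1 hsq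
    calc (x ^ i) ^ i = y ^ 2 * x * (y ^ 2)⁻¹ := by
          rw [hi, conj_zpow, hi, pow_two]; group
      _ = x := by rw [← hj]; group
  have hB : (x ^ i) ^ 2 = (x ^ 2)⁻¹ → AbF P ∨ TmF P := fun e => by
    rcases eq_of_sq_eq_one (g := x ^ i * x) hn
      (mul_mem (Subgroup.zpow_mem_zpowers x i) (Subgroup.mem_zpowers x)) (by
        rw [(Commute.zpow_self x i).mul_pow, e, inv_mul_cancel]) with h1 | h1
    · exact Or.inr (ga_tm (Or.inl rfl) hx hy hn hcard.symm hny (by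
        rw [← hi, zpow_neg_one, eq_inv_iff_mul_eq_one, h1]) hsq)
    · have h2 : y * x * y⁻¹ = x ^ ((2 : ℤ) ^ (k + 1) - 1) := by
        rw [← hi, zpow_sub_one, eq_mul_inv_iff_mul_eq, h1]; norm_cast
      rcases Nat.eq_zero_or_pos k with rfl | hk
      · exact Or.inl (hab (by simpa using h2))
      · exact Or.inr (ga_tm (Or.inr ⟨hk, rfl⟩) hx hy hn hcard.symm hny h2 hsq)
  rcases sq_roots hn hii with e | e
  · have hy2 : y * x ^ 2 = x ^ 2 * y := by
      rw [hi, conj_pow] at e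
      exact mul_inv_eq_iff_eq_mul.1 e
    have h4 := h fun g hg => by
      have h1 : ∀ c ∈ zpowers x, Commute c (x ^ 2) := by
        rintro _ ⟨m, rfl⟩; exact (Commute.zpow_self x m).pow_right 2
      rcases hcov g hg with h2 | h2
      · exact h1 g h2
      · simpa using ((h1 _ h2).mul_left hy2).eq
    refine hB (e.trans (eq_inv_iff_mul_eq_one.2 ?_))
    rw [← pow_add]; exact h4
  · exact hB e

theorem fam_of_eight (hP : IsPGroup 2 P) (hc : Nat.card P ≤ 8) {g : G} (hg : g ∈ P)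
    (h : g ^ 2 ≠ 1) : AbF P ∨ TmF P := by
  obtain ⟨n, hn⟩ := (IsPGroup.iff_orderOf.1 hP) ⟨g, hg⟩
  rw [Subgroup.orderOf_mk] at hn
  have h2 : ¬ n ≤ 1 := fun e => h (orderOf_dvd_iff_pow_eq_one.1 (hn ▸ pow_dvd_pow 2 e))
  by_cases h3 : n = 2
  · subst h3
    exact fam_of_idx2 hP hg (by omega) fun _ => orderOf_dvd_iff_pow_eq_one.1 (by rw [hn]; norm_num)
  · have : 2 ^ 3 ≤ 2 ^ n := Nat.pow_le_pow_right (by omega) (by omega)
    exact Or.inl (ga_cyc (Subgroup.eq_of_le_of_card_ge ((Subgroup.zpowers_le).2 hg) (by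
      rw [Nat.card_zpowers]; omega)).symm)

end K44
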