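import Mathlib
import Cfsg.Agent.Lib.Blk86.Stable
import Cfsg.Agent.Lib.K44.Defs
import Cfsg.Agent.Lib.K44.GA

set_option autoImplicit false
set_option linter.unusedSectionVars false

namespace K44

open H86 (Cen Nor cs)
open Subgroup (zpowers)

variable {G : Type*} [Group G] [Finite G] {k : ℕ} {P A : Subgroup G} {a c d s s' u u' f g : G}

theorem gq_card2 {X : Type*} [Group X] {H K : Subgroup X} {x : X} (hle : H ≤ K) (hx : x ∈ K) (hn : x ∉ H)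
    (h : ∀ y ∈ K, y ∈ H ∨ x * y ∈ H) : Nat.card K = 2 * Nat.card H := by
  have e : (H.subgroupOf K).index = 2 := Subgroup.index_eq_two_iff'.2 ⟨⟨x, hx⟩, fun b => by
    by_cases hb : (b : X) ∈ H
    · exact Or.inr ⟨hb, fun h' => hn ((H.mul_mem_cancel_right hb).1 h')⟩
    · exact Or.inl ⟨(h b b.2).resolve_left hb, hb⟩⟩
  rw [← (H.subgroupOf K).card_mul_index, e, Nat.card_congr (Subgroup.subgroupOfEquivOfLe hle).toEquiv, mul_comm]

theorem gq_cz : g ∈ Cen (zpowers u) ↔ u * g = g * u := by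
  refine ⟨fun h => h u (Subgroup.mem_zpowers u), fun h => ?_⟩
  rintro _ ⟨i, rfl⟩
  exact (Commute.zpow_left h i).eq

theorem gq_climb {t x z : G} (ho : ¬ 2 ∣ orderOf t) (h : t * x * t⁻¹ = x * z) (hz : z * t = t * z)
    (z2 : z ^ 2 = 1) : x * t = t * x := by
  refine gq_cz.1 (H86.mem_of_pow_mem ho (k := 1) (gq_cz.2 ?_))
  have e : t * (t * x * t⁻¹) * t⁻¹ = x := by
    calc _ = t * (x * z) * t⁻¹ := by rw [h]
      _ = (t * x * t⁻¹) * (t * z) * t⁻¹ := by group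
      _ = x := by rw [h, ← hz, mul_assoc, mul_inv_cancel_right, mul_assoc, ← sq, z2, mul_one]
  rw [pow_one, sq]
  conv_lhs => rw [← e]
  group

namespace QS0

theorem a_mem (q : QS0 k P A a c) : a ∈ A := (q.mem a).2 (Or.inl (Subgroup.mem_zpowers a))

theorem c_mem (q : QS0 k P A a c) : c ∈ A :=
  (q.mem c).2 (Or.inr (by rw [← sq, q.c_sq]; exact one_mem _))

theorem gq_nf (q : QS0 k P A a c) (hu : u ∈ A) : ∃ i : ℤ, u = a ^ i ∨ u = a ^ i * c := by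
  rcases (q.mem u).1 hu with ⟨i, h⟩ | ⟨i, h⟩
  · exact ⟨i, Or.inl h.symm⟩
  · refine ⟨i, Or.inr ?_⟩
    change a ^ i = _ at h
    rw [h, mul_assoc, ← sq, q.c_sq, mul_one]

theorem gq_comm (q : QS0 k P A a c) (ha : a * g = g * a) (hc : c * g = g * c) (hu : u ∈ A) :
    u * g = g * u := by
  obtain ⟨i, rfl | rfl⟩ := q.gq_nf hu
  · exact (Commute.zpow_left ha i).eq
  · exact ((Commute.zpow_left ha i).mul_left hc).eq

theorem comm (q : QS0 k P A a c) (hu : u ∈ A) (hu' : u' ∈ A) : u * u' = u' * u :=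
  q.gq_comm (q.gq_comm rfl q.ac.symm hu').symm (q.gq_comm q.ac rfl hu').symm hu

theorem mul_mem_of_not (q : QS0 k P A a c) (hs : s ∈ P) (hn : s ∉ A) (hs' : s' ∈ P)
    (hn' : s' ∉ A) : s * s' ∈ A := by
  simpa using q.two s⁻¹ (inv_mem hs) (by simpa using hn) s' hs' hn'

theorem gq_conj (q : QS0 k P A a c) (hg : g ∈ P) (hu : u ∈ A) : g * u * g⁻¹ ∈ A := by
  by_cases h : g ∈ A
  · exact mul_mem (mul_mem h hu) (inv_mem h)
  · exact q.mul_mem_of_not (mul_mem hg (q.le hu)) (fun h' => h ((A.mul_mem_cancel_right hu).1 h'))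
      (inv_mem hg) (by simpa using h)

theorem conj_mem_iff (q : QS0 k P A a c) (hg : g ∈ P) : g * u * g⁻¹ ∈ A ↔ u ∈ A :=
  ⟨fun h => by simpa [mul_assoc] using q.gq_conj (inv_mem hg) h, q.gq_conj hg⟩

theorem le_Nor (q : QS0 k P A a c) : P ≤ Nor A := fun _ hg =>
  H86.mem_Nor.2 fun _ => (q.conj_mem_iff hg).symm

theorem card_A (q : QS0 k P A a c) : Nat.card A = 2 ^ (k + 3) := by
  rw [gq_card2 (Subgroup.zpowers_le.2 q.a_mem) q.c_mem q.c_not fun y hy =>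
    ((q.mem y).1 hy).imp_right fun h => by rwa [q.comm q.c_mem hy], Nat.card_zpowers, q.ord]
  ring

theorem card_P (q : QS0 k P A a c) : Nat.card P = 2 ^ (k + 4) := by
  obtain ⟨s, hs, hn⟩ := q.ex
  rw [gq_card2 q.le hs hn fun y hy => or_iff_not_imp_left.2 (q.mul_mem_of_not hs hn hy), q.card_A]
  ring

theorem gq_pow_ne (q : QS0 k P A a c) {j : ℕ} (hj : j ≤ k + 1) : a ^ 2 ^ j ≠ 1 :=
  pow_ne_one_of_lt_orderOf (by positivity) (by rw [q.ord]; exact Nat.pow_lt_pow_right (by norm_num) (by omega))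

theorem mem_Z (q : QS0 k P A a c) : g ∈ P ⊓ Cen P ↔ g ∈ A ∧ g ^ 2 = 1 := by
  constructor
  · rintro ⟨hg, hc⟩
    obtain ⟨s, hs, hn⟩ := q.ex
    have hA : g ∈ A := by
      by_contra h
      exact q.gq_pow_ne (j := 1) (by omega) ((q.fix g hg h a q.a_mem).1 (hc a (q.le q.a_mem)).symm)
    exact ⟨hA, (q.fix s hs hn g hA).1 (hc s hs)⟩
  · rintro ⟨hA, h2⟩
    refine ⟨q.le hA, fun p hp => ?_⟩
    by_cases h : p ∈ A
    · exact q.comm h hA
    · exact (q.fix p hp h g hA).2 h2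

theorem gq_zeta_sq (q : QS0 k P A a c) : (a ^ 2 ^ (k + 1)) ^ 2 = 1 := by
  rw [← pow_mul, ← pow_succ, ← q.ord, pow_orderOf_eq_one]

theorem zeta_mem (q : QS0 k P A a c) : a ^ 2 ^ (k + 1) ∈ P ⊓ Cen P :=
  q.mem_Z.2 ⟨pow_mem q.a_mem _, q.gq_zeta_sq⟩

theorem gq_c_mem (q : QS0 k P A a c) : c ∈ P ⊓ Cen P := q.mem_Z.2 ⟨q.c_mem, q.c_sq⟩

theorem mem_Z' (q : QS0 k P A a c) : g ∈ P ⊓ Cen P ↔
    g = 1 ∨ g = a ^ 2 ^ (k + 1) ∨ g = c ∨ g = a ^ 2 ^ (k + 1) * c := by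
  constructor
  · intro h
    obtain ⟨hA, h2⟩ := q.mem_Z.1 h
    obtain ⟨i, rfl | rfl⟩ := q.gq_nf hA
    · rcases eq_of_sq_eq_one q.ord (Subgroup.zpow_mem_zpowers a i) h2 with e | e
      · exact Or.inl e
      · exact Or.inr (Or.inl e)
    · rw [(Commute.zpow_left q.ac i).mul_pow, q.c_sq, mul_one] at h2
      rcases eq_of_sq_eq_one q.ord (Subgroup.zpow_mem_zpowers a i) h2 with e | e
      · exact Or.inr (Or.inr (Or.inl (by rw [e, one_mul])))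
      · exact Or.inr (Or.inr (Or.inr (by rw [e])))
  · rintro (h | h | h | h) <;> rw [h]
    · exact one_mem _
    · exact q.zeta_mem
    · exact q.gq_c_mem
    · exact mul_mem q.zeta_mem q.gq_c_mem

theorem zeta_ne_one (q : QS0 k P A a c) : a ^ 2 ^ (k + 1) ≠ 1 := q.gq_pow_ne le_rfl

theorem card_Z (q : QS0 k P A a c) : Nat.card (P ⊓ Cen P : Subgroup G) = 4 := by
  have e : orderOf (a ^ 2 ^ (k + 1)) = 2 := orderOf_eq_prime q.gq_zeta_sq q.zeta_ne_one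
  rw [gq_card2 (Subgroup.zpowers_le.2 q.zeta_mem) q.gq_c_mem
    (fun h => q.c_not (Subgroup.zpowers_le.2 (pow_mem (Subgroup.mem_zpowers a) _) h)) fun y hy => ?_,
    Nat.card_zpowers, e]
  rcases q.mem_Z'.1 hy with h | h | h | h <;> rw [h]
  · exact Or.inl (one_mem _)
  · exact Or.inl (Subgroup.mem_zpowers _)
  · exact Or.inr (by rw [← sq, q.c_sq]; exact one_mem _)
  · refine Or.inr ?_
    rw [← q.comm (mul_mem (pow_mem q.a_mem _) q.c_mem) q.c_mem, mul_assoc, ← sq, q.c_sq, mul_one]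
    exact Subgroup.mem_zpowers _

theorem sq_eq_zeta (q : QS0 k P A a c) (hu : u ∈ A) (h2 : u ^ 2 ≠ 1) (h4 : u ^ 4 = 1) :
    u ^ 2 = a ^ 2 ^ (k + 1) := by
  refine (eq_of_sq_eq_one q.ord ?_ (by rw [← pow_mul]; exact h4)).resolve_left h2
  obtain ⟨i, rfl | rfl⟩ := q.gq_nf hu
  · exact pow_mem (Subgroup.zpow_mem_zpowers a i) 2
  · rw [(Commute.zpow_left q.ac i).mul_pow, q.c_sq, mul_one]
    exact pow_mem (Subgroup.zpow_mem_zpowers a i) 2

theorem sq_mem_Z (q : QS0 k P A a c) (hs : s ∈ P) (hn : s ∉ A) : s ^ 2 ∈ P ⊓ Cen P := by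
  have h : s ^ 2 ∈ A := by rw [sq]; exact q.mul_mem_of_not hs hn hs hn
  exact q.mem_Z.2 ⟨h, (q.fix s hs hn _ h).1 (Commute.self_pow s 2).eq⟩

theorem cen_A (q : QS0 k P A a c) (hu : u ∈ A) (h2 : u ^ 2 ≠ 1) : P ⊓ Cen (zpowers u) = A := by
  refine le_antisymm (fun g hg => ?_) fun g hg => ⟨q.le hg, gq_cz.2 (q.comm hu hg)⟩
  by_contra h
  exact h2 ((q.fix g hg.1 h u hu).1 (gq_cz.1 hg.2).symm)

theorem mem_E (q : QS0 k P A a c) (hs : s ∈ P) (hn : s ∉ A) :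
    g ∈ P ⊓ Cen (zpowers s) ↔ g ∈ P ⊓ Cen P ∨ s⁻¹ * g ∈ P ⊓ Cen P := by
  constructor
  · rintro ⟨hg, hc⟩
    have e := gq_cz.1 hc
    by_cases h : g ∈ A
    · exact Or.inl (q.mem_Z.2 ⟨h, (q.fix s hs hn g h).1 e⟩)
    · have h' := q.two s hs hn g hg h
      refine Or.inr (q.mem_Z.2 ⟨h', (q.fix s hs hn _ h').1 ?_⟩)
      rw [mul_assoc, ← e]; group
  · rintro (h | h)
    · exact ⟨h.1, gq_cz.2 (h.2 s hs)⟩
    · refine ⟨(P.mul_mem_cancel_left (inv_mem hs)).1 h.1, gq_cz.2 ?_⟩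
      have e := h.2 s hs
      rw [mul_inv_cancel_left, mul_assoc, eq_inv_mul_iff_mul_eq] at e
      exact e

theorem card_E (q : QS0 k P A a c) (hs : s ∈ P) (hn : s ∉ A) :
    Nat.card (P ⊓ Cen (zpowers s) : Subgroup G) = 8 := by
  rw [gq_card2 (x := s⁻¹) (fun g hg => (q.mem_E hs hn).2 (Or.inl hg)) (inv_mem ⟨hs, gq_cz.2 rfl⟩)
    (fun h => hn (by simpa using (q.mem_Z.1 h).1)) fun y hy => (q.mem_E hs hn).1 hy, q.card_Z]

theorem card_cen_le (q : QS0 k P A a c) (hg : g ∈ P) (h2 : g ^ 2 ≠ 1) :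
    Nat.card (P ⊓ Cen (zpowers g) : Subgroup G) ≤ 2 ^ (k + 3) := by
  by_cases h : g ∈ A
  · rw [q.cen_A h h2, q.card_A]
  · rw [q.card_E hg h]
    exact Nat.pow_le_pow_right (n := 2) (i := 3) (by norm_num) (by omega)

theorem E_ab (q : QS0 k P A a c) (hs : s ∈ P) (hn : s ∉ A) :
    P ⊓ Cen (zpowers s) ≤ Cen (P ⊓ Cen (zpowers s) : Subgroup G) := by
  intro g hg y hy
  rcases (q.mem_E hs hn).1 hg with h | h
  · exact h.2 y hy.1
  · have e : Commute y (s * (s⁻¹ * g)) := Commute.mul_right (gq_cz.1 hy.2).symm (h.2 y hy.1)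
    rwa [mul_inv_cancel_left] at e

theorem conj_A (q : QS0 k P A a c) (hs : s ∈ P) (hn : s ∉ A) (hg : g ∈ P) (hu : u ∈ A) :
    g * u * g⁻¹ = u ∨ g * u * g⁻¹ = s * u * s⁻¹ := by
  by_cases h : g ∈ A
  · exact Or.inl (by rw [q.comm h hu, mul_inv_cancel_right])
  · right
    calc _ = s * (s⁻¹ * g * u) * g⁻¹ := by group
      _ = _ := by rw [q.comm (q.two s hs hn g hg h) hu]; group

theorem conj_conj (q : QS0 k P A a c) (hs : s ∈ P) (hn : s ∉ A) (hu : u ∈ A) :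
    s * (s * u * s⁻¹) * s⁻¹ = u := by
  calc _ = s * s * u * (s * s)⁻¹ := by group
    _ = _ := by rw [q.comm (q.mul_mem_of_not hs hn hs hn) hu, mul_inv_cancel_right]

theorem exists_d (q : QS0 k P A a c) : ∃ d, QS k P A a c d := by
  obtain ⟨s, hs, hn⟩ := q.ex
  have hv : a ^ 2 ^ k ∈ A := pow_mem q.a_mem _
  refine ⟨s⁻¹ * (a ^ 2 ^ k * s * (a ^ 2 ^ k)⁻¹), q, fun s' hs' hn' => ?_⟩
  generalize a ^ 2 ^ k = v at hv
  have hw := q.two s hs hn s' hs' hn'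
  have hd : s⁻¹ * (v * s * v⁻¹) ∈ A := by
    have := mul_mem (q.gq_conj (inv_mem hs) hv) (inv_mem hv)
    simpa [mul_assoc] using this
  calc v * s' * v⁻¹ = v * s * (s⁻¹ * s' * v⁻¹) := by group
    _ = s * (s⁻¹ * (v * s * v⁻¹) * (s⁻¹ * s')) := by rw [q.comm hw (inv_mem hv)]; group
    _ = _ := by rw [q.comm hd hw]; group

theorem odd_A (q : QS0 k P A a c) {t : G} (ht : t ∈ Nor A) (ho : ¬ 2 ∣ orderOf t) :
    t ∈ Cen A := by
  have cj : ∀ (x : G) (n : ℕ), (t * x * t⁻¹) ^ n = t * x ^ n * t⁻¹ := fun x n => conj_pow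
  have hv : a ^ 2 ^ k ∈ A := pow_mem q.a_mem _
  have v2 : (a ^ 2 ^ k) ^ 2 = a ^ 2 ^ (k + 1) := by rw [← pow_mul, ← pow_succ]
  have hz : a ^ 2 ^ (k + 1) * t = t * a ^ 2 ^ (k + 1) := by
    have := q.sq_eq_zeta (H86.conj_mem_of_Nor ht hv) (by rw [cj, v2]; simpa using q.zeta_ne_one)
      (by rw [cj, show 4 = 2 * 2 from rfl, pow_mul, v2, q.gq_zeta_sq]; simp)
    rw [cj, v2, mul_inv_eq_iff_eq_mul] at this
    exact this.symm
  have hc : c * t = t * c := by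
    have h : t * c * t⁻¹ ∈ P ⊓ Cen P :=
      q.mem_Z.2 ⟨H86.conj_mem_of_Nor ht q.c_mem, by rw [cj, q.c_sq]; simp⟩
    rcases q.mem_Z'.1 h with e | e | e | e
    · exact absurd (by rw [show c = 1 by simpa using e]; exact one_mem _) q.c_not
    · rw [mul_inv_eq_iff_eq_mul, hz, mul_right_inj] at e
      exact absurd (e ▸ pow_mem (Subgroup.mem_zpowers a) _) q.c_not
    · exact (mul_inv_eq_iff_eq_mul.1 e).symm
    · exact gq_climb ho (e.trans (q.comm (pow_mem q.a_mem _) q.c_mem)) hz q.gq_zeta_sq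
  have hZ : ∀ z ∈ P ⊓ Cen P, z * t = t * z := fun z hz' => by
    rcases q.mem_Z'.1 hz' with e | e | e | e <;> rw [e]
    · simp
    · exact hz
    · exact hc
    · exact (Commute.mul_left hz hc).eq
  have key : ∀ n : ℕ, ∀ u ∈ A, u ^ 2 ^ n = 1 → u * t = t * u := by
    intro n
    induction n with
    | zero => intro u _ h; rw [show u = 1 by simpa using h]; simp
    | succ n ih =>
      intro u hu h
      have h2 := ih (u ^ 2) (pow_mem hu 2) (by rw [← pow_mul, ← pow_succ', h])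
      have hu' := H86.conj_mem_of_Nor ht hu
      have z2 : (u⁻¹ * (t * u * t⁻¹)) ^ 2 = 1 := by
        rw [Commute.mul_pow (q.comm (inv_mem hu) hu'), cj, ← h2]; simp
      exact gq_climb ho (mul_inv_cancel_left u _).symm (hZ _ (q.mem_Z.2 ⟨mul_mem (inv_mem hu) hu', z2⟩)) z2
  exact fun u hu => q.gq_comm (key (k + 2) a q.a_mem (by rw [← q.ord, pow_orderOf_eq_one])) hc hu

end QS0

theorem QS.subgroupOf (q : QS k P A a c d) {K : Subgroup G} (hK : P ≤ K) (ha : a ∈ K) (hc : c ∈ K)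
    (hd : d ∈ K) : QS k (P.subgroupOf K) (A.subgroupOf K) ⟨a, ha⟩ ⟨c, hc⟩ ⟨d, hd⟩ := by
  have zp : ∀ u : K, u ∈ zpowers (⟨a, ha⟩ : K) ↔ (u : G) ∈ zpowers a := fun u =>
    ⟨fun ⟨i, h⟩ => ⟨i, congrArg Subtype.val h⟩, fun ⟨i, h⟩ => ⟨i, Subtype.ext h⟩⟩
  obtain ⟨s, hs, hn⟩ := q.ex
  exact {
    le := fun _ h => q.le h
    ex := ⟨⟨s, hK hs⟩, hs, hn⟩
    two := fun s hs hn s' hs' hn' => q.two s hs hn s' hs' hn'
    ord := by rw [Subgroup.orderOf_mk, q.ord]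
    c_sq := Subtype.ext q.c_sq
    c_not := fun h => q.c_not ((zp _).1 h)
    ac := Subtype.ext q.ac
    mem := fun u => by rw [zp, zp]; exact q.mem u
    fix := fun s hs hn u hu => by rw [Subtype.ext_iff, Subtype.ext_iff]; exact q.fix s hs hn u hu
    nz := fun s hs hn h => q.nz s hs hn (congrArg Subtype.val h)
    dl := fun s hs hn => Subtype.ext (q.dl s hs hn) }

theorem mem_Z_subgroupOf {K : Subgroup G} (hK : P ≤ K) {g : K} :
    g ∈ P.subgroupOf K ⊓ Cen (P.subgroupOf K) ↔ (g : G) ∈ P ⊓ Cen P :=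
  ⟨fun h => ⟨h.1, fun p hp => congrArg Subtype.val (h.2 ⟨p, hK hp⟩ hp)⟩,
    fun h => ⟨h.1, fun p hp => Subtype.ext (h.2 p hp)⟩⟩

end K44
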