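import Mathlib
import Cfsg.Agent.Lib.K44.GQ1

set_option autoImplicit false
set_option linter.unusedSectionVars false

namespace K44

open H86 (Cen Nor cs)
open Subgroup (zpowers)

variable {G : Type*} [Group G] [Finite G] {k : ℕ} {P A : Subgroup G} {a c d s s' u u' f g : G}

theorem gq_ex (q : QS0 k P A a c) (x : G) : ∃ f ∈ P ⊓ Cen P, f ≠ 1 ∧ f ≠ x := by
  by_cases h : a ^ 2 ^ (k + 1) = x
  · exact ⟨c, q.gq_c_mem, fun e => q.c_not (e ▸ one_mem _),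
      fun e => q.c_not (by rw [e, ← h]; exact pow_mem (Subgroup.mem_zpowers a) _)⟩
  · exact ⟨_, q.zeta_mem, q.zeta_ne_one, h⟩

theorem gq_four (q : QS0 k P A a c) {x : G} (hx : x ∈ P ⊓ Cen P) (x1 : x ≠ 1) (hf : f ∈ P ⊓ Cen P)
    (h1 : f ≠ 1) (h2 : f ≠ x) : g ∈ P ⊓ Cen P ↔ g = 1 ∨ g = x ∨ g = f ∨ g = x * f := by
  have e : ({1, x, f, x * f} : Set G) = (P ⊓ Cen P : Subgroup G) := by
    refine Set.eq_of_subset_of_ncard_le ?_ (le_of_eq ?_)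
    · rintro y (h | h | h | h) <;> rw [h]
      · exact one_mem _
      · exact hx
      · exact hf
      · exact mul_mem hx hf
    · rw [← Nat.card_coe_set_eq]
      refine q.card_Z.trans (Set.ncard_eq_four.2 ⟨_, _, _, _, x1.symm, h1.symm, fun e => h2 ?_, h2.symm,
        by simpa using h1, by simpa using x1, rfl⟩).symm
      rw [← mul_right_inj x, ← e, ← sq, (q.mem_Z.1 hx).2]
  rw [← SetLike.mem_coe, ← e]; simp

namespace QS

theorem gq_v (q : QS k P A a c d) : a ^ 2 ^ k ∈ A := pow_mem q.a_mem _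

theorem gq_v2 : (a ^ 2 ^ k) ^ 2 = a ^ 2 ^ (k + 1) := by rw [← pow_mul, ← pow_succ]

theorem d_mem (q : QS k P A a c d) : d ∈ P ⊓ Cen P := by
  obtain ⟨s, hs, hn⟩ := q.ex
  have h := q.dl s hs hn
  have hz := q.zeta_mem.2 s hs
  rw [← gq_v2] at hz
  have hv := q.gq_v
  generalize a ^ 2 ^ k = v at h hz hv
  have hd : d ∈ A := by
    have := mul_mem (q.gq_conj (inv_mem hs) hv) (inv_mem hv)
    rwa [show s⁻¹ * v * s⁻¹⁻¹ * v⁻¹ = s⁻¹ * (v * s * v⁻¹) by group, h, inv_mul_cancel_left] at this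
  refine q.mem_Z.2 ⟨hd, ?_⟩
  rw [← mul_right_inj s, mul_one]
  calc s * d ^ 2 = v * s * v⁻¹ * d := by rw [h, sq, mul_assoc]
    _ = v * (s * d) * v⁻¹ := by rw [mul_assoc, q.comm (inv_mem hv) hd]; group
    _ = v ^ 2 * s * (v ^ 2)⁻¹ := by rw [← h, sq]; group
    _ = s := by rw [← hz, mul_inv_cancel_right]

theorem d_ne_one (q : QS k P A a c d) : d ≠ 1 := by
  obtain ⟨s, hs, hn⟩ := q.ex
  intro e
  have h := q.dl s hs hn
  rw [e, mul_one, mul_inv_eq_iff_eq_mul] at h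
  exact q.zeta_ne_one (gq_v2.symm.trans ((q.fix s hs hn _ q.gq_v).1 h.symm))

theorem exists_f (q : QS k P A a c d) : ∃ f ∈ P ⊓ Cen P, f ≠ 1 ∧ f ≠ d := gq_ex q.toQS0 d

theorem mem_Z_iff (q : QS k P A a c d) (hf : f ∈ P ⊓ Cen P) (h1 : f ≠ 1) (h2 : f ≠ d) :
    g ∈ P ⊓ Cen P ↔ g = 1 ∨ g = d ∨ g = f ∨ g = d * f := gq_four q.toQS0 q.d_mem q.d_ne_one hf h1 h2

theorem v_mem (q : QS k P A a c d) (hs : s ∈ P) (hn : s ∉ A) :
    a ^ 2 ^ k ∈ P ⊓ Nor (P ⊓ Cen (zpowers s) : Subgroup G) := by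
  have hv := q.le q.gq_v
  refine ⟨hv, Subgroup.mem_normalizer_fintype fun y hy => (q.mem_E hs hn).2 ?_⟩
  rcases (q.mem_E hs hn).1 hy with h | h
  · left
    rwa [h.2 _ hv, mul_inv_cancel_right]
  · right
    have e : s⁻¹ * (a ^ 2 ^ k * y * (a ^ 2 ^ k)⁻¹) = d * (s⁻¹ * y) := by
      calc _ = s⁻¹ * (a ^ 2 ^ k * s * (a ^ 2 ^ k)⁻¹) * (a ^ 2 ^ k * (s⁻¹ * y) * (a ^ 2 ^ k)⁻¹) := by group
        _ = _ := by rw [q.dl s hs hn, h.2 _ hv]; group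
    rw [e]
    exact mul_mem q.d_mem h

theorem not_conj (q : QS k P A a c d) (hs : s ∈ P) (hn : s ∉ A) (hf : f ∈ P ⊓ Cen P) (h1 : f ≠ 1)
    (h2 : f ≠ d) (hg : g ∈ P) : g * s * g⁻¹ ≠ s * f := by
  intro e
  obtain ⟨u, hu, e⟩ : ∃ u ∈ A, u * s * u⁻¹ = s * f := by
    by_cases h : g ∈ A
    · exact ⟨g, h, e⟩
    · exact ⟨g * s, q.mul_mem_of_not hg h hs hn, by rw [← e]; group⟩
  have h4 : (u ^ 2) ^ 2 = 1 := by
    refine (q.fix s hs hn _ (pow_mem hu 2)).1 (mul_inv_eq_iff_eq_mul.1 ?_).symm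
    calc u ^ 2 * s * (u ^ 2)⁻¹ = u * (u * s * u⁻¹) * u⁻¹ := by rw [sq]; group
      _ = u * (s * f) * u⁻¹ := by rw [e]
      _ = u * s * u⁻¹ * (u * f) * u⁻¹ := by group
      _ = s := by
        rw [e, hf.2 u (q.le hu), mul_assoc, mul_inv_cancel_right, mul_assoc, ← sq, (q.mem_Z.1 hf).2, mul_one]
  by_cases u2 : u ^ 2 = 1
  · rw [← (q.fix s hs hn u hu).2 u2, mul_inv_cancel_right] at e
    exact h1 (by simpa using e)
  · have z := q.sq_eq_zeta hu u2 (by rw [← h4, ← pow_mul])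
    have hw : (a ^ 2 ^ k)⁻¹ * u ∈ A := mul_mem (inv_mem q.gq_v) hu
    have c := (q.fix s hs hn _ hw).2 (by
      rw [Commute.mul_pow (q.comm (inv_mem q.gq_v) hu), inv_pow, gq_v2, z, inv_mul_cancel])
    refine h2 (mul_left_cancel (a := s) ?_)
    rw [← e, ← q.dl s hs hn]
    calc u * s * u⁻¹ = a ^ 2 ^ k * ((a ^ 2 ^ k)⁻¹ * u * s) * u⁻¹ := by group
      _ = _ := by rw [← c]; group

theorem gq_eq_d (q : QS k P A a c d) (hs : s ∈ P) (hn : s ∉ A) (hf : f ∈ P ⊓ Cen P) (hg : g ∈ P)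
    (e : g * s * g⁻¹ = s * f) : f = 1 ∨ f = d := by
  by_contra h
  push Not at h
  exact q.not_conj hs hn hf h.1 h.2 hg e

theorem nor_E (q : QS k P A a c d) (hs : s ∈ P) (hn : s ∉ A)
    (hg : g ∈ P ⊓ Nor (P ⊓ Cen (zpowers s) : Subgroup G)) :
    g * s * g⁻¹ = s ∨ g * s * g⁻¹ = s * d := by
  rcases (q.mem_E hs hn).1 (H86.conj_mem_of_Nor hg.2 ⟨hs, gq_cz.2 rfl⟩) with h | h
  · exact absurd ((q.conj_mem_iff hg.1).1 (q.mem_Z.1 h).1) hn
  · rcases q.gq_eq_d hs hn h hg.1 (mul_inv_cancel_left s _).symm with e | e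
    · exact Or.inl (inv_mul_eq_one.1 e).symm
    · exact Or.inr (inv_mul_eq_iff_eq_mul.1 e)

theorem card_nor_E (q : QS k P A a c d) (hs : s ∈ P) (hn : s ∉ A) :
    Nat.card (P ⊓ Nor (P ⊓ Cen (zpowers s) : Subgroup G) : Subgroup G) = 16 := by
  rw [gq_card2 (H := P ⊓ Cen (zpowers s)) (le_inf inf_le_left Subgroup.le_normalizer)
    (inv_mem (q.v_mem hs hn)) (fun h => ?_) fun y hy => ?_, q.card_E hs hn]
  · have e := q.dl s hs hn
    rw [← gq_cz.1 ((Subgroup.inv_mem_iff _).1 h).2, mul_inv_cancel_right] at e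
    exact q.d_ne_one (by simpa using e)
  · rcases q.nor_E hs hn hy with e | e
    · exact Or.inl ⟨hy.1, gq_cz.2 (mul_inv_eq_iff_eq_mul.1 e).symm⟩
    · refine Or.inr ⟨P.mul_mem (P.inv_mem (q.le q.gq_v)) hy.1, gq_cz.2 ?_⟩
      rw [← q.dl s hs hn] at e
      calc _ = (a ^ 2 ^ k)⁻¹ * (a ^ 2 ^ k * s * (a ^ 2 ^ k)⁻¹) * y := by group
        _ = _ := by rw [← e]; group

theorem eq_E (q : QS k P A a c d) {R : Subgroup G} (hR : R ≤ P) (h2 : ∀ r ∈ R, r ^ 2 = 1)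
    (h8 : Nat.card R = 8) : ∃ s ∈ P, s ∉ A ∧ R = P ⊓ Cen (zpowers s) := by
  obtain ⟨s, hs, hn⟩ : ∃ s ∈ R, s ∉ A := by
    by_contra h
    push Not at h
    have := Subgroup.card_le_of_le (show R ≤ P ⊓ Cen P from fun r hr => q.mem_Z.2 ⟨h r hr, h2 r hr⟩)
    rw [h8, q.card_Z] at this
    omega
  refine ⟨s, hR hs, hn, Subgroup.eq_of_le_of_card_ge (fun r hr => ⟨hR hr, gq_cz.2 ?_⟩)
    (by rw [h8, q.card_E (hR hs) hn])⟩
  have i : ∀ x ∈ R, x⁻¹ = x := fun x hx => inv_eq_of_mul_eq_one_right (by rw [← sq, h2 x hx])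
  rw [← i _ (mul_mem hs hr), mul_inv_rev, i _ hs, i _ hr]

theorem odd_Z (q : QS k P A a c d) {t : G} (ht : t ∈ Nor P) (ho : ¬ 2 ∣ orderOf t) :
    t ∈ Cen (P ⊓ Cen P : Subgroup G) := by
  have hN : t ∈ Nor (P ⊓ Cen P) := H86.mem_Nor_inf ht (H86.Nor_le_Nor_Cen P ht)
  obtain ⟨s, hs, hn⟩ := q.ex
  have hd := H86.conj_mem_of_Nor hN q.d_mem
  have d1 : t * d * t⁻¹ ≠ 1 := by simpa using q.d_ne_one
  have hs' := H86.conj_mem_of_Nor ht hs
  have hv' := H86.conj_mem_of_Nor ht (q.le q.gq_v)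
  have e : t * a ^ 2 ^ k * t⁻¹ * (t * s * t⁻¹) * (t * a ^ 2 ^ k * t⁻¹)⁻¹ = t * s * t⁻¹ * (t * d * t⁻¹) := by
    calc _ = t * (a ^ 2 ^ k * s * (a ^ 2 ^ k)⁻¹) * t⁻¹ := by group
      _ = _ := by rw [q.dl s hs hn]; group
  have td : t * d * t⁻¹ = d := by
    generalize t * d * t⁻¹ = d' at *
    generalize t * s * t⁻¹ = s' at *
    generalize t * a ^ 2 ^ k * t⁻¹ = v' at *
    by_cases h : s' ∈ A
    · have h' : v' ∉ A := fun h' => by
        rw [q.comm h' h, mul_inv_cancel_right] at e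
        exact d1 (by simpa using e)
      refine (q.gq_eq_d hv' h' hd (inv_mem hs') ?_).resolve_left d1
      calc _ = s'⁻¹ * (v' * s' * v'⁻¹) * v' := by group
        _ = _ := by rw [e, hd.2 v' hv']; group
    · exact (q.gq_eq_d hs' h hd hv' e).resolve_left d1
  have td' : d * t = t * d := (mul_inv_eq_iff_eq_mul.1 td).symm
  intro f hf
  by_cases h1 : f = 1
  · simp [h1]
  by_cases h2 : f = d
  · rw [h2, td']
  rcases (q.mem_Z_iff hf h1 h2).1 (H86.conj_mem_of_Nor hN hf) with e | e | e | e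
  · exact absurd (by simpa using e) h1
  · rw [mul_inv_eq_iff_eq_mul, td', mul_right_inj] at e
    exact absurd e h2
  · exact (mul_inv_eq_iff_eq_mul.1 e).symm
  · exact gq_climb ho (e.trans (hf.2 d q.d_mem.1)) td' (q.mem_Z.1 q.d_mem).2

theorem odd_E (q : QS k P A a c d) (hs : s ∈ P) (hn : s ∉ A) {t : G}
    (ht : t ∈ Nor (P ⊓ Cen (zpowers s) : Subgroup G)) (ho : ¬ 2 ∣ orderOf t) (hts : s * t = t * s)
    (hf : f ∈ P ⊓ Cen P) (h1 : f ≠ 1) (htf : f * t = t * f) :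
    t ∈ Cen (P ⊓ Cen (zpowers s) : Subgroup G) := by
  obtain ⟨x, hx, x1, x2⟩ := gq_ex q.toQS0 f
  have cs : Commute s t := hts
  have cf : Commute f t := htf
  have hZ : ∀ z ∈ P ⊓ Cen P, ∃ w ∈ P, Commute w t ∧ (z = w ∨ z = w * x) := fun z hz => by
    rcases (gq_four q.toQS0 hf h1 hx x1 x2).1 hz with e | e | e | e
    · exact ⟨1, one_mem _, Commute.one_left t, Or.inl e⟩
    · exact ⟨f, hf.1, cf, Or.inl e⟩
    · exact ⟨1, one_mem _, Commute.one_left t, Or.inr (by rw [e, one_mul])⟩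
    · exact ⟨f, hf.1, cf, Or.inr e⟩
  have hE : ∀ z ∈ P ⊓ Cen (zpowers s), ∃ w ∈ P, Commute w t ∧ (z = w ∨ z = w * x) := fun z hz => by
    rcases (q.mem_E hs hn).1 hz with h | h
    · exact hZ z h
    · obtain ⟨w, hw, c, e⟩ := hZ _ h
      refine ⟨s * w, mul_mem hs hw, cs.mul_left c, e.imp inv_mul_eq_iff_eq_mul.1 fun e => ?_⟩
      rw [mul_assoc, ← e, mul_inv_cancel_left]
  have x2 := (q.mem_Z.1 hx).2
  have cx : Commute x t := by
    obtain ⟨w, hw, c, e | e⟩ := hE _ (H86.conj_mem_of_Nor ht ((q.mem_E hs hn).2 (Or.inl hx)))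
    · rw [mul_inv_eq_iff_eq_mul, c.eq, mul_right_inj] at e
      exact e ▸ c
    · refine gq_climb ho (e.trans (hx.2 w hw)) c ?_
      have : (w * x) ^ 2 = 1 := by rw [← e, conj_pow, x2]; simp
      rwa [Commute.mul_pow (hx.2 w hw), x2, mul_one] at this
  intro z hz
  obtain ⟨w, -, c, e | e⟩ := hE z hz <;> rw [e]
  · exact c
  · exact c.mul_left cx

theorem inv_of_beta (q : QS k P A a c d) (hb : ∀ s ∈ P, s ∉ A → s ^ 2 = 1) (hs : s ∈ P)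
    (hn : s ∉ A) (hu : u ∈ A) : s * u * s⁻¹ = u⁻¹ := by
  have h1 := hb s hs hn
  have h2 := hb (s * u) (mul_mem hs (q.le hu)) fun h => hn ((A.mul_mem_cancel_right hu).1 h)
  rw [sq] at h1 h2
  rw [inv_eq_of_mul_eq_one_right h1, eq_inv_iff_mul_eq_one, mul_assoc, h2]

theorem gq_inv (q : QS k P A a c d) (hb : ∀ s ∈ P, s ∉ A → s ^ 2 = 1) (hs : s ∈ P)
    (hn : s ∉ A) (hu : u ∈ A) : u⁻¹ * s * u = s * u ^ 2 := by
  rw [← q.inv_of_beta hb hs hn hu, sq]; group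

theorem d_eq_of_beta (q : QS k P A a c d) (hb : ∀ s ∈ P, s ∉ A → s ^ 2 = 1) :
    d = a ^ 2 ^ (k + 1) := by
  obtain ⟨s, hs, hn⟩ := q.ex
  have h := q.gq_inv hb hs hn (inv_mem q.gq_v)
  rw [inv_inv, q.dl s hs hn, mul_right_inj, inv_pow, gq_v2] at h
  rw [h, inv_eq_iff_mul_eq_one, ← sq, q.gq_zeta_sq]

theorem gq_memA (q : QS k P A a c d) (hb : ∀ s ∈ P, s ∉ A → s ^ 2 = 1) (hf : f ∈ P ⊓ Cen P)
    (h1 : f ≠ 1) (h2 : f ≠ d) : f ∉ zpowers a ∧ ∀ u ∈ A, u ∈ zpowers a ∨ u * f ∈ zpowers a := by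
  rw [q.d_eq_of_beta hb] at h2
  have hz : a ^ 2 ^ (k + 1) ∈ zpowers a := pow_mem (Subgroup.mem_zpowers a) _
  rcases q.mem_Z'.1 hf with e | e | e | e
  · exact absurd e h1
  · exact absurd e h2
  · exact e ▸ ⟨q.c_not, fun u hu => (q.mem u).1 hu⟩
  · rw [e]
    refine ⟨fun h => q.c_not (((zpowers a).mul_mem_cancel_left hz).1 h),
      fun u hu => ((q.mem u).1 hu).imp_right fun h => ?_⟩
    rw [← mul_assoc, q.zeta_mem.2 u (q.le hu), mul_assoc]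
    exact mul_mem hz h

theorem memA_of_beta (q : QS k P A a c d) (hb : ∀ s ∈ P, s ∉ A → s ^ 2 = 1) (hf : f ∈ P ⊓ Cen P)
    (h1 : f ≠ 1) (h2 : f ≠ d) (hu : u ∈ A) :
    f ∉ zpowers a ∧ ∃ i : ℕ, i < 2 ^ (k + 2) ∧ (u = a ^ i ∨ u = a ^ i * f) := by
  classical
  obtain ⟨k1, k2⟩ := q.gq_memA hb hf h1 h2
  have key : ∀ y ∈ zpowers a, ∃ i : ℕ, i < 2 ^ (k + 2) ∧ y = a ^ i := fun y hy => by
    obtain ⟨i, hi, e⟩ := Finset.mem_image.1 (mem_zpowers_iff_mem_range_orderOf.1 hy)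
    exact ⟨i, q.ord ▸ Finset.mem_range.1 hi, e.symm⟩
  refine ⟨k1, ?_⟩
  rcases k2 u hu with h | h <;> obtain ⟨i, hi, e⟩ := key _ h
  · exact ⟨i, hi, Or.inl e⟩
  · exact ⟨i, hi, Or.inr (by rw [← e, mul_assoc, ← sq, (q.mem_Z.1 hf).2, mul_one])⟩

theorem rep_of_beta (q : QS k P A a c d) (hb : ∀ s ∈ P, s ∉ A → s ^ 2 = 1) (hs : s ∈ P)
    (hn : s ∉ A) (hf : f ∈ P ⊓ Cen P) (h1 : f ≠ 1) (h2 : f ≠ d) (hg : g ∈ P) (hg' : g ∉ A) :
    ∃ u ∈ A, ∃ s', (s' = s ∨ s' = s * a) ∧ (g = u * s' * u⁻¹ ∨ g = u * (s' * f) * u⁻¹) := by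
  obtain ⟨-, i, -, e⟩ := q.memA_of_beta hb hf h1 h2 (q.two s hs hn g hg hg')
  have key : ∃ u ∈ A, ∃ s', (s' = s ∨ s' = s * a) ∧ s * a ^ i = u * s' * u⁻¹ := by
    obtain ⟨j, rfl | rfl⟩ := Nat.even_or_odd' i
    · exact ⟨(a ^ j)⁻¹, inv_mem (pow_mem q.a_mem _), s, Or.inl rfl, by
        rw [inv_inv, q.gq_inv hb hs hn (pow_mem q.a_mem _), ← pow_mul, mul_comm j]⟩
    · refine ⟨(a ^ j)⁻¹, inv_mem (pow_mem q.a_mem _), s * a, Or.inr rfl, ?_⟩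
      calc _ = s * (a ^ j) ^ 2 * a := by rw [← pow_mul, mul_comm j, pow_succ, mul_assoc]
        _ = _ := by rw [← q.gq_inv hb hs hn (pow_mem q.a_mem _)]; group
  obtain ⟨u, hu, s', h, k⟩ := key
  refine ⟨u, hu, s', h, e.imp (fun e => ?_) fun e => ?_⟩
  · rw [← k, ← e, mul_inv_cancel_left]
  · rw [inv_mul_eq_iff_eq_mul, ← mul_assoc, k, mul_assoc, hf.2 _ (inv_mem (q.le hu))] at e
    rw [e]; group

theorem tmG_of_beta (q : QS k P A a c d) (hb : ∀ s ∈ P, s ∉ A → s ^ 2 = 1) (hs : s ∈ P)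
    (hn : s ∉ A) (hf : f ∈ P ⊓ Cen P) (h1 : f ≠ 1) (h2 : f ≠ d) {H : Type*} [Group H]
    (π : G →* H) (hπ : π.ker = zpowers f) : TmG k (P.map π) (-1) (π a) (π s) := by
  obtain ⟨k1, k2⟩ := q.gq_memA hb hf h1 h2
  have f1 : π f = 1 := by rw [← MonoidHom.mem_ker, hπ]; exact Subgroup.mem_zpowers f
  have ord : orderOf (π a) = 2 ^ (k + 2) := by
    rw [← q.ord]
    refine orderOf_eq_orderOf_iff.2 fun n => ⟨fun h => ?_, fun h => by rw [← map_pow, h, map_one]⟩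
    rw [← map_pow, ← MonoidHom.mem_ker, hπ] at h
    have hf2 : orderOf f = 2 ^ (0 + 1) := orderOf_eq_prime (p := 2) (q.mem_Z.1 hf).2 h1
    obtain ⟨i, hi⟩ := h
    rcases eq_of_sq_eq_one hf2 (g := a ^ n) ⟨i, hi⟩ (by
      rw [← show f ^ i = a ^ n from hi, ← zpow_natCast, ← zpow_mul, mul_comm, zpow_mul, zpow_natCast,
        (q.mem_Z.1 hf).2, one_zpow]) with e | e
    · exact e
    · exact absurd (by rw [← show a ^ n = f by simpa using e]; exact pow_mem (Subgroup.mem_zpowers a) n) k1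
  have mA : ∀ u ∈ A, π u ∈ zpowers (π a) := fun u hu => by
    rw [← MonoidHom.map_zpowers]
    rcases k2 u hu with h | h
    · exact ⟨u, h, rfl⟩
    · exact ⟨_, h, by rw [map_mul, f1, mul_one]⟩
  have ny : π s ∉ zpowers (π a) := by
    rintro ⟨i, hi⟩
    have : (a ^ i)⁻¹ * s ∈ zpowers f := by
      rw [← hπ, MonoidHom.mem_ker, map_mul, map_inv, map_zpow, inv_mul_eq_one]; exact hi
    exact hn ((A.mul_mem_cancel_left (inv_mem (zpow_mem q.a_mem i))).1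
      (Subgroup.zpowers_le.2 (q.mem_Z.1 hf).1 this))
  refine ⟨Or.inl rfl, ⟨a, q.le q.a_mem, rfl⟩, ⟨s, hs, rfl⟩, ord, ?_, ny, ?_, Or.inl ?_⟩
  · rw [gq_card2 (H := zpowers (π a)) (Subgroup.zpowers_le.2 (Subgroup.mem_map_of_mem π (q.le q.a_mem)))
      (Subgroup.mem_map_of_mem π hs) ny ?_,
      Nat.card_zpowers, ord]
    · ring
    · rintro _ ⟨p, hp, rfl⟩
      by_cases h : p ∈ A
      · exact Or.inl (mA p h)
      · exact Or.inr (map_mul π s p ▸ mA _ (q.mul_mem_of_not hs hn hp h))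
  · rw [← map_inv, ← map_mul, ← map_mul, q.inv_of_beta hb hs hn q.a_mem, map_inv, zpow_neg_one]
  · rw [← map_pow, hb s hs hn, map_one]

theorem exists_T (q : QS k P A a c d) (hs : s ∈ P) (hn : s ∉ A) :
    ∃ T : Finset G, (∀ u ∈ T, u ∈ A ∧ u ^ 2 ≠ 1) ∧ T.card + 2 = 2 ^ (k + 2) ∧
      ∀ u ∈ T, s * u * s⁻¹ ∉ T := by
  classical
  have := Fintype.ofFinite G
  let e := Fintype.equivFin G
  let S : Finset G := (Finset.univ.filter (· ∈ A)).filter fun u => ¬ u ^ 2 = 1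
  have hS : ∀ u, u ∈ S ↔ u ∈ A ∧ u ^ 2 ≠ 1 := fun u => by simp [S]
  have cS : 4 + S.card = 2 ^ (k + 3) := by
    have h := Finset.card_filter_add_card_filter_not (s := Finset.univ.filter (· ∈ A)) fun u : G => u ^ 2 = 1
    have h1 : (Finset.univ.filter (· ∈ A)).card = 2 ^ (k + 3) := by
      rw [← q.card_A, Nat.card_eq_fintype_card, Fintype.card_subtype]
    have h2 : ((Finset.univ.filter (· ∈ A)).filter fun u : G => u ^ 2 = 1).card = 4 := by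
      rw [← q.card_Z, Nat.card_eq_fintype_card, Fintype.card_subtype]
      congr 1
      ext u
      simp only [Finset.mem_filter, Finset.mem_univ, true_and, q.mem_Z]
    rwa [h1, h2] at h
  have τS : ∀ u ∈ S, s * u * s⁻¹ ∈ S := fun u hu => (hS _).2 ⟨q.gq_conj hs ((hS u).1 hu).1, by
    rw [conj_pow]; simpa using ((hS u).1 hu).2⟩
  have ττ : ∀ u ∈ S, s * (s * u * s⁻¹) * s⁻¹ = u := fun u hu => q.conj_conj hs hn ((hS u).1 hu).1
  have ne : ∀ u ∈ S, e (s * u * s⁻¹) ≠ e u := fun u hu h =>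
    ((hS u).1 hu).2 ((q.fix s hs hn u ((hS u).1 hu).1).1 (mul_inv_eq_iff_eq_mul.1 (e.injective h)))
  have h := Finset.card_filter_add_card_filter_not (s := S) fun u : G => e u < e (s * u * s⁻¹)
  have b : (S.filter fun u : G => e u < e (s * u * s⁻¹)).card =
      (S.filter fun u : G => ¬ e u < e (s * u * s⁻¹)).card := by
    refine Finset.card_nbij' (fun u => s * u * s⁻¹) (fun u => s * u * s⁻¹) (fun u hu => ?_) (fun u hu => ?_)
      (fun u hu => ττ u (Finset.mem_filter.1 hu).1) fun u hu => ττ u (Finset.mem_filter.1 hu).1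
    · obtain ⟨h1, h2⟩ := Finset.mem_filter.1 hu
      exact Finset.mem_filter.2 ⟨τS u h1, by rw [ττ u h1]; exact h2.not_gt⟩
    · obtain ⟨h1, h2⟩ := Finset.mem_filter.1 hu
      exact Finset.mem_filter.2 ⟨τS u h1, by rw [ττ u h1]; exact lt_of_le_of_ne (not_lt.1 h2) (ne u h1)⟩
  refine ⟨S.filter fun u : G => e u < e (s * u * s⁻¹), fun u hu => (hS u).1 (Finset.mem_filter.1 hu).1, ?_,
    fun u hu h' => ?_⟩
  · rw [pow_succ] at cS
    omega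
  · obtain ⟨h1, h2⟩ := Finset.mem_filter.1 hu
    have := (Finset.mem_filter.1 h').2
    rw [ττ u h1] at this
    exact h2.not_gt this

end QS

end K44
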