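import Mathlib
import Cfsg.Agent.Lib.K44.Ext
import Cfsg.Agent.Lib.K44.GQ2

set_option autoImplicit false
set_option linter.unusedSectionVars false
set_option linter.style.haveILetI false
attribute [local irreducible] H33.instFieldF

namespace K44

open Cfsg H84 H85
open H33 (F eB)
open H86 (Cen Nor cj cs eS St Mor PQuot)
open Subgroup (zpowers)
open scoped SubFin

variable {G : Type*} [Group G] [Fintype G] {M : Ideal AlgInt} [M.IsMaximal]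
  {B : Set (IrrCharacter G)} {P A : Subgroup G} {e : MonoidAlgebra (F M) G} {k : ℕ}
  {a c d s u u' f g t : G}

theorem f1_cen (hu : u ∈ P ⊓ Cen P) : P ≤ Cen (zpowers u) :=
  fun g hg => H86.mem_Cen_zpowers.2 (H86.mem_Cen.1 hu.2 g hg).symm

theorem f1_sq (hf : Fus 2 P e u u') {n : ℕ} : u' ^ n = 1 ↔ u ^ n = 1 := by
  obtain ⟨g, -, rfl⟩ := hf
  rw [conj_pow, mul_inv_eq_one, mul_eq_left]

theorem fus_Z (h : MP 2 M B P e) (q : QS k P A a c d) (hu : u ∈ P ⊓ Cen P) (hu' : u' ∈ P ⊓ Cen P)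
    (hf : Fus 2 P e u u') : u' = u := by
  obtain ⟨g, hg, rfl⟩ := extC h hf (fc_of_central (f1_cen hu'))
  rw [inf_eq_left.2 (f1_cen hu)] at hg
  have h1 : g ∈ SQ 2 M P e P :=
    mem_SQ h hg (H86.mem_Nor_iff_cs.1 (H86.mem_Nor_of_cs_le hg.cs_le))
  have h2 : SQ 2 M P e P ≤ Cen (P ⊓ Cen P : Subgroup G) :=
    SQ_le_of_reg h le_rfl (fn_of_normal Subgroup.le_normalizer)
      (fun t ht => H86.mem_Cen.2 fun z hz => (H86.mem_Cen.1 hz.2 t ht.1).symm)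
      (H86.Cen_anti inf_le_left) fun t ht ho => q.odd_Z (SQ_le_Nor ht) ho
  exact H86.mem_Cen_iff_conj.1 (h2 h1) u hu

theorem fc_A (h : MP 2 M B P e) (q : QS k P A a c d) (hu : u ∈ A) : FC 2 P e u := by
  by_cases h2 : u ^ 2 = 1
  · exact fc_of_central (f1_cen (q.toQS0.mem_Z.2 ⟨hu, h2⟩))
  · intro v hv
    rw [q.toQS0.cen_A hu h2, q.toQS0.card_A]
    exact q.toQS0.card_cen_le hv.right fun h3 => h2 ((f1_sq hv).1 h3)

theorem fus_A (h : MP 2 M B P e) (q : QS k P A a c d) (hs : s ∈ P) (hn : s ∉ A) (hu : u ∈ A)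
    (hu' : u' ∈ A) (hf : Fus 2 P e u u') : u' = u ∨ u' = s * u * s⁻¹ := by
  by_cases h2 : u ^ 2 = 1
  · exact Or.inl (fus_Z h q (q.toQS0.mem_Z.2 ⟨hu, h2⟩) (q.toQS0.mem_Z.2 ⟨hu', (f1_sq hf).2 h2⟩) hf)
  have h2' : u' ^ 2 ≠ 1 := fun h3 => h2 ((f1_sq hf).1 h3)
  obtain ⟨g, hg, rfl⟩ := extC h hf (fc_A h q hu')
  rw [q.toQS0.cen_A hu h2] at hg
  have h1 : cs g A ≤ A := by
    conv_rhs => rw [← q.toQS0.cen_A hu' h2']
    refine le_inf hg.cs_le fun x hx => H86.mem_Cen_zpowers.2 ?_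
    have h3 := q.toQS0.comm hu (H86.mem_cs.1 hx)
    calc g * u * g⁻¹ * x = g * (u * (g⁻¹ * x * g)) * g⁻¹ := by group
      _ = x * (g * u * g⁻¹) := by rw [h3]; group
  have h3 : g ∈ SQ 2 M P e A := mem_SQ h hg (H86.mem_Nor_iff_cs.1 (H86.mem_Nor_of_cs_le h1))
  obtain ⟨r, hr, h4⟩ := act_of_le h q.le (fn_of_normal q.toQS0.le_Nor) (inf_Nor_le_SQ h q.le)
    (Cen_le_SQ h q.le) le_rfl (fun t ht ho => q.toQS0.odd_A (SQ_le_Nor ht) ho) h3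
  rw [h4 u hu]
  exact q.toQS0.conj_A hs hn hr.1 hu

theorem loc_A (h : MP 2 M B P e) (q : QS k P A a c d) (hu : u ∈ A) (h2 : u ^ 2 ≠ 1) :
    blockRank 2 (loc 2 M P e (zpowers u)) = 1 ∧
      blockDefect 2 (loc 2 M P e (zpowers u)) = k + 3 := by
  refine ⟨rank_one_of_ab h (q.le hu) (fc_A h q hu) ?_ ?_,
    defect_of_fc h (q.le hu) (fc_A h q hu) (by rw [q.toQS0.cen_A hu h2, q.toQS0.card_A])⟩
  · rw [q.toQS0.cen_A hu h2]
    exact fun x hx => H86.mem_Cen.2 fun y hy => q.toQS0.comm hy hx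
  · rw [q.toQS0.cen_A hu h2]
    exact fun t _ ht ho => q.toQS0.odd_A ht ho

theorem NF.of_fus (h : MP 2 M B P e) (hs : NF P e A s) (hf : Fus 2 P e s g) : NF P e A g :=
  fun u hu h1 => hs u hu (h.fus_trans h1 hf.symm)

theorem NF.not_mem (h : MP 2 M B P e) (hs : NF P e A s) (hP : s ∈ P) : s ∉ A :=
  fun hA => hs s hA (h.fus_refl hP)

theorem f1_conj (h : MP 2 M B P e) (q : QS k P A a c d) {v : G} (hv : NF P e A v)
    (hf : Fus 2 P e v g) : ∃ c ∈ P, g = c * v * c⁻¹ := by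
  haveI := H33.charP h.hM; haveI := H86.good h.hM G
  obtain ⟨s, hs, rfl⟩ := hf
  refine Mor.induction h.max (H86.isBlk_eB h.hB)
    (Pr := fun Q s => ∀ v ∈ Q, NF P e A v → ∃ c ∈ P, s * v * s⁻¹ = c * v * c⁻¹)
    (fun Q R s hRQ _ h1 v hv => h1 v (hRQ hv)) ?_ ?_ ?_ hs v (Subgroup.mem_zpowers v) hv
  · intro Q s s' h1 _ h3 h4 v hv hn
    obtain ⟨c, hc, h5⟩ := h3 v hv hn
    obtain ⟨c', hc', h6⟩ := h4 _ (H86.conj_mem_cs.mpr hv) (hn.of_fus h (H33.Tame.fus_of_mor h h1 hv))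
    refine ⟨c' * c, mul_mem hc' hc, ?_⟩
    rw [mul_inv_rev, mul_inv_rev, show s' * s * v * (s⁻¹ * s'⁻¹) = s' * (s * v * s⁻¹) * s'⁻¹ by
      group, h6, h5]
    group
  · intro Q s h1 h2 v hv hn
    have h3 := H86.mem_cs.mp hv
    have h4 := H33.Tame.fus_of_mor h h1 h3
    rw [show s * (s⁻¹ * v * s) * s⁻¹ = v by group] at h4
    obtain ⟨c, hc, h5⟩ := h2 _ h3 (hn.of_fus h h4.symm)
    refine ⟨c⁻¹, inv_mem hc, ?_⟩
    rw [show s * (s⁻¹ * v * s) * s⁻¹ = v by group] at h5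
    rw [inv_inv, inv_inv]
    conv_rhs => rw [h5]
    group
  intro Q f hs hD _
  have hp := hs.left h.max.toPair
  have hQ : ∀ s ∈ St ⊤ Q f, ∀ v ∈ Q, NF P e A v → s * v * s⁻¹ ∈ Q ∧ NF P e A (s * v * s⁻¹) :=
    fun s h1 v hv hn => ⟨H86.conj_mem_of_Nor (H86.St_le_Nor _ _ _ h1) hv,
      hn.of_fus h (H33.Tame.fus_of_mor h (hs.mor_of_mem_St h1) hv)⟩
  let K : Subgroup G :=
    { carrier := {s | s ∈ St ⊤ Q f ∧ ∀ v ∈ Q, NF P e A v → ∃ c ∈ P, s * v * s⁻¹ = c * v * c⁻¹}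
      one_mem' := ⟨one_mem _, fun v _ _ => ⟨1, one_mem _, rfl⟩⟩
      mul_mem' := by
        rintro s s' ⟨h1, h2⟩ ⟨h3, h4⟩
        refine ⟨mul_mem h1 h3, fun v hv hn => ?_⟩
        obtain ⟨c, hc, h5⟩ := h4 v hv hn
        obtain ⟨c', hc', h6⟩ := h2 _ (hQ s' h3 v hv hn).1 (hQ s' h3 v hv hn).2
        refine ⟨c' * c, mul_mem hc' hc, ?_⟩
        rw [show s * s' * v * (s * s')⁻¹ = s * (s' * v * s'⁻¹) * s⁻¹ by group, h6, h5]
        group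
      inv_mem' := by
        rintro s ⟨h1, h2⟩
        refine ⟨inv_mem h1, fun v hv hn => ?_⟩
        obtain ⟨c, hc, h5⟩ := h2 _ (hQ _ (inv_mem h1) v hv hn).1 (hQ _ (inv_mem h1) v hv hn).2
        refine ⟨c⁻¹, inv_mem hc, ?_⟩
        rw [show s * (s⁻¹ * v * s⁻¹⁻¹) * s⁻¹ = v by group] at h5
        conv_rhs => rw [h5]
        group }
  let C : Subgroup G := St ⊤ Q f ⊓ Subgroup.centralizer {v | v ∈ Q ∧ NF P e A v}
  have hC : ∀ s, s ∈ C ↔ s ∈ St ⊤ Q f ∧ ∀ v ∈ Q, NF P e A v → s * v * s⁻¹ = v := fun s => by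
    simp only [C, Subgroup.mem_inf, Subgroup.mem_centralizer_iff, Set.mem_ofPred_eq, and_imp,
      mul_inv_eq_iff_eq_mul]
    exact and_congr_right fun _ => forall₃_congr fun _ _ _ => eq_comm
  have h1 : PQuot 2 C (St ⊤ Q f) := by
    intro s hs' ho
    refine (hC s).mpr ⟨hs', fun v hv hn => ?_⟩
    obtain ⟨q1, n1⟩ := hQ s hs' v hv hn
    obtain ⟨q2, n2⟩ := hQ s hs' _ q1 n1
    obtain ⟨q3, n3⟩ := hQ s hs' _ q2 n2
    have key : ∀ v v', v ∈ Q → NF P e A v → v' ∈ Q → NF P e A v' → v⁻¹ * v' ∈ A :=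
      fun v v' hv hn hv' hn' => q.two v (hs.le hv) (hn.not_mem h (hs.le hv)) v' (hs.le hv')
        (hn'.not_mem h (hs.le hv'))
    have m₀ := key _ _ hv hn q1 n1
    have m₁ := key _ _ q1 n1 q2 n2
    have m₂ := key _ _ q2 n2 q3 n3
    obtain ⟨r, hr⟩ : ∃ r, v⁻¹ * (s * v * s⁻¹) = r := ⟨_, rfl⟩
    obtain ⟨r₁, hr₁⟩ : ∃ r, (s * v * s⁻¹)⁻¹ * (s * (s * v * s⁻¹) * s⁻¹) = r := ⟨_, rfl⟩
    obtain ⟨r₂, hr₂⟩ : ∃ r, (s * (s * v * s⁻¹) * s⁻¹)⁻¹ *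
      (s * (s * (s * v * s⁻¹) * s⁻¹) * s⁻¹) = r := ⟨_, rfl⟩
    have e₁ : s * r * s⁻¹ = r₁ := by rw [← hr, ← hr₁]; group
    have e₂ : s * r₁ * s⁻¹ = r₂ := by
      rw [← hr₁, ← hr₂]; exact (H33.Tame.conj_inv_mul_conj _ _ _).symm
    have f₁ : Fus 2 P e r r₁ :=
      e₁ ▸ H33.Tame.fus_of_mor h (hs.mor_of_mem_St hs') (hr ▸ mul_mem (inv_mem hv) q1)
    have f₂ : Fus 2 P e r₁ r₂ :=
      e₂ ▸ H33.Tame.fus_of_mor h (hs.mor_of_mem_St hs') (hr₁ ▸ mul_mem (inv_mem q1) q2)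
    rw [hr] at m₀
    rw [hr₁] at m₁
    rw [hr₂] at m₂
    have hvP := hs.le hv
    have hvA := hn.not_mem h hvP
    have e₃ : s * r * s⁻¹ = r := by
      rcases fus_A h q hvP hvA m₀ m₁ f₁ with k₁ | k₁
      · exact e₁.trans k₁
      rcases fus_A h q hvP hvA m₁ m₂ f₂ with k₂ | k₂
      · rw [k₂] at e₂
        have := e₁.trans e₂.symm
        rw [mul_left_inj, mul_right_inj] at this
        rw [e₁, this]
      · exact H33.Tame.comm_of_sq ho (by rw [e₁, e₂, k₂, k₁, q.toQS0.conj_conj hvP hvA m₀])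
    have e₄ : ∀ n : ℕ, s ^ n * v * (s ^ n)⁻¹ = v * r ^ n := by
      intro n
      induction n with
      | zero => simp
      | succ n ih =>
        rw [pow_succ' s, show s * s ^ n * v * (s * s ^ n)⁻¹ = s * (s ^ n * v * (s ^ n)⁻¹) * s⁻¹ by
          group, ih, ← conj_mul, ← conj_pow, e₃, inv_mul_eq_iff_eq_mul.mp hr, pow_succ', mul_assoc]
    have e₅ := e₄ (orderOf s)
    rw [pow_orderOf_eq_one, one_mul, inv_one, mul_one, left_eq_mul,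
      ← orderOf_dvd_iff_pow_eq_one] at e₅
    obtain ⟨j, hj⟩ := h.pgrp ⟨r, q.le m₀⟩
    have hj' : r ^ 2 ^ j ∈ (⊥ : Subgroup G) := Subgroup.mem_bot.2 (congrArg Subtype.val hj)
    have h0 : r = 1 := Subgroup.mem_bot.1 (H86.mem_of_pow_mem (fun h5 => ho (h5.trans e₅)) hj')
    rw [h0, inv_mul_eq_one] at hr
    exact hr.symm
  have h2 : St ⊤ Q f ≤ Nor C := by
    intro s hs'
    refine H86.mem_Nor_of_cs_le fun c hc => ?_
    obtain ⟨h3, h4⟩ := (hC _).mp (H86.mem_cs.mp hc)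
    refine (hC c).mpr ⟨?_, fun v hv hn => ?_⟩
    · simpa [mul_assoc] using mul_mem (mul_mem hs' h3) (inv_mem hs')
    · have := h4 _ (hQ _ (inv_mem hs') v hv hn).1 (hQ _ (inv_mem hs') v hv hn).2
      rw [show s⁻¹ * c * s * (s⁻¹ * v * s⁻¹⁻¹) * (s⁻¹ * c * s)⁻¹ = s⁻¹ * (c * v * c⁻¹) * s⁻¹⁻¹ by
        group, mul_left_inj, mul_right_inj] at this
      exact this
  have h3 : K = St ⊤ Q f := by
    refine h1.eq_of_not_dvd h2 (fun s hs => ⟨((hC s).mp hs).1, fun v hv hn =>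
      ⟨1, one_mem _, by rw [((hC s).mp hs).2 v hv hn]; simp⟩⟩) (fun s hs => hs.1) fun h3 => ?_
    refine (hp.isDef_St hD).1 (h3.trans (Subgroup.relIndex_dvd_of_le_left _ (sup_le ?_ ?_)))
    · exact fun s hs => ⟨hs.2, fun v _ _ => ⟨s, hs.1, rfl⟩⟩
    · exact fun s hs => ⟨hp.Cen_le_St hs, fun v hv _ =>
        ⟨1, one_mem _, by rw [H86.mem_Cen_iff_conj.mp hs.2 v hv]; simp⟩⟩
  intro s hs'
  rw [← h3] at hs'
  exact hs'.2

theorem NF.exists_conj (h : MP 2 M B P e) (q : QS k P A a c d) (hs : NF P e A s)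
    (hf : Fus 2 P e s g) : ∃ r ∈ P, g = r * s * r⁻¹ := f1_conj h q hs hf

theorem NF.loc (h : MP 2 M B P e) (q : QS k P A a c d) (hs : NF P e A s) (hP : s ∈ P)
    (hf : f ∈ P ⊓ Cen P) (h1 : f ≠ 1) (hc : ∀ t, s * t = t * s → f * t = t * f) :
    blockRank 2 (loc 2 M P e (zpowers s)) = 1 ∧ blockDefect 2 (loc 2 M P e (zpowers s)) = 3 := by
  have hn := hs.not_mem h hP
  have hfc : FC 2 P e s := fun v hv => by
    rw [q.toQS0.card_E hP hn, q.toQS0.card_E hv.right ((hs.of_fus h hv).not_mem h hv.right)]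
  refine ⟨rank_one_of_ab h hP hfc (q.toQS0.E_ab hP hn) fun t ht hN ho => ?_,
    defect_of_fc h hP hfc (by rw [q.toQS0.card_E hP hn]; norm_num)⟩
  have h2 := H86.mem_Cen_zpowers.1 ht
  exact q.odd_E hP hn hN ho h2 hf h1 (hc t h2)

theorem nf_of_sq (h : MP 2 M B P e) (q : QS k P A a c d) (hs : s ∈ P) (hn : s ∉ A)
    (h2 : s ^ 2 ≠ 1) : NF P e A s := by
  intro u hu hf
  have h3 := h.fus_zpow hf ((2 : ℕ) : ℤ)
  rw [zpow_natCast, zpow_natCast] at h3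
  have h4 := q.toQS0.sq_mem_Z hs hn
  have h5 : s ^ 4 = 1 := by
    rw [show (4 : ℕ) = 2 * 2 from rfl, pow_mul]
    exact (q.toQS0.mem_Z.1 h4).2
  have h6 := q.toQS0.sq_eq_zeta hu (fun h6 => h2 ((f1_sq hf).2 h6)) ((f1_sq hf).1 h5)
  rw [h6] at h3
  exact q.nz s hs hn (fus_Z h q q.toQS0.zeta_mem h4 h3)

end K44
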