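import Mathlib
import Cfsg.Agent.Lib.K44.GA

set_option autoImplicit false

namespace K44

open Subgroup (zpowers)

universe u

variable {D : Type u} [Group D] [Finite D]

theorem gb_ord (x : D) : orderOf x ≤ 2 * orderOf (x ^ 2) := by
  refine Nat.le_of_dvd (Nat.mul_pos two_pos (orderOf_pos _)) (orderOf_dvd_of_pow_eq_one ?_)
  rw [pow_mul, pow_orderOf_eq_one]

theorem gb_lt {K L : Subgroup D} (h : K ≤ L) {g : D} (hg : g ∈ L) (hg' : g ∉ K) :
    2 * Nat.card K ≤ Nat.card L := by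
  obtain ⟨m, hm⟩ := Subgroup.card_dvd_of_le h
  have h0 : 0 < Nat.card L := Nat.card_pos
  have h1 : m ≠ 1 := by
    rintro rfl
    rw [mul_one] at hm
    exact hg' ((Subgroup.eq_of_le_of_card_ge h hm.le) ▸ hg)
  have h2 : m ≠ 0 := by
    rintro rfl
    omega
  rw [hm, mul_comm]
  exact Nat.mul_le_mul_left _ (by omega)

omit [Finite D] in
theorem gb_range (hD : IsPGroup 2 D) {H : Type u} [Group H] (π : D →* H) :
    IsPGroup 2 π.range := hD.of_surjective π.rangeRestrict π.rangeRestrict_surjective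

theorem gb_four (hD : IsPGroup 2 D) {z : D} (hz : ∀ g, g * z = z * g)
    (h : Nat.card D ≤ 4 * orderOf z) : Good D := by
  refine ⟨z, hz, fun H _ _ π hπ => Or.inl (abF_of_card (gb_range hD π) ?_)⟩
  rw [← card_range_mul π hπ] at h
  exact Nat.le_of_mul_le_mul_right h (orderOf_pos z)

theorem gb_eight (hD : IsPGroup 2 D) {z : D} (hz : ∀ g, g * z = z * g)
    (h : Nat.card D ≤ 8 * orderOf z) {g : D} (hg : g ^ 2 ∉ zpowers z) : Good D := by
  refine ⟨z, hz, fun H _ _ π hπ => ?_⟩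
  rw [← card_range_mul π hπ] at h
  have h1 : (π g) ^ 2 ≠ 1 := by
    rw [← map_pow, Ne, ← MonoidHom.mem_ker, hπ]
    exact hg
  rcases fam_of_eight (gb_range hD π) (Nat.le_of_mul_le_mul_right h (orderOf_pos z))
    (⟨g, rfl⟩ : π g ∈ π.range) h1 with h2 | h2
  · exact Or.inl h2
  · exact Or.inr (Or.inl h2)

theorem good_idx2 (hD : IsPGroup 2 D) {x : D} (h : Nat.card D ≤ 2 * orderOf x) : Good D := by
  by_cases hc : ∀ g, g * x ^ 2 = x ^ 2 * g
  · have := gb_ord x
    exact gb_four hD hc (by omega)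
  · refine ⟨1, fun g => by simp, fun H _ _ π hπ => ?_⟩
    have h1 := card_range_mul π hπ
    rw [orderOf_one, mul_one] at h1
    have hi : Function.Injective π := by
      rw [← MonoidHom.ker_eq_bot_iff, hπ, Subgroup.zpowers_one_eq_bot]
    have h2 : orderOf (π x) = orderOf x := orderOf_injective π hi x
    rcases fam_of_idx2 (gb_range hD π) (⟨x, rfl⟩ : π x ∈ π.range) (by rw [h1, h2]; exact h)
      (fun h3 => absurd (fun g => hi (by
        rw [map_mul, map_mul, map_pow]; exact h3 _ ⟨g, rfl⟩)) hc) with h3 | h3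
    · exact Or.inl h3
    · exact Or.inr (Or.inl h3)

omit [Finite D] in
theorem gb_odd (hD : IsPGroup 2 D) (g : D) (m : ℤ) : g ∈ zpowers (g ^ (2 * m + 1)) := by
  obtain ⟨k, hk⟩ := IsPGroup.iff_orderOf.1 hD g
  rw [mem_zpowers_zpow_iff, hk]
  have : IsCoprime (2 * m + 1 : ℤ) ((2 : ℤ) ^ k) :=
    IsCoprime.pow_right ⟨1, -m, by ring⟩
  rw [Int.isCoprime_iff_gcd_eq_one] at this
  simpa using this

theorem good_A (hD : IsPGroup 2 D) {x : D} (h : Nat.card D = 4 * orderOf x)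
    (hc : ∀ g, g * x ^ 2 = x ^ 2 * g) : Good D := by
  have ho := gb_ord x
  by_cases h1 : ∃ g : D, g ^ 2 ∉ zpowers (x ^ 2)
  · obtain ⟨g, hg⟩ := h1
    exact gb_eight hD hc (by omega) hg
  push Not at h1
  by_cases h2 : ∀ g, g * x = x * g
  · exact gb_four hD h2 h.le
  push Not at h2
  obtain ⟨t, ht⟩ := h2
  have hH : ∀ c ∈ zpowers (x ^ 2), ∀ g, g * c = c * g := by
    rintro _ ⟨j, rfl⟩ g
    exact ((show Commute g (x ^ 2) from hc g).zpow_right j).eq
  have hHx : zpowers (x ^ 2) ≤ zpowers x :=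
    Subgroup.zpowers_le.2 (pow_mem (Subgroup.mem_zpowers x) 2)
  have hcm : ∀ g g' : D, g * g' * g⁻¹ * g'⁻¹ ∈ zpowers (x ^ 2) := fun g g' => by
    have e1 : g * g' * g⁻¹ * g'⁻¹ = (g * g') ^ 2 * (g'⁻¹ * g⁻¹ ^ 2) * g'⁻¹ := by
      simp only [pow_two]; group
    rw [e1, hH _ (h1 g⁻¹) g'⁻¹, mul_assoc, mul_assoc, ← pow_two]
    exact mul_mem (h1 _) (mul_mem (h1 _) (h1 _))
  have hsq : ∀ g g' : D, (g * g' * g⁻¹ * g'⁻¹) ^ 2 = 1 := fun g g' => by
    have e1 := hH _ (hcm g g') g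
    have e2 := hH _ (h1 g) g'
    calc (g * g' * g⁻¹ * g'⁻¹) ^ 2
        = ((g * g' * g⁻¹ * g'⁻¹) * g) * (g' * g⁻¹ * g'⁻¹) := by rw [pow_two]; group
      _ = (g ^ 2 * g') * (g ^ 2)⁻¹ * g'⁻¹ := by rw [← e1]; simp only [pow_two]; group
      _ = 1 := by rw [← e2]; group
  have hx1 : x ≠ 1 := by
    rintro rfl
    simp at ht
  obtain ⟨n, hn⟩ : ∃ n, orderOf x = 2 ^ (n + 1) := by
    obtain ⟨k, hk⟩ := IsPGroup.iff_orderOf.1 hD x
    cases k with
    | zero => exact absurd (orderOf_eq_one_iff.1 (by simpa using hk)) hx1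
    | succ n => exact ⟨n, hk⟩
  have hw : ∀ g g' : D, g * g' ≠ g' * g → g * g' * g⁻¹ * g'⁻¹ = x ^ 2 ^ n := fun g g' hg => by
    refine (eq_of_sq_eq_one hn (hHx (hcm g g')) (hsq g g')).resolve_left fun h3 => hg ?_
    rw [← mul_inv_eq_one, mul_inv_rev, ← mul_assoc, h3]
  have hx2 : x ^ 2 ≠ 1 := fun h3 => by
    have h4 := hcm t x
    rw [h3, Subgroup.zpowers_one_eq_bot, Subgroup.mem_bot] at h4
    apply ht
    rw [← mul_inv_eq_one, mul_inv_rev, ← mul_assoc, h4]
  -- two elements which do not commute with `b`: their product does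
  have hpr : ∀ a a' b : D, a * b ≠ b * a → a' * b ≠ b * a' → a * a' * b = b * (a * a') := by
    intro a a' b ha ha'
    have e1 := hw a b ha
    have e2 := hw a' b ha'
    have e3 := hsq a b
    have e4 := hH _ (hcm a b) a
    rw [← e1] at e2
    calc a * a' * b = a * (a' * b * a'⁻¹ * b⁻¹) * b * a' := by group
      _ = (a * b * a⁻¹ * b⁻¹) * a * b * a' := by rw [e2, e4]
      _ = (a * b * a⁻¹ * b⁻¹) ^ 2 * (b * (a * a')) := by rw [pow_two]; group
      _ = b * (a * a') := by rw [e3, one_mul]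
  have hcz : Nat.card (zpowers x) = orderOf x := Nat.card_zpowers x
  have hpos := orderOf_pos x
  obtain ⟨y, hy, hy'⟩ : ∃ y, y * x = x * y ∧ y ∉ zpowers x := by
    by_contra h3
    push Not at h3
    have h4 : ∀ g ∈ zpowers x, g * x = x * g := by
      rintro _ ⟨j, rfl⟩
      exact ((Commute.refl x).zpow_left j).eq
    have h5 : (zpowers x).index = 2 := by
      rw [Subgroup.index_eq_two_iff]
      refine ⟨t, fun b => ?_⟩
      by_cases hb : b * x = x * b
      · refine Or.inr ⟨h3 b hb, fun h6 => ht (h4 _ ?_)⟩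
        simpa using mul_mem (inv_mem (h3 b hb)) h6
      · exact Or.inl ⟨h3 _ (hpr b t x hb ht), fun h6 => hb (h4 _ h6)⟩
    have := (zpowers x).card_mul_index
    rw [h5, hcz, h] at this
    omega
  obtain ⟨z, hzx, hzt, hz'⟩ : ∃ z, z * x = x * z ∧ z * t = t * z ∧ z ∉ zpowers x := by
    by_cases h3 : y * t = t * y
    · exact ⟨y, hy, h3, hy'⟩
    · refine ⟨x * y, by rw [mul_assoc, hy], hpr x y t (Ne.symm ht) h3, fun h4 => hy' ?_⟩
      simpa using mul_mem (inv_mem (Subgroup.mem_zpowers x)) h4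
  have hz : ∀ g, g * z = z * g := by
    have m1 : ∀ a b : D, a ∈ Subgroup.centralizer ({b} : Set D) ↔ a * b = b * a := fun a b =>
      Subgroup.mem_centralizer_singleton_iff
    have l1 : zpowers x ≤ Subgroup.centralizer {x} ⊓ Subgroup.centralizer {z} :=
      Subgroup.zpowers_le.2 ⟨(m1 _ _).2 rfl, (m1 _ _).2 hzx.symm⟩
    have c1 := gb_lt l1 (g := z) ⟨(m1 _ _).2 hzx, (m1 _ _).2 rfl⟩ hz'
    have c2 := gb_lt (inf_le_right : Subgroup.centralizer {x} ⊓ Subgroup.centralizer {z} ≤ _)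
      (g := t) ((m1 _ _).2 hzt.symm) fun h3 => ht ((m1 _ _).1 h3.1)
    have : Subgroup.centralizer ({z} : Set D) = ⊤ := by
      refine Subgroup.eq_of_le_of_card_ge le_top ?_
      rw [Subgroup.card_top]
      omega
    intro g
    exact (m1 _ _).1 (this ▸ Subgroup.mem_top g)
  obtain ⟨j, hj⟩ := h1 z
  rcases Int.even_or_odd' j with ⟨m, rfl | rfl⟩
  · have hm : (x ^ 2) ^ (1 - m) ∈ zpowers (x ^ 2) := Subgroup.zpow_mem_zpowers _ _
    set z' := (x ^ 2) ^ (1 - m) * z with hz'd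
    have e1 : z' ^ 2 = (x ^ 2) ^ 2 := by
      have hj' : (x ^ 2) ^ (2 * m) = z ^ 2 := hj
      rw [hz'd, Commute.mul_pow (hz _), ← hj', ← zpow_natCast ((x ^ 2) ^ (1 - m)), ← zpow_mul,
        ← zpow_add, ← zpow_natCast (x ^ 2)]
      congr 1
      push_cast
      ring
    have e2 : z' ∉ zpowers x := fun h3 => hz' (by simpa [hz'd] using mul_mem (inv_mem (hHx hm)) h3)
    have e3 : zpowers (z' ^ 2) ≤ zpowers x := by
      rw [e1]
      exact Subgroup.zpowers_le.2 (pow_mem (pow_mem (Subgroup.mem_zpowers x) 2) 2)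
    have c1 := gb_lt (Subgroup.zpowers_le.2 (pow_mem (Subgroup.mem_zpowers z') 2))
      (Subgroup.mem_zpowers z') fun h3 => e2 (e3 h3)
    rw [Nat.card_zpowers, Nat.card_zpowers, e1] at c1
    have c2 := gb_ord (x ^ 2)
    refine gb_eight hD (z := z') (fun g => ?_) (by omega) (g := x) ?_
    · rw [hz'd, ← mul_assoc, hH _ hm g, mul_assoc, hz g, mul_assoc]
    · rintro ⟨k, hk⟩
      have hk' : z' ^ k = x ^ 2 := hk
      rcases Int.even_or_odd' k with ⟨l, rfl | rfl⟩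
      · rw [zpow_mul, zpow_ofNat, e1, ← zpow_natCast (x ^ 2), ← zpow_mul] at hk'
        have h4 : (x ^ 2) ^ (2 * (l - 1) + 1) = 1 := by
          rw [show 2 * (l - 1) + 1 = ((2 : ℕ) : ℤ) * l - 1 by push_cast; ring, zpow_sub_one, hk',
            mul_inv_cancel]
        have h5 := gb_odd hD (x ^ 2) (l - 1)
        rw [h4, Subgroup.zpowers_one_eq_bot, Subgroup.mem_bot] at h5
        exact hx2 h5
      · have h5 := gb_odd hD z' l
        rw [hk'] at h5
        exact e2 (hHx h5)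
  · have h5 := gb_odd hD (x ^ 2) m
    have hj' : (x ^ 2) ^ (2 * m + 1) = z ^ 2 := hj
    rw [hj'] at h5
    have l1 : zpowers (x ^ 2) ≤ zpowers z :=
      Subgroup.zpowers_le.2 (Subgroup.zpowers_le.2 (pow_mem (Subgroup.mem_zpowers z) 2) h5)
    have c1 := gb_lt l1 (Subgroup.mem_zpowers z) fun h3 => hz' (hHx h3)
    rw [Nat.card_zpowers, Nat.card_zpowers] at c1
    exact gb_four hD hz (by omega)

end K44
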