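import Mathlib
import Cfsg.Agent.Lib.K44.GA

set_option autoImplicit false
set_option linter.unusedSectionVars false
set_option linter.unusedVariables false

namespace K44

open Subgroup (zpowers)

variable {D : Type*} [Group D] [Finite D]

/-- squares that are powers of `x` have an even exponent -/
theorem gd_even {x g : D} {m : ℕ} (hx : orderOf x = 2 ^ (m + 1)) (hg : g ^ 2 ^ (m + 1) = 1) {j : ℤ}
    (h : g ^ 2 = x ^ j) : ∃ l : ℤ, j = 2 * l := by
  have e : x ^ (j * (2 ^ m : ℕ)) = 1 := by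
    rw [zpow_mul, ← h, zpow_natCast, ← pow_mul, ← pow_succ', hg]
  rw [← orderOf_dvd_iff_zpow_eq_one, hx] at e
  push_cast at e
  rw [pow_succ'] at e
  exact Int.dvd_of_mul_dvd_mul_right (by positivity) e

theorem gd_sub (hD : IsPGroup 2 D) {x : D} {m : ℕ} (hx : orderOf x = 2 ^ m) (h : Nat.card D = 4 * orderOf x) :
    ∃ M : Subgroup D, M.index = 2 ∧ zpowers x ≤ M ∧ (∃ y ∈ M, y ∉ zpowers x) ∧
      ∀ u ∈ M, ∀ v ∈ M, u ∉ zpowers x → v ∉ zpowers x → u * v ∈ zpowers x := by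
  have : Fact (Nat.Prime 2) := ⟨Nat.prime_two⟩
  have c1 : Nat.card (zpowers x) = 2 ^ m := by rw [Nat.card_zpowers, hx]
  obtain ⟨M, hM, le⟩ := Sylow.exists_subgroup_card_pow_succ (p := 2) (n := m) (G := D)
    (by rw [h, hx]; exact ⟨2, by ring⟩) c1
  have i1 : M.index = 2 := by
    have := M.card_mul_index
    rw [hM, h, hx, show 4 * 2 ^ m = 2 ^ (m + 1) * 2 by ring] at this
    exact Nat.eq_of_mul_eq_mul_left (by positivity) this
  have i2 : ((zpowers x).subgroupOf M).index = 2 := by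
    have := ((zpowers x).subgroupOf M).card_mul_index
    rw [hM, Nat.card_congr (Subgroup.subgroupOfEquivOfLe le).toEquiv, c1, pow_succ] at this
    exact Nat.eq_of_mul_eq_mul_left (by positivity) this
  refine ⟨M, i1, le, ?_, fun u hu v hv nu nv => ?_⟩
  · by_contra k
    push Not at k
    have := Subgroup.card_le_of_le (show M ≤ zpowers x from k)
    rw [hM, c1, pow_succ] at this
    have : 0 < 2 ^ m := by positivity
    omega
  · have := (Subgroup.mul_mem_iff_of_index_two i2 (a := ⟨u, hu⟩) (b := ⟨v, hv⟩)).2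
      (by simp [Subgroup.mem_subgroupOf, nu, nv])
    exact this

theorem gd_conj_zpow (g x : D) (i : ℤ) : g * x ^ i * g⁻¹ = (g * x * g⁻¹) ^ i := conj_zpow.symm

/-- an element normalizing `⟨x⟩` with square in `⟨x⟩` fixes or inverts `x ^ 2` -/
theorem gd_pm {x g : D} {m : ℕ} (hx : orderOf x = 2 ^ m) (hn : g * x * g⁻¹ ∈ zpowers x)
    (h2 : g * g ∈ zpowers x) : g * x ^ 2 * g⁻¹ = x ^ 2 ∨ g * x ^ 2 * g⁻¹ = (x ^ 2)⁻¹ := by
  obtain ⟨i, hi⟩ := Subgroup.mem_zpowers_iff.1 hn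
  obtain ⟨j, hj⟩ := Subgroup.mem_zpowers_iff.1 h2
  have e : (x ^ i) ^ i = x := by
    calc (x ^ i) ^ i = g * x ^ i * g⁻¹ := by rw [gd_conj_zpow, hi]
      _ = g * g * x * (g * g)⁻¹ := by rw [hi]; group
      _ = x := by rw [← hj]; group
  rw [← conj_pow, ← hi]
  exact sq_roots hx e

theorem gd_norm {x : D} {m : ℕ} (hx : orderOf x = 2 ^ (m + 1)) (ex : ∀ g : D, g ^ 2 ^ (m + 1) = 1)
    {M : Subgroup D} (i1 : M.index = 2) (le : zpowers x ≤ M)
    (two : ∀ u ∈ M, ∀ v ∈ M, u ∉ zpowers x → v ∉ zpowers x → u * v ∈ zpowers x) (g : D) :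
    ∃ r : ℤ, g * x ^ 2 * g⁻¹ = (x ^ 2) ^ r := by
  have hn := Subgroup.normal_of_index_eq_two i1
  have hy : g * x * g⁻¹ ∈ M := hn.conj_mem _ (le (Subgroup.mem_zpowers x)) g
  rw [← conj_pow]
  by_cases k : g * x * g⁻¹ ∈ zpowers x
  · obtain ⟨i, hi⟩ := Subgroup.mem_zpowers_iff.1 k
    exact ⟨i, by rw [← hi]; group⟩
  · obtain ⟨j, hj⟩ := Subgroup.mem_zpowers_iff.1 (two _ hy _ hy k k)
    rw [← sq] at hj
    obtain ⟨l, rfl⟩ := gd_even hx (ex _) hj.symm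
    exact ⟨l, by rw [← hj]; group⟩

theorem gd_y0 {x : D} {n : ℕ} (hx : orderOf x = 2 ^ (n + 3)) (ex : ∀ g : D, g ^ 2 ^ (n + 3) = 1)
    {M : Subgroup D} (i1 : M.index = 2) (le : zpowers x ≤ M) (ne : ∃ y ∈ M, y ∉ zpowers x)
    (two : ∀ u ∈ M, ∀ v ∈ M, u ∉ zpowers x → v ∉ zpowers x → u * v ∈ zpowers x) :
    ∃ y : D, y ∉ zpowers x ∧ y * y ∈ zpowers x ∧ y * x * y⁻¹ ∈ zpowers x ∧ y * x ^ 2 * y⁻¹ = x ^ 2 := by
  have hn := Subgroup.normal_of_index_eq_two i1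
  have xM := le (Subgroup.mem_zpowers x)
  have nm : ∀ y ∈ M, y ∉ zpowers x → y * x * y⁻¹ ∈ zpowers x := fun y hy k =>
    two _ (M.mul_mem hy xM) _ (M.inv_mem hy)
      (fun e => k ((Subgroup.mul_mem_cancel_right _ (Subgroup.mem_zpowers x)).1 e))
      (fun e => k (inv_mem_iff.1 e))
  by_cases nC : ∀ g : D, g * x * g⁻¹ ∈ zpowers x
  swap
  · push Not at nC
    obtain ⟨g, k⟩ := nC
    have hy : g * x * g⁻¹ ∈ M := hn.conj_mem _ xM g
    refine ⟨_, k, two _ hy _ hy k k, nm _ hy k, ?_⟩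
    obtain ⟨r, hr⟩ := gd_norm hx ex i1 le two g⁻¹
    have e : x ^ 2 = (g * x * g⁻¹) ^ (2 * r) := by
      rw [conj_zpow, zpow_mul, zpow_ofNat, ← hr]; group
    rw [e]; generalize g * x * g⁻¹ = u; group
  have nC' : ∀ g c : D, c ∈ zpowers x → g * c * g⁻¹ ∈ zpowers x := fun g c hc => by
    obtain ⟨i, rfl⟩ := Subgroup.mem_zpowers_iff.1 hc
    rw [gd_conj_zpow]; exact zpow_mem (nC g) i
  obtain ⟨y, hy, ny⟩ := ne
  have yy := two _ hy _ hy ny ny
  rcases gd_pm hx (nC y) yy with e | e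
  · exact ⟨y, ny, yy, nC y, e⟩
  obtain ⟨t, ht⟩ : ∃ t, t ∉ M := by
    by_contra k
    push Not at k
    rw [(Subgroup.eq_top_iff' M).2 k, Subgroup.index_top] at i1
    omega
  by_cases tt : t * t ∈ zpowers x
  · rcases gd_pm hx (nC t) tt with e' | e'
    · exact ⟨t, fun k => ht (le k), tt, nC t, e'⟩
    refine ⟨y * t, fun k => ht ((Subgroup.mul_mem_cancel_left _ hy).1 (le k)), ?_, nC _, ?_⟩
    · have : y * t * (y * t) = y * (t * y * t⁻¹) * (t * t) := by group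
      rw [this]
      refine Subgroup.mul_mem _ (two _ hy _ (hn.conj_mem _ hy t) ny fun k => ny ?_) tt
      simpa [mul_assoc] using nC' t⁻¹ _ k
    · calc y * t * x ^ 2 * (y * t)⁻¹ = y * (t * x ^ 2 * t⁻¹) * y⁻¹ := by group
        _ = (y * x ^ 2 * y⁻¹)⁻¹ := by rw [e']; group
        _ = x ^ 2 := by rw [e, inv_inv]
  · exfalso
    have tM : t * t ∈ M := by rw [← sq]; exact Subgroup.sq_mem_of_index_two i1 t
    obtain ⟨j, hj⟩ := Subgroup.mem_zpowers_iff.1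
      (two _ tM _ (M.inv_mem hy) tt fun k => ny (inv_mem_iff.1 k))
    obtain ⟨r, hr⟩ := gd_norm hx ex i1 le two t
    have e1 : t * t * x ^ 2 * (t * t)⁻¹ = (x ^ 2)⁻¹ := by
      calc t * t * x ^ 2 * (t * t)⁻¹ = (t * t * y⁻¹) * (y * x ^ 2 * y⁻¹) * (t * t * y⁻¹)⁻¹ := by group
        _ = _ := by rw [e, ← hj]; group
    have e2 : t * t * x ^ 2 * (t * t)⁻¹ = ((x ^ 2) ^ r) ^ r := by
      calc t * t * x ^ 2 * (t * t)⁻¹ = t * (t * x ^ 2 * t⁻¹) * t⁻¹ := by group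
        _ = _ := by rw [hr, gd_conj_zpow, hr]
    have e3 : x ^ (2 * (r * r + 1)) = 1 := by
      calc x ^ (2 * (r * r + 1)) = ((x ^ 2) ^ r) ^ r * x ^ 2 := by group
        _ = 1 := by rw [← e2, e1, inv_mul_cancel]
    rw [← orderOf_dvd_iff_zpow_eq_one, hx] at e3
    have e4 : (8 : ℤ) ∣ 2 * (r * r + 1) := Dvd.dvd.trans ⟨2 ^ n, by push_cast; ring⟩ e3
    obtain ⟨k, rfl | rfl⟩ := Int.even_or_odd' r
    · have : 2 * (2 * k * (2 * k) + 1) = 8 * (k * k) + 2 := by ring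
      omega
    · have : 2 * ((2 * k + 1) * (2 * k + 1) + 1) = 8 * (k * k + k) + 4 := by ring
      omega

theorem gd_ww {x : D} {n : ℕ} (hx : orderOf x = 2 ^ (n + 3)) : x ^ 2 ^ (n + 2) * x ^ 2 ^ (n + 2) = 1 := by
  rw [← pow_add, ← two_mul, ← pow_succ', ← hx, pow_orderOf_eq_one]

theorem gd_y {x : D} {n : ℕ} (hx : orderOf x = 2 ^ (n + 3)) (ex : ∀ g : D, g ^ 2 ^ (n + 3) = 1)
    {y : D} (ny : y ∉ zpowers x) (yy : y * y ∈ zpowers x) (yx : y * x * y⁻¹ ∈ zpowers x)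
    (yh : y * x ^ 2 * y⁻¹ = x ^ 2) : ∃ y : D, y ∉ zpowers x ∧ y ^ 2 = 1 ∧
      (y * x * y⁻¹ = x ∨ y * x * y⁻¹ = x * x ^ 2 ^ (n + 2)) := by
  have ww := gd_ww hx
  have h1 : y * x * y⁻¹ = x ∨ y * x * y⁻¹ = x * x ^ 2 ^ (n + 2) := by
    obtain ⟨i, hi⟩ := Subgroup.mem_zpowers_iff.1 yx
    rw [← conj_pow, ← hi] at yh
    have : (x⁻¹ * x ^ i) ^ 2 = 1 := by
      calc (x⁻¹ * x ^ i) ^ 2 = (x ^ 2)⁻¹ * (x ^ i) ^ 2 := by group
        _ = 1 := by rw [yh, inv_mul_cancel]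
    rcases eq_of_sq_eq_one (n := n + 2) hx (Subgroup.mul_mem _ (inv_mem (Subgroup.mem_zpowers x))
      (Subgroup.zpow_mem_zpowers x i)) this with e | e
    · left; rw [← hi]; exact (inv_mul_eq_one.1 e).symm
    · right; rw [← hi, ← e]; group
  have h2 : ∀ k : ℤ, y * x ^ k ∉ zpowers x ∧ (y * x ^ k * x * (y * x ^ k)⁻¹ = x ∨
      y * x ^ k * x * (y * x ^ k)⁻¹ = x * x ^ 2 ^ (n + 2)) := fun k => by
    refine ⟨fun e => ny ((Subgroup.mul_mem_cancel_right _ (Subgroup.zpow_mem_zpowers x k)).1 e), ?_⟩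
    rwa [show y * x ^ k * x * (y * x ^ k)⁻¹ = y * x * y⁻¹ by group]
  obtain ⟨j, hj⟩ := Subgroup.mem_zpowers_iff.1 yy
  obtain ⟨l, rfl⟩ := gd_even hx (ex y) (j := j) (by rw [sq, hj])
  have h3 : ∀ k : ℤ, (y * x ^ k) ^ 2 = (y * x * y⁻¹) ^ k * x ^ (2 * l) * x ^ k := fun k => by
    rw [hj, conj_zpow, sq]; group
  rcases h1 with e | e
  · exact ⟨_, (h2 (-l)).1, by rw [h3, e]; group, (h2 (-l)).2⟩
  have c : Commute x (x ^ 2 ^ (n + 2)) := Commute.self_pow _ _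
  have w2 : ∀ k : ℤ, (x ^ 2 ^ (n + 2)) ^ (2 * k) = 1 := fun k => by
    rw [zpow_mul, zpow_ofNat, sq, ww, one_zpow]
  have h4 : ∀ k : ℤ, (y * x ^ k) ^ 2 = x ^ (2 * (k + l)) * (x ^ 2 ^ (n + 2)) ^ k := fun k => by
    rw [h3, e, c.mul_zpow, ← zpow_natCast x (2 ^ (n + 2))]; group
  obtain ⟨k, rfl | rfl⟩ := Int.even_or_odd' l
  · refine ⟨_, (h2 (-(2 * k))).1, ?_, (h2 _).2⟩
    rw [h4, zpow_neg, w2]; group
  · refine ⟨_, (h2 (2 * (2 ^ n - k - 1) + 1)).1, ?_, (h2 _).2⟩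
    rw [h4, zpow_add_one, w2, one_mul, ← ww]
    congr 1
    rw [← zpow_natCast]
    congr 1
    push_cast; ring

theorem exists_ms (hD : IsPGroup 2 D) {x : D} (h : Nat.card D = 4 * orderOf x)
    (h2 : ∀ g : D, 2 * orderOf g < Nat.card D) (hc : ¬ ∀ g, g * x ^ 2 = x ^ 2 * g) :
    ∃ n y t, MS n x y t := by
  have : Fact (Nat.Prime 2) := ⟨Nat.prime_two⟩
  obtain ⟨m, hm⟩ := IsPGroup.iff_orderOf.1 hD x
  have ex : ∀ g : D, g ^ 2 ^ m = 1 := fun g => by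
    obtain ⟨a, ha⟩ := IsPGroup.iff_orderOf.1 hD g
    have k := h2 g
    rw [h, hm, ha] at k
    have : 2 ^ a < 2 ^ (m + 1) := by rw [pow_succ]; omega
    have := (Nat.pow_lt_pow_iff_right (by norm_num)).1 this
    exact orderOf_dvd_iff_pow_eq_one.1 (ha ▸ pow_dvd_pow 2 (by omega))
  obtain ⟨M0, i0, le0, ne0, two0⟩ := gd_sub hD hm h
  push Not at hc
  obtain ⟨t, ht⟩ := hc
  have th : t * x ^ 2 * t⁻¹ ≠ x ^ 2 := fun e => ht (mul_inv_eq_iff_eq_mul.1 e)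
  have m1 : 1 < m := by
    by_contra k
    have : x ^ 2 = 1 := orderOf_dvd_iff_pow_eq_one.1 (by
      rw [hm]; exact (pow_dvd_pow 2 (by omega : m ≤ 1)).trans (by norm_num))
    exact th (by rw [this]; group)
  obtain ⟨m, rfl⟩ : ∃ k, m = k + 1 := ⟨m - 1, by omega⟩
  have nh := gd_norm hm ex i0 le0 two0
  obtain ⟨n, rfl⟩ : ∃ n, m = n + 2 := by
    refine ⟨m - 2, ?_⟩
    by_contra k
    obtain rfl : m = 1 := by omega
    obtain ⟨r, hr⟩ := nh t
    have x4 : (x ^ 2) ^ 2 = 1 := by rw [← pow_mul]; exact ex x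
    rcases eq_of_sq_eq_one (n := 1) (g := t * x ^ 2 * t⁻¹) hm
      (by rw [hr]; exact zpow_mem (Subgroup.npow_mem_zpowers x 2) r)
      (by rw [conj_pow, x4]; group) with e | e
    · have : x ^ 2 = 1 := by simpa using e
      exact th (by rw [this]; group)
    · exact th e
  obtain ⟨y0, a1, a2, a3, a4⟩ := gd_y0 hm ex i0 le0 ne0 two0
  obtain ⟨y, ny, y2, yx⟩ := gd_y hm ex a1 a2 a3 a4
  have ww := gd_ww hm
  have c : Commute x (x ^ 2 ^ (n + 2)) := Commute.self_pow _ _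
  have yi : y⁻¹ = y := inv_eq_of_mul_eq_one_right (by rw [← sq, y2])
  have yy : y * y = 1 := by rw [← sq, y2]
  obtain ⟨e, he, ee, ce, em⟩ : ∃ e : D, y * x * y⁻¹ = x * e ∧ e * e = 1 ∧ Commute x e ∧ e ∈ zpowers x := by
    rcases yx with k | k
    · exact ⟨1, by rw [k, mul_one], mul_one 1, Commute.one_right x, one_mem _⟩
    · exact ⟨_, k, ww, c, Subgroup.npow_mem_zpowers _ _⟩
  have yh : y * x ^ 2 * y⁻¹ = x ^ 2 := by rw [← conj_pow, he, ce.mul_pow, sq e, ee, mul_one]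
  have cy : Commute y (x ^ 2) := mul_inv_eq_iff_eq_mul.1 yh
  have yc : ∀ i : ℤ, ∃ j : ℤ, y * x ^ i = x ^ j * y := fun i => by
    obtain ⟨j, hj⟩ := Subgroup.mem_zpowers_iff.1 (zpow_mem (Subgroup.mul_mem _ (Subgroup.mem_zpowers x) em) i)
    exact ⟨j, by rw [hj, ← he, conj_zpow]; group⟩
  let M : Subgroup D :=
    { carrier := {g | ∃ i : ℤ, g = x ^ i ∨ g = x ^ i * y}
      one_mem' := ⟨0, by simp⟩
      mul_mem' := by
        rintro _ _ ⟨i, rfl | rfl⟩ ⟨j, rfl | rfl⟩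
        · exact ⟨i + j, Or.inl (by group)⟩
        · exact ⟨i + j, Or.inr (by group)⟩
        · obtain ⟨k, hk⟩ := yc j
          exact ⟨i + k, Or.inr (by rw [mul_assoc, hk]; group)⟩
        · obtain ⟨k, hk⟩ := yc j
          exact ⟨i + k, Or.inl (by
            rw [mul_assoc, ← mul_assoc y, hk, mul_assoc, yy]; group)⟩
      inv_mem' := by
        rintro _ ⟨i, rfl | rfl⟩
        · exact ⟨-i, Or.inl (by group)⟩
        · obtain ⟨k, hk⟩ := yc (-i)
          exact ⟨k, Or.inr (by rw [← hk, mul_inv_rev, yi]; group)⟩ }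
  have mM : ∀ g : D, g ∈ M ↔ ∃ i : ℤ, g = x ^ i ∨ g = x ^ i * y := fun _ => Iff.rfl
  have cM : ∀ g ∈ M, Commute g (x ^ 2) := by
    rintro _ ⟨i, rfl | rfl⟩
    · exact (Commute.refl x).zpow_left i |>.pow_right 2
    · exact ((Commute.refl x).zpow_left i |>.pow_right 2).mul_left cy
  have tM : t ∉ M := fun k => ht (cM t k)
  have xM : x ∈ M := ⟨1, by simp⟩
  have yM : y ∈ M := ⟨0, by simp⟩
  have le : zpowers x ≤ M := (Subgroup.zpowers_le).2 xM
  have i1 : M.index = 2 := by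
    have i4 : (zpowers x).index = 4 := by
      have := (zpowers x).card_mul_index
      rw [Nat.card_zpowers, h, mul_comm] at this
      exact Nat.eq_of_mul_eq_mul_right (orderOf_pos x) this
    have k := Subgroup.relIndex_mul_index le
    rw [i4] at k
    have k1 : M.index ≠ 1 := fun k => tM (Subgroup.index_eq_one.1 k ▸ Subgroup.mem_top t)
    have k2 : (zpowers x).relIndex M ≠ 1 := fun k => ny (Subgroup.relIndex_eq_one.1 k yM)
    have k3 : M.index ≤ 4 := Nat.le_of_dvd (by norm_num) (Dvd.intro_left _ k)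
    generalize M.index = a at *
    generalize (zpowers x).relIndex M = b at *
    interval_cases a <;> omega
  have hn := Subgroup.normal_of_index_eq_two i1
  have t2 : t ^ 2 ∈ M := Subgroup.sq_mem_of_index_two i1 t
  have wh : x ^ 2 ^ (n + 2) = (x ^ 2) ^ 2 ^ (n + 1) := by rw [← pow_mul, ← pow_succ']
  have oh : orderOf (x ^ 2) = 2 ^ (n + 2) := by
    rw [orderOf_pow_of_dvd (by norm_num) (by rw [hm]; exact dvd_pow_self 2 (by omega)), hm, pow_succ,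
      Nat.mul_div_cancel _ (by norm_num)]
  refine ⟨n, y, t, hm, by rw [h, hm]; ring, y2, ny, yx, fun g => ?_,
    fun i => ⟨fun k => tM ⟨i, Or.inl k⟩, fun k => tM ⟨i, Or.inr k⟩⟩, hn.conj_mem _ xM t, ?_, t2, th, ?_⟩
  · by_cases k : g ∈ M
    · obtain ⟨i, k | k⟩ := k
      exacts [⟨i, Or.inl k⟩, ⟨i, Or.inr (Or.inl k)⟩]
    · obtain ⟨i, k | k⟩ := (Subgroup.mul_mem_iff_of_index_two i1 (a := g) (b := t⁻¹)).2
        (by simp [k, tM])
      · exact ⟨i, Or.inr (Or.inr (Or.inl (mul_inv_eq_iff_eq_mul.1 k)))⟩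
      · exact ⟨i, Or.inr (Or.inr (Or.inr (mul_inv_eq_iff_eq_mul.1 k)))⟩
  · have s2 : (t * y * t⁻¹) ^ 2 = 1 := by rw [conj_pow, y2]; group
    obtain ⟨i, k | k⟩ := hn.conj_mem _ yM t
    · exfalso
      apply ny
      rcases eq_of_sq_eq_one (n := n + 2) hm (k ▸ Subgroup.zpow_mem_zpowers x i) s2 with e | e
      · have : y = 1 := by simpa using e
        rw [this]; exact one_mem _
      · obtain ⟨r, hr⟩ := nh t⁻¹
        have : y = (t⁻¹ * x ^ 2 * t⁻¹⁻¹) ^ 2 ^ (n + 1) := by rw [conj_pow, ← wh, ← e]; group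
        rw [this, hr]
        exact pow_mem (zpow_mem (Subgroup.npow_mem_zpowers x 2) r) _
    · rw [k] at s2 ⊢
      have e1 : x ^ (2 * i) * e ^ i = 1 := by
        calc x ^ (2 * i) * e ^ i = x ^ i * (x * e) ^ i * (y * y) := by rw [ce.mul_zpow, yy]; group
          _ = 1 := by rw [← he, conj_zpow, ← s2, sq]; group
      have e2 : x ^ (4 * i) = 1 := by
        have c2 : Commute (x ^ (2 * i)) (e ^ i) := ce.zpow_zpow _ _
        have e3 : (e ^ i) ^ 2 = 1 := by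
          rw [← zpow_natCast, ← zpow_mul, mul_comm, zpow_mul, zpow_natCast, sq, ee, one_zpow]
        have := c2.mul_pow 2
        rw [e1, e3, one_pow, mul_one] at this
        rw [this]; group
      rw [← orderOf_dvd_iff_zpow_eq_one, hm] at e2
      have e4 : (8 : ℤ) ∣ 4 * i := Dvd.dvd.trans ⟨2 ^ n, by push_cast; ring⟩ e2
      obtain ⟨l, rfl⟩ : ∃ l, i = 2 * l := ⟨i / 2, by omega⟩
      have e5 : (x ^ (2 * l)) ^ 2 = 1 := by
        rw [zpow_mul e, zpow_ofNat, sq e, ee, one_zpow, mul_one] at e1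
        rw [← e1]; group
      rcases eq_of_sq_eq_one (n := n + 2) hm (Subgroup.zpow_mem_zpowers x _) e5 with e | e
      · left; rw [e, one_mul]
      · right; rw [e, wh]; exact (cy.pow_right _).eq.symm
  · obtain ⟨r, hr⟩ := nh t
    have e1 : ((x ^ 2) ^ r) ^ r = x ^ 2 := by
      calc ((x ^ 2) ^ r) ^ r = t * (t * x ^ 2 * t⁻¹) * t⁻¹ := by rw [hr, gd_conj_zpow, hr]
        _ = t ^ 2 * x ^ 2 * (t ^ 2)⁻¹ := by rw [sq t]; group
        _ = _ := by rw [(cM _ t2).eq]; group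
    have mh := Subgroup.mem_zpowers (x ^ 2)
    rw [hr] at th ⊢
    generalize x ^ 2 = u at *
    rcases sq_roots oh e1 with e | e
    · have : (u⁻¹ * u ^ r) ^ 2 = 1 := by
        calc (u⁻¹ * u ^ r) ^ 2 = (u ^ 2)⁻¹ * (u ^ r) ^ 2 := by group
          _ = 1 := by rw [e, inv_mul_cancel]
      rcases eq_of_sq_eq_one (n := n + 1) oh (Subgroup.mul_mem _ (inv_mem mh) (zpow_mem mh r)) this with k | k
      · exact absurd (inv_mul_eq_one.1 k).symm th
      · rw [inv_mul_eq_iff_eq_mul] at k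
        rcases Nat.eq_zero_or_pos n with rfl | n1
        · refine Or.inr (Or.inl ?_)
          rw [k, eq_inv_iff_mul_eq_one, ← pow_orderOf_eq_one u, oh]; group
        · exact Or.inl ⟨n1, by rw [k, wh]⟩
    · have : (u * u ^ r) ^ 2 = 1 := by
        calc (u * u ^ r) ^ 2 = u ^ 2 * (u ^ r) ^ 2 := by group
          _ = 1 := by rw [e, mul_inv_cancel]
      rcases eq_of_sq_eq_one (n := n + 1) oh (Subgroup.mul_mem _ mh (zpow_mem mh r)) this with k | k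
      · exact Or.inr (Or.inl (eq_inv_of_mul_eq_one_right k))
      · exact Or.inr (Or.inr (by rw [wh, ← k]; group))

end K44
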