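import Mathlib
import Cfsg.Agent.Lib.K44.GA

set_option autoImplicit false

namespace K44

open Subgroup (zpowers)

universe u

theorem qs_of_gen {G : Type*} [Group G] [Finite G] {P : Subgroup G} {k : ℕ} {a c t : G}
    (ho : orderOf a = 2 ^ (k + 2)) (hc : c ^ 2 = 1) (hn : c ∉ zpowers a) (hac : a * c = c * a)
    (htc : t * c = c * t)
    (hP : ∀ g, g ∈ P ↔ ∃ i : ℤ, g = a ^ i ∨ g = a ^ i * c ∨ g = a ^ i * t ∨ g = a ^ i * c * t)
    (ht : ∀ i : ℤ, t ≠ a ^ i ∧ t ≠ a ^ i * c) (hta : t * a * t⁻¹ ≠ a)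
    (hta' : ∃ i : ℤ, t * a * t⁻¹ = a ^ i ∨ t * a * t⁻¹ = a ^ i * c)
    (ht2 : t * a ^ 2 * t⁻¹ = (a ^ 2)⁻¹)
    (hz : ∀ i : ℤ, (a ^ i * t) ^ 2 ≠ a ^ 2 ^ (k + 1) ∧ (a ^ i * c * t) ^ 2 ≠ a ^ 2 ^ (k + 1)) :
    ∃ A, QS0 k P A a c := by
  have cc : c * c = 1 := by rw [← pow_two, hc]
  have hca : ∀ i : ℤ, c * a ^ i = a ^ i * c := fun i => ((Commute.zpow_left hac i).eq).symm
  let A : Subgroup G :=
    { carrier := {u | ∃ i : ℤ, u = a ^ i ∨ u = a ^ i * c}
      one_mem' := ⟨0, Or.inl (zpow_zero a).symm⟩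
      mul_mem' := by
        rintro _ _ ⟨i, rfl | rfl⟩ ⟨j, rfl | rfl⟩
        · exact ⟨i + j, Or.inl (zpow_add a i j).symm⟩
        · exact ⟨i + j, Or.inr (by rw [zpow_add, mul_assoc])⟩
        · exact ⟨i + j, Or.inr (by rw [zpow_add, mul_assoc, hca, mul_assoc])⟩
        · exact ⟨i + j, Or.inl (by
            rw [zpow_add, mul_assoc, ← mul_assoc c, hca, mul_assoc, cc, mul_one])⟩
      inv_mem' := by
        rintro _ ⟨i, rfl | rfl⟩
        · exact ⟨-i, Or.inl (zpow_neg a i).symm⟩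
        · exact ⟨-i, Or.inr (by
            rw [mul_inv_rev, inv_eq_of_mul_eq_one_right cc, ← zpow_neg, hca])⟩ }
  have hA : ∀ u, u ∈ A ↔ ∃ i : ℤ, u = a ^ i ∨ u = a ^ i * c := fun _ => Iff.rfl
  have ha : a ∈ A := ⟨1, Or.inl (zpow_one a).symm⟩
  have hcA : c ∈ A := ⟨0, Or.inr (by rw [zpow_zero, one_mul])⟩
  have hout : ∀ s ∈ P, s ∉ A → ∃ m ∈ A, s = m * t := by
    intro s hs hs'
    obtain ⟨i, e | e | e | e⟩ := (hP s).1 hs
    · exact absurd ⟨i, Or.inl e⟩ hs'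
    · exact absurd ⟨i, Or.inr e⟩ hs'
    · exact ⟨_, ⟨i, Or.inl rfl⟩, e⟩
    · exact ⟨_, ⟨i, Or.inr rfl⟩, e⟩
  have hab : ∀ u ∈ A, ∀ v ∈ A, u * v = v * u := by
    have e1 : ∀ v ∈ A, Commute a v := by
      rintro _ ⟨i, rfl | rfl⟩
      · exact (Commute.refl a).zpow_right i
      · exact ((Commute.refl a).zpow_right i).mul_right hac
    have e2 : ∀ v ∈ A, Commute c v := by
      rintro _ ⟨i, rfl | rfl⟩
      · exact hca i
      · exact Commute.mul_right (hca i) (Commute.refl c)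
    rintro _ ⟨i, rfl | rfl⟩ v hv
    · exact (e1 v hv).zpow_left i
    · exact ((e1 v hv).zpow_left i).mul_left (e2 v hv)
  have htN : t ∈ Subgroup.normalizer (A : Set G) := by
    have e1 : t * a * t⁻¹ ∈ A := hta'
    have e2 : t * c * t⁻¹ = c := by rw [htc, mul_inv_cancel_right]
    refine Subgroup.mem_normalizer_fintype ?_
    rintro _ ⟨i, rfl | rfl⟩
    · rw [← conj_zpow]; exact A.zpow_mem e1 i
    · rw [show t * (a ^ i * c) * t⁻¹ = t * a ^ i * t⁻¹ * (t * c * t⁻¹) by group, ← conj_zpow, e2]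
      exact A.mul_mem (A.zpow_mem e1 i) hcA
  have key : ∀ l : ℤ, t * a ^ l = a ^ l * t ↔ (a ^ l) ^ 2 = 1 := by
    intro l
    obtain ⟨j, rfl | rfl⟩ := Int.even_or_odd' l
    · have e1 : t * a ^ (2 * j) * t⁻¹ = (a ^ (2 * j))⁻¹ := by
        rw [zpow_mul, ← conj_zpow, show a ^ (2 : ℤ) = a ^ 2 from zpow_ofNat a 2, ht2, inv_zpow]
      rw [← mul_inv_eq_iff_eq_mul, e1, inv_eq_iff_mul_eq_one, pow_two]
    · constructor
      · intro e1
        have e2 : a ∈ zpowers (a ^ (2 * j + 1)) := by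
          rw [mem_zpowers_zpow_iff, ho]
          push_cast
          rw [← Int.isCoprime_iff_gcd_eq_one]
          exact IsCoprime.pow_right ⟨1, -j, by ring⟩
        obtain ⟨r, hr⟩ := e2
        exfalso
        apply hta
        have e3 : Commute t a := by
          rw [← hr]; exact Commute.zpow_right e1 r
        rw [e3.eq, mul_inv_cancel_right]
      · intro e1
        exfalso
        rw [← zpow_natCast, ← zpow_mul, ← orderOf_dvd_iff_zpow_eq_one, ho] at e1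
        push_cast at e1
        have e2 : (4 : ℤ) ∣ (2 * j + 1) * 2 :=
          dvd_trans ⟨2 ^ k, by ring⟩ e1
        omega
  refine ⟨A, ?_, ⟨t, (hP t).2 ⟨0, Or.inr (Or.inr (Or.inl (by rw [zpow_zero, one_mul])))⟩, ?_⟩, ?_,
    ho, hc, hn, hac, fun u => ?_, ?_, ?_⟩
  · rintro _ ⟨i, e | e⟩
    · exact (hP _).2 ⟨i, Or.inl e⟩
    · exact (hP _).2 ⟨i, Or.inr (Or.inl e)⟩
  · rintro ⟨i, e | e⟩
    · exact (ht i).1 e
    · exact (ht i).2 e
  · intro s hs hs' s' ht1 ht1'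
    obtain ⟨m, hm, rfl⟩ := hout s hs hs'
    obtain ⟨m', hm', rfl⟩ := hout s' ht1 ht1'
    rw [show (m * t)⁻¹ * (m' * t) = t⁻¹ * (m⁻¹ * m') * t⁻¹⁻¹ by group]
    exact (Subgroup.mem_normalizer_iff.1 (inv_mem htN) _).1 (A.mul_mem (A.inv_mem hm) hm')
  · constructor
    · rintro ⟨i, rfl | rfl⟩
      · exact Or.inl ⟨i, rfl⟩
      · exact Or.inr ⟨i, by rw [mul_assoc, cc, mul_one]⟩
    · rintro (⟨i, e⟩ | ⟨i, e⟩)
      · exact ⟨i, Or.inl e.symm⟩
      · exact ⟨i, Or.inr (by rw [show a ^ i = u * c from e, mul_assoc, cc, mul_one])⟩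
  · intro s hs hs' u hu
    obtain ⟨m, hm, rfl⟩ := hout s hs hs'
    rw [← mul_assoc u, hab u hu m hm, mul_assoc, mul_assoc, mul_left_cancel_iff]
    obtain ⟨l, rfl | rfl⟩ := hu
    · exact key l
    · rw [mul_assoc, ← htc, ← mul_assoc, ← mul_assoc, mul_right_cancel_iff, key,
        (Commute.symm (hca l)).mul_pow, hc, mul_one]
  · intro s hs hs'
    obtain ⟨_, ⟨i, rfl | rfl⟩, rfl⟩ := hout s hs hs'
    · exact (hz i).1
    · exact (hz i).2

variable {D : Type u} [Group D] [Finite D] {n : ℕ} {x y t : D}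

omit [Finite D] in
theorem ge_eq {H : Type*} [Group H] (π : D →* H) {z : D} (hk : π.ker = zpowers z) {g g' : D}
    (e : π g = π g') : ∃ j : ℤ, g = z ^ j * g' := by
  have : g * g'⁻¹ ∈ π.ker := by rw [MonoidHom.mem_ker, map_mul, map_inv, e, mul_inv_cancel]
  rw [hk] at this
  obtain ⟨j, hj⟩ := this
  exact ⟨j, by rw [show z ^ j = g * g'⁻¹ from hj, inv_mul_cancel_right]⟩

omit [Finite D] in
theorem ge_ww (h : MS n x y t) : x ^ 2 ^ (n + 2) * x ^ 2 ^ (n + 2) = 1 := by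
  rw [← pow_add, ← two_mul, ← pow_succ', ← h.ord, pow_orderOf_eq_one]

omit [Finite D] in
theorem ge_w (h : MS n x y t) : x ^ 2 ^ (n + 2) ≠ 1 :=
  pow_ne_one_of_lt_orderOf (by positivity)
    (by rw [h.ord]; exact Nat.pow_lt_pow_right (by norm_num) (by omega))

omit [Finite D] in
theorem ge_xw (h : MS n x y t) : (x * x ^ 2 ^ (n + 2)) ^ 2 = x ^ 2 := by
  rw [((Commute.refl x).pow_right _).mul_pow, pow_two (x ^ 2 ^ (n + 2)), ge_ww h, mul_one]

omit [Finite D] in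
theorem ge_yh (h : MS n x y t) : Commute y (x ^ 2) := by
  have : y * x ^ 2 * y⁻¹ = x ^ 2 := by
    rw [← conj_pow]
    rcases h.yx with e | e
    · rw [e]
    · rw [e, ge_xw h]
  exact mul_inv_eq_iff_eq_mul.1 this

omit [Finite D] in
theorem ge_cen (h : MS n x y t) {N : ℕ} (ht : Commute t ((x ^ 2) ^ N)) (g : D) :
    g * (x ^ 2) ^ N = (x ^ 2) ^ N * g := by
  have e1 : ∀ i : ℤ, Commute (x ^ i) ((x ^ 2) ^ N) := fun i =>
    (((Commute.refl x).pow_right 2).pow_right N).zpow_left i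
  have e2 : Commute y ((x ^ 2) ^ N) := (ge_yh h).pow_right N
  obtain ⟨i, rfl | rfl | rfl | rfl⟩ := h.cov g
  · exact e1 i
  · exact (e1 i).mul_left e2
  · exact (e1 i).mul_left ht
  · exact ((e1 i).mul_left e2).mul_left ht

omit [Finite D] in
theorem ge_core (h : MS n x y t) {H : Type*} [Group H] [Finite H] (π : D →* H) {N : ℕ}
    (hk : π.ker = zpowers (x ^ N)) (hw : π (x ^ 2 ^ (n + 2)) = 1) {k : ℕ}
    (ho : orderOf (π x) = 2 ^ (k + 2)) (hta : π (t * x * t⁻¹) ≠ π x)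
    (ht2 : π (t * x ^ 2 * t⁻¹) = (π x ^ 2)⁻¹)
    (hz : ∀ m, Commute m (x ^ 2) → π ((m * t) ^ 2) ≠ π (x ^ 2 ^ (k + 1))) : Fam π.range := by
  have hN : ∀ j i : ℤ, (x ^ N) ^ j * x ^ i = x ^ (N * j + i) := fun j i => by
    rw [zpow_add, zpow_mul, zpow_natCast]
  have e1 : ∀ i : ℤ, Commute (x ^ i) (x ^ 2) := fun i =>
    ((Commute.refl x).pow_right 2).zpow_left i
  obtain ⟨A, hA⟩ := qs_of_gen (P := π.range) (k := k) (a := π x) (c := π y) (t := π t) ho
    (by rw [← map_pow, h.y_sq, map_one])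
    (by
      rintro ⟨i, e⟩
      obtain ⟨j, hj⟩ := ge_eq π hk (g := y) (g' := x ^ i) (by rw [map_zpow]; exact e.symm)
      exact h.y_not ⟨_, (hj.trans (hN j i)).symm⟩)
    (by
      rw [eq_comm, ← mul_inv_eq_iff_eq_mul, ← map_inv, ← map_mul, ← map_mul]
      rcases h.yx with e | e
      · rw [e]
      · rw [e, map_mul, hw, mul_one])
    (by
      rw [← mul_inv_eq_iff_eq_mul, ← map_inv, ← map_mul, ← map_mul]
      rcases h.ty with e | e
      · rw [e]
      · rw [e, map_mul, hw, mul_one])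
    (fun g => by
      constructor
      · rintro ⟨g, rfl⟩
        obtain ⟨i, hi⟩ := h.cov g
        refine ⟨i, ?_⟩
        simp only [← map_zpow, ← map_mul]
        rcases hi with e | e | e | e <;> rw [← e] <;> simp
      · rintro ⟨i, hi⟩
        simp only [← map_zpow, ← map_mul] at hi
        rcases hi with e | e | e | e <;> exact ⟨_, e.symm⟩)
    (fun i => by
      simp only [← map_zpow, ← map_mul]
      refine ⟨fun e => ?_, fun e => ?_⟩
      · obtain ⟨j, hj⟩ := ge_eq π hk e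
        exact (h.t_not _).1 (hj.trans (hN j i))
      · obtain ⟨j, hj⟩ := ge_eq π hk e
        exact (h.t_not _).2 (hj.trans (by rw [← mul_assoc, hN j i])))
    (by simpa only [map_mul, map_inv] using hta)
    (by
      obtain ⟨i, hi⟩ := h.tx
      refine ⟨i, ?_⟩
      simp only [← map_zpow, ← map_mul, ← map_inv]
      rcases hi with e | e <;> rw [e] <;> simp)
    (by simpa only [map_mul, map_inv, map_pow] using ht2)
    (fun i => by
      simp only [← map_zpow, ← map_mul, ← map_pow]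
      exact ⟨hz _ (e1 i), hz _ ((e1 i).mul_left (ge_yh h))⟩)
  exact Or.inr (Or.inr ⟨k, A, _, _, hA⟩)

theorem good_B (h : MS n x y t) (hn : 1 ≤ n) (ht : t * x ^ 2 * t⁻¹ = x ^ 2 * x ^ 2 ^ (n + 2)) :
    Good D := by
  have c2w : Commute (x ^ 2) (x ^ 2 ^ (n + 2)) := (Commute.refl x).pow_pow _ _
  have hc : ∀ g, g * (x ^ 2) ^ 2 = (x ^ 2) ^ 2 * g := ge_cen h (by
    refine mul_inv_eq_iff_eq_mul.1 ?_
    rw [← conj_pow, ht, c2w.mul_pow, pow_two (x ^ 2 ^ (n + 2)), ge_ww h, mul_one])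
  rw [← pow_mul] at hc
  refine ⟨x ^ (2 * 2), hc, fun H _ _ π hk => ?_⟩
  have h4 : π (x ^ (2 * 2)) = 1 := by
    rw [← MonoidHom.mem_ker, hk]; exact Subgroup.mem_zpowers _
  have h4' : ∀ l : ℤ, (4 : ℤ) ∣ l → π (x ^ l) = 1 := by
    rintro _ ⟨l, rfl⟩
    rw [zpow_mul, map_zpow, show x ^ (4 : ℤ) = x ^ (2 * 2) from zpow_ofNat x 4, h4, one_zpow]
  have hw : π (x ^ 2 ^ (n + 2)) = 1 := by
    rw [← zpow_natCast]; exact h4' _ ⟨2 ^ n, by push_cast; ring⟩
  have hdv : ∀ l : ℤ, x ^ l = 1 → (16 : ℤ) ∣ l := fun l hl => by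
    rw [← orderOf_dvd_iff_zpow_eq_one, h.ord] at hl
    obtain ⟨m, rfl⟩ := Nat.exists_eq_add_of_le hn
    exact dvd_trans ⟨2 ^ m, by push_cast; ring⟩ hl
  have hw4 : ∀ i : ℤ, ((x ^ i) ^ 2) ^ 2 = (x ^ 2) ^ 2 → (4 : ℤ) ∣ i - 1 := fun i hi => by
    have : x ^ (4 * (i - 1)) = 1 := by
      rw [show 4 * (i - 1) = i * 2 * 2 - 2 * 2 by ring, zpow_sub, zpow_mul, zpow_mul, zpow_mul]
      simp only [zpow_ofNat]
      rw [hi, mul_inv_cancel]
    have := hdv _ this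
    omega
  have hsq : (x ^ 2 * x ^ 2 ^ (n + 2)) ^ 2 = (x ^ 2) ^ 2 := by
    rw [c2w.mul_pow, pow_two (x ^ 2 ^ (n + 2)), ge_ww h, mul_one]
  have hxi : ∀ i : ℤ, (4 : ℤ) ∣ i - 1 → π (x ^ i) = π x := fun i hi => by
    rw [show i = (i - 1) + 1 by ring, zpow_add, map_mul, h4' _ hi, one_mul, zpow_one]
  obtain ⟨i, e | e⟩ := h.tx
  · have e2 : (x ^ i) ^ 2 = x ^ 2 * x ^ 2 ^ (n + 2) := by rw [← e, conj_pow, ht]
    have e3 := hw4 i (by rw [e2, hsq])
    obtain ⟨l, hl⟩ := e3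
    have e4 : x ^ i = x * (x ^ (2 * 2)) ^ l := by
      rw [show i = 1 + (2 * 2 : ℕ) * l by push_cast; omega, zpow_add, zpow_one, zpow_mul,
        zpow_natCast]
    have e5 : Commute t ((x ^ (2 * 2)) ^ l) := Commute.zpow_right (hc t) l
    have e6 : Commute x ((x ^ (2 * 2)) ^ l) := Commute.zpow_right (hc x) l
    have e7 : (x ^ (2 * 2)) ^ l * (x ^ (2 * 2)) ^ l = x ^ 2 ^ (n + 2) := by
      rw [e4, e6.mul_pow, mul_left_cancel_iff, pow_two] at e2
      exact e2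
    have e8 : t ^ 2 * x * (t ^ 2)⁻¹ = x * x ^ 2 ^ (n + 2) := by
      rw [show t ^ 2 * x * (t ^ 2)⁻¹ = t * (t * x * t⁻¹) * t⁻¹ by rw [pow_two]; group, e, e4, ← mul_assoc,
        mul_assoc _ _ t⁻¹, ← e5.inv_left.eq, ← mul_assoc, e, e4, mul_assoc, e7]
    obtain ⟨j, e9 | e9⟩ := h.tt
    · exfalso
      rw [e9, ((Commute.refl x).zpow_left j).eq, mul_inv_cancel_right] at e8
      exact ge_w h (left_eq_mul.1 e8)
    · refine Or.inl (abF_of_two (u := π x) (v := π t) ?_ ?_)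
      · rw [eq_comm, ← mul_inv_eq_iff_eq_mul, ← map_inv, ← map_mul, ← map_mul, e, hxi i ⟨l, hl⟩]
      · refine le_antisymm ?_ ?_
        · rintro _ ⟨g, rfl⟩
          have m1 : π x ∈ Subgroup.closure {π x, π t} := Subgroup.subset_closure (Or.inl rfl)
          have m2 : π t ∈ Subgroup.closure {π x, π t} := Subgroup.subset_closure (Or.inr rfl)
          have m3 : ∀ i : ℤ, π (x ^ i) ∈ Subgroup.closure {π x, π t} := fun i => by
            rw [map_zpow]; exact zpow_mem m1 i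
          have m4 : π y ∈ Subgroup.closure {π x, π t} := by
            rw [show y = (x ^ j)⁻¹ * t ^ 2 by rw [e9, inv_mul_cancel_left], map_mul, map_inv,
              map_pow]
            exact mul_mem (inv_mem (m3 j)) (pow_mem m2 2)
          obtain ⟨r, rfl | rfl | rfl | rfl⟩ := h.cov g <;> try simp only [map_mul]
          · exact m3 r
          · exact mul_mem (m3 r) m4
          · exact mul_mem (m3 r) m2
          · exact mul_mem (mul_mem (m3 r) m4) m2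
        · rw [Subgroup.closure_le]
          rintro _ (rfl | rfl) <;> exact ⟨_, rfl⟩
  · have yy : y * y = 1 := by rw [← pow_two, h.y_sq]
    have e2 : (x ^ i * y) ^ 2 = x ^ 2 * x ^ 2 ^ (n + 2) := by rw [← e, conj_pow, ht]
    have e3 : (x ^ i * y) ^ 2 = x ^ i * (y * x * y⁻¹) ^ i := by
      rw [conj_zpow, pow_two, inv_eq_of_mul_eq_one_right yy]; group
    have e4 := hw4 i (by
      rw [← hsq, ← e2, e3]
      rcases h.yx with e' | e'
      · rw [e', pow_two (x ^ i)]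
      · have c1 : Commute x (x ^ 2 ^ (n + 2)) := (Commute.refl x).pow_right _
        have c2 : Commute (x ^ i * x ^ i) ((x ^ 2 ^ (n + 2)) ^ i) :=
          ((c1.zpow_left i).mul_left (c1.zpow_left i)).zpow_right i
        rw [e', c1.mul_zpow, ← mul_assoc, c2.mul_pow, pow_two ((x ^ 2 ^ (n + 2)) ^ i),
          ← (Commute.refl (x ^ 2 ^ (n + 2))).mul_zpow, ge_ww h, one_zpow, mul_one, pow_two (x ^ i)])
    have h2 : π x ^ 2 ≠ 1 := fun e' => by
      obtain ⟨j, hj⟩ := ge_eq π hk (g := x ^ 2) (g' := 1) (by rw [map_pow, e', map_one])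
      have : x ^ (2 - 4 * j) = 1 := by
        rw [zpow_sub, zpow_mul]
        simp only [zpow_ofNat]
        rw [hj, mul_one, mul_inv_cancel]
      have := hdv _ this
      omega
    have h4'' : π x ^ 2 * π x ^ 2 = 1 := by rw [← pow_add, ← map_pow]; exact h4
    refine ge_core h π hk hw (k := 0) ?_ ?_ ?_ ?_
    · exact orderOf_eq_prime_pow (p := 2) (n := 1) (by simpa using h2)
        (by rw [← h4'', ← pow_add]; norm_num)
    · rw [e, map_mul, hxi i e4]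
      intro e'
      obtain ⟨j, hj⟩ := ge_eq π hk (g := y) (g' := 1) (by rw [map_one]; exact mul_eq_left.1 e')
      exact h.y_not ⟨(2 * 2 : ℕ) * j, by rw [hj, mul_one, ← zpow_natCast, ← zpow_mul]⟩
    · rw [ht, map_mul, hw, mul_one, map_pow, eq_inv_iff_mul_eq_one, h4'']
    · intro m hm e'
      obtain ⟨j, hj⟩ := ge_eq π hk e'
      have c1 : Commute (m * t) ((x ^ (2 * 2)) ^ j * x ^ 2 ^ (0 + 1)) := by
        rw [← hj]; exact (Commute.refl _).pow_right 2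
      have c2 : Commute (m * t) ((x ^ (2 * 2)) ^ j) := Commute.zpow_right (hc _) j
      have c3 : Commute (m * t) (x ^ 2) := by
        have := c2.inv_right.mul_right c1
        rwa [inv_mul_cancel_left] at this
      have c4 : Commute t (x ^ 2) := by
        have := hm.inv_left.mul_left c3
        rwa [inv_mul_cancel_left] at this
      exact h.th (by rw [c4.eq, mul_inv_cancel_right])

theorem good_C (h : MS n x y t)
    (ht : t * x ^ 2 * t⁻¹ = (x ^ 2)⁻¹ ∨ t * x ^ 2 * t⁻¹ = (x ^ 2)⁻¹ * x ^ 2 ^ (n + 2)) :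
    Good D := by
  have c2w : Commute (x ^ 2)⁻¹ (x ^ 2 ^ (n + 2)) := ((Commute.refl x).pow_pow _ _).inv_left
  have hinv : ∀ N : ℕ, t * (x ^ 2) ^ (2 * N) * t⁻¹ = ((x ^ 2) ^ (2 * N))⁻¹ := fun N => by
    rw [← conj_pow]
    rcases ht with e | e
    · rw [e, inv_pow]
    · rw [e, c2w.mul_pow, pow_mul (x ^ 2 ^ (n + 2)), pow_two (x ^ 2 ^ (n + 2)), ge_ww h, one_pow,
        mul_one, inv_pow]
  have ew : (x ^ 2) ^ (2 * 2 ^ n) = x ^ 2 ^ (n + 2) := by
    rw [← pow_mul]; congr 1; ring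
  have hc : ∀ g, g * (x ^ 2) ^ (2 * 2 ^ n) = (x ^ 2) ^ (2 * 2 ^ n) * g := ge_cen h (by
    refine mul_inv_eq_iff_eq_mul.1 ?_
    rw [hinv, ew, inv_eq_of_mul_eq_one_right (ge_ww h)])
  rw [ew] at hc
  refine ⟨x ^ 2 ^ (n + 2), hc, fun H _ _ π hk => ?_⟩
  have hw : π (x ^ 2 ^ (n + 2)) = 1 := by
    rw [← MonoidHom.mem_ker, hk]; exact Subgroup.mem_zpowers _
  have hsq : ∀ (j : ℤ) (g : D), ((x ^ 2 ^ (n + 2)) ^ j * g) ^ 2 = g ^ 2 := fun j g => by
    rw [(Commute.zpow_left (Commute.symm (hc g)) j).mul_pow, pow_two ((x ^ 2 ^ (n + 2)) ^ j),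
      ← (Commute.refl (x ^ 2 ^ (n + 2))).mul_zpow, ge_ww h, one_zpow, one_mul]
  have eu : (x ^ 2 ^ (n + 1)) ^ 2 = x ^ 2 ^ (n + 2) := by rw [← pow_mul, ← pow_succ]
  refine ge_core h π hk hw (k := n) ?_ ?_ ?_ ?_
  · refine orderOf_eq_prime_pow (p := 2) (n := n + 1) (fun e => ?_) (by rw [← map_pow]; exact hw)
    obtain ⟨j, hj⟩ := ge_eq π hk (g := x ^ 2 ^ (n + 1)) (g' := 1) (by rw [map_pow, e, map_one])
    exact ge_w h (by rw [← eu, hj, hsq, one_pow])
  · intro e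
    obtain ⟨j, hj⟩ := ge_eq π hk e
    exact h.th (by rw [← conj_pow, hj, hsq])
  · rcases ht with e | e
    · rw [e, map_inv, map_pow]
    · rw [e, map_mul, hw, mul_one, map_inv, map_pow]
  · intro m hm e'
    obtain ⟨j, hj⟩ := ge_eq π hk e'
    have c1 : Commute (m * t) ((x ^ 2 ^ (n + 2)) ^ j * x ^ 2 ^ (n + 1)) := by
      rw [← hj]; exact (Commute.refl _).pow_right 2
    have c2 : Commute (m * t) ((x ^ 2 ^ (n + 2)) ^ j) := Commute.zpow_right (hc _) j
    have c3 : Commute (m * t) (x ^ 2 ^ (n + 1)) := by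
      have := c2.inv_right.mul_right c1
      rwa [inv_mul_cancel_left] at this
    have eh : x ^ 2 ^ (n + 1) = (x ^ 2) ^ 2 ^ n := by rw [← pow_mul, ← pow_succ']
    have c4 : Commute t ((x ^ 2) ^ 2 ^ n) := by
      rw [eh] at c3
      have := (hm.pow_right (2 ^ n)).inv_left.mul_left c3
      rwa [inv_mul_cancel_left] at this
    rcases n with _ | n
    · rw [pow_zero, pow_one] at c4
      exact h.th (by rw [c4.eq, mul_inv_cancel_right])
    · have e1 := hinv (2 ^ n)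
      rw [← pow_succ', c4.eq, mul_inv_cancel_right, eq_inv_iff_mul_eq_one, ← eh, ← pow_two,
        eu] at e1
      exact ge_w h e1

end K44
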