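import Mathlib
import Cfsg.Agent.Lib.K44.Ext
import Cfsg.Agent.Lib.Block.QuotRank

set_option autoImplicit false
set_option linter.unusedSectionVars false
set_option linter.style.haveILetI false
attribute [local irreducible] H33.instFieldF

namespace K44

open Cfsg H84 H85
open H33 (F eB)
open H86 (Cen Nor cj cs eS St Mor)
open Subgroup (zpowers)
open scoped SubFin

variable {G : Type*} [Group G] [Fintype G] {p : ℕ} [Fact p.Prime] {M : Ideal AlgInt} [M.IsMaximal]
  {B : Set (IrrCharacter G)} {P : Subgroup G} {e : MonoidAlgebra (F M) G} {u v f g : G}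

theorem lq_cen_top (hc : ∀ g, f * g = g * f) : Cen (zpowers f) = ⊤ :=
  eq_top_iff.2 fun g _ => H86.mem_Cen_zpowers.2 (hc g)

theorem lq_sup (h : MP p M B P e) {Q : Subgroup G} (hQ : Q ≤ P) (hf : f ∈ P)
    (hc : ∀ g, f * g = g * f) :
    eS M _ (loc p M P e (Q ⊔ zpowers f)) = eS M _ (loc p M P e Q) := by
  have hC : Cen (Q ⊔ zpowers f) = Cen Q := by rw [H86.Cen_sup, lq_cen_top hc, inf_top_eq]
  have hN : Q ⊔ zpowers f ≤ Nor Q :=
    sup_le Subgroup.le_normalizer ((H86.le_Cen_comm.1 (by rw [lq_cen_top hc]; exact le_top)).trans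
      (H86.Cen_le_Nor Q))
  have h1 := h.nsub le_sup_left (sup_le hQ (Subgroup.zpowers_le.2 hf)) hN
  have h2 := h1.br_mul
  have h3 := h1.left.supp
  have h4 := h1.left.blk
  have h5 := h1.right.blk
  generalize eS M _ (loc p M P e (Q ⊔ zpowers f)) = a at h2 h5
  generalize eS M _ (loc p M P e Q) = b at h2 h3 h4
  rw [← hC] at h3 h4
  rw [show H86.br (Q ⊔ zpowers f) b = b from h3.res_eq] at h2
  exact (h4.eq_of_mul_ne_zero h5 (by rw [h2]; exact h5.ne)).symm

theorem lq_zsup (u f : G) : zpowers (u * f) ⊔ zpowers f = zpowers u ⊔ zpowers f := by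
  have m1 : ∀ a : G, f ∈ zpowers a ⊔ zpowers f := fun a =>
    Subgroup.mem_sup_right (Subgroup.mem_zpowers f)
  have m2 : ∀ a : G, a ∈ zpowers a ⊔ zpowers f := fun a =>
    Subgroup.mem_sup_left (Subgroup.mem_zpowers a)
  refine le_antisymm (sup_le (Subgroup.zpowers_le.2 (mul_mem (m2 u) (m1 u))) le_sup_right)
    (sup_le (Subgroup.zpowers_le.2 ?_) le_sup_right)
  simpa using mul_mem (m2 (u * f)) (inv_mem (m1 (u * f)))

theorem eS_loc_mul (h : MP p M B P e) (hu : u ∈ P) (hf : f ∈ P) (hc : ∀ g, f * g = g * f) :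
    eS M _ (loc p M P e (zpowers (u * f))) = eS M _ (loc p M P e (zpowers u)) := by
  rw [← lq_sup h (Subgroup.zpowers_le.2 hu) hf hc,
    ← lq_sup h (Subgroup.zpowers_le.2 (mul_mem hu hf)) hf hc, lq_zsup]

theorem fus_mul (h : MP p M B P e) (hf : f ∈ P) (hc : ∀ g, f * g = g * f) (huv : Fus p P e u v) :
    Fus p P e (u * f) (v * f) := by
  obtain ⟨g, h1, h2⟩ := (h.fus_iff huv.left huv.right).1 huv
  refine (h.fus_iff (mul_mem huv.left hf) (mul_mem huv.right hf)).2 ⟨g, ?_, ?_⟩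
  · rw [h1, mul_assoc, ← hc, mul_assoc, mul_assoc, mul_assoc]
  · rw [eS_loc_mul h huv.left hf hc, eS_loc_mul h huv.right hf hc, h2]

theorem lq_sub_mul (h : MP p M B P e) (hu : u ∈ P) (hf : f ∈ P) (hc : ∀ g, f * g = g * f)
    {θ : G → ℂ} (hθ : ∀ g, θ (f * g) = θ g)
    (h0 : H84.sub p u _ (loc p M P e (zpowers u)) θ = 0) :
    H84.sub p (u * f) _ (loc p M P e (zpowers (u * f))) θ = 0 := by
  have key : ∀ (C C' : Subgroup G) (b : Set (IrrCharacter C)) (b' : Set (IrrCharacter C')),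
      C = C' → IsPBlock M b → IsPBlock M b' → eS M C b = eS M C' b' →
      H84.sub p u C' b' θ = 0 → H84.sub p (u * f) C b θ = 0 := by
    rintro C _ b b' rfl hb hb' h1 h2
    obtain rfl := H86.eS_inj hb hb' h1
    rw [← h2, H84.sub_def, H84.sub_def]
    congr 2
    funext c
    rw [sec_apply, sec_apply, ← hc u, mul_assoc, hθ]
  refine key _ _ _ _ ?_ (h.blk (Subgroup.zpowers_le.2 (mul_mem hu hf)))
    (h.blk (Subgroup.zpowers_le.2 hu)) (eS_loc_mul h hu hf hc) h0
  ext g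
  rw [H86.mem_Cen_zpowers, H86.mem_Cen_zpowers, mul_assoc, hc g, ← mul_assoc, ← mul_assoc,
    mul_left_inj]

theorem card_quot_le (h : MP p M B P e) {Z : Subgroup G} [Z.Normal] (hZ : Z ≤ P)
    (hc : ∀ z ∈ Z, ∀ g, z * g = g * z) (Y : Finset G) (hY : ∀ y ∈ Y, y ∈ P)
    (hl : ∀ y ∈ Y, blockRank p (loc p M P e (zpowers y)) = 1)
    (hcov : ∀ u ∈ P, u ∈ Z ∨ ∃ y ∈ Y, ∃ z ∈ Z, Fus p P e (y * z) u) :
    Nat.card (H86.quotSet Z B) ≤ blockRank p B + Y.card := by
  classical
  let T : (G → ℂ) →ₗ[ℂ] regSpan p B × (Y → ℂ) :=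
    { toFun := fun θ => (⟨pRegularPart p (blockPart B θ), reg_blockPart_mem B θ⟩,
        fun y => dv p M P e θ y)
      map_add' := fun θ η => Prod.ext (Subtype.ext (by
        change pRegularPart p (blockPart B (θ + η)) = _ + _
        rw [blockPart_add, reg_add])) (funext fun y => dv_add θ η y)
      map_smul' := fun c θ => Prod.ext (Subtype.ext (by
        change pRegularPart p (blockPart B (c • θ)) = c • _
        rw [blockPart_smul, reg_smul])) (funext fun y => dv_smul c θ y) }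
  let w : H86.quotSet Z B → G → ℂ := fun ψ => (H35.infl Z ψ.1 : G → ℂ)
  have hw : LinearIndependent ℂ w :=
    (H6.irr_linearIndependent (G := G)).comp (fun ψ : H86.quotSet Z B => H35.infl Z ψ.1)
      (H35.infl_injective.comp Subtype.val_injective)
  have hsp : ∀ θ ∈ Submodule.span ℂ (Set.range w), IsClassFunction G θ ∧ blockPart B θ = θ ∧
      ∀ z ∈ Z, ∀ g, θ (z * g) = θ g := by
    intro θ hθ
    induction hθ using Submodule.span_induction with
    | mem x hx =>
      obtain ⟨ψ, rfl⟩ := hx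
      refine ⟨irr_class _, blockPart_irr_of_mem (H86.mem_quotSet.1 ψ.2), fun z hz g => ?_⟩
      change (ψ.1 : G ⧸ Z → ℂ) ((z * g : G) : G ⧸ Z) = (ψ.1 : G ⧸ Z → ℂ) (g : G ⧸ Z)
      rw [QuotientGroup.mk_mul, (QuotientGroup.eq_one_iff z).2 hz, one_mul]
    | zero => exact ⟨fun _ _ => rfl, blockPart_zero B, fun _ _ _ => rfl⟩
    | add x y _ _ hx hy =>
      exact ⟨H6.isClassFunction_add hx.1 hy.1, by rw [blockPart_add, hx.2.1, hy.2.1],
        fun z hz g => by rw [Pi.add_apply, Pi.add_apply, hx.2.2 z hz, hy.2.2 z hz]⟩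
    | smul c x _ hx =>
      exact ⟨H6.isClassFunction_smul c hx.1, by rw [blockPart_smul, hx.2.1],
        fun z hz g => by rw [Pi.smul_apply, Pi.smul_apply, hx.2.2 z hz]⟩
  have hd : Disjoint (Submodule.span ℂ (Set.range w)) (LinearMap.ker T) := by
    rw [Submodule.disjoint_def]
    intro θ hθ h0
    obtain ⟨h1, h2, h3⟩ := hsp θ hθ
    have h4 : pRegularPart p (blockPart B θ) = 0 :=
      congrArg Subtype.val (congrArg Prod.fst (LinearMap.mem_ker.1 h0))
    have h5 : ∀ y ∈ Y, dv p M P e θ y = 0 := fun y hy =>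
      congrFun (congrArg Prod.snd (LinearMap.mem_ker.1 h0)) ⟨y, hy⟩
    have h6 : ∀ u ∈ P, H84.sub p u _ (loc p M P e (zpowers u)) θ = 0 := by
      intro u hu
      rcases hcov u hu with hz | ⟨y, hy, z, hz, hf⟩
      · obtain ⟨ψ, -, h7⟩ := H33.Tame.exists_equiv_cen h hu (lq_cen_top (hc u hz))
        have h8 := h7 θ
        rw [show H33.Tame.sh u θ = θ from funext fun g => h3 u hz g, h4] at h8
        exact (trF ψ).map_eq_zero_iff.1 h8
      · obtain ⟨ψ, -, h7, -⟩ := h.exists_equiv hf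
        rw [h7 θ h1, lq_sub_mul h (hY y hy) (hZ hz) (hc z hz) (h3 z hz)
          (by rw [h.sub_eq (hY y hy) (hl y hy), h5 y hy, zero_smul]), map_zero]
    rw [← h2, h.ext_sub h1 (η := 0) (fun _ _ => rfl) fun u hu => ?_, blockPart_zero]
    rw [h6 u hu, ← zero_smul ℂ (0 : G → ℂ), H84.sub_smul, zero_smul]
  haveI := Fintype.ofFinite (H86.quotSet Z B)
  have := (hw.map hd).fintype_card_le_finrank
  rw [Module.finrank_prod, Module.finrank_fintype_fun_eq_card, Fintype.card_coe,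
    ← Nat.card_eq_fintype_card] at this
  exact this

theorem fus_down (h : MP p M B P e) (hf : f ∈ P ⊓ Cen P)
    {e' : MonoidAlgebra (F M) (Cen (zpowers f))} (he : H86.emb (Cen (zpowers f)).subtype e' = e)
    (h' : MP p M (loc p M P e (zpowers f)) (P.subgroupOf (Cen (zpowers f))) e')
    {Q : Subgroup G} (hfQ : f ∈ Q) {x y : Cen (zpowers f)} (hx : (x : G) ∈ Q)
    (hy : Mor p ⊤ P e Q (y : G)) : Fus p (P.subgroupOf (Cen (zpowers f))) e' x (y * x * y⁻¹) := by
  haveI := H33.charP h.hM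
  have hPK : P ≤ Cen (zpowers f) := H86.le_Cen_comm.1 (Subgroup.zpowers_le.2 hf.2)
  let f' : Cen (zpowers f) := ⟨f, hPK hf.1⟩
  have hc' : ∀ g : Cen (zpowers f), f' * g = g * f' := fun g =>
    Subtype.ext (H86.mem_Cen_zpowers.1 g.2)
  have key : ∀ a : Cen (zpowers f), (a : G) ∈ P →
      H86.emb (Cen (zpowers f)).subtype
        (eS M _ (loc p M (P.subgroupOf (Cen (zpowers f))) e' (zpowers a))) =
      eS M _ (loc p M P e (zpowers (a : G) ⊔ zpowers f)) := by
    intro a ha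
    have ha' : zpowers a ≤ P.subgroupOf (Cen (zpowers f)) := Subgroup.zpowers_le.2 ha
    have hf' : f' ∈ P.subgroupOf (Cen (zpowers f)) := hf.1
    rw [← lq_sup h' ha' hf' hc']
    have h1 := (h'.sub (sup_le ha' (Subgroup.zpowers_le.2 hf'))).emb
      (Cen (zpowers f)).subtype_injective
    rw [H86.top_map_subtype, Subgroup.map_subgroupOf_eq_of_le hPK, he, Subgroup.map_sup,
      MonoidHom.map_zpowers, MonoidHom.map_zpowers] at h1
    exact h.eq_eS (h1.change le_top (by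
      rw [top_inf_eq]; exact (inf_eq_right.mpr (H86.Cen_anti le_sup_right)).symm))
  have hR : zpowers (x : G) ⊔ zpowers f ≤ Q :=
    sup_le (Subgroup.zpowers_le.2 hx) (Subgroup.zpowers_le.2 hfQ)
  have hm := mor_restrict h hy hR
  have hcs : cs (y : G) (zpowers (x : G) ⊔ zpowers f) =
      zpowers ((y * x * y⁻¹ : Cen (zpowers f)) : G) ⊔ zpowers f := by
    rw [H86.cs_sup, H86.cs_zpowers, H86.cs_zpowers, ← H86.mem_Cen_zpowers.1 y.2,
      mul_inv_cancel_right]
    rfl
  have hxP : (x : G) ∈ P := hy.le hx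
  have hyP : ((y * x * y⁻¹ : Cen (zpowers f)) : G) ∈ P := hy.cs_le (H86.conj_mem_cs.2 hx)
  have h2 := (h.mor_iff hm.le hm.cs_le).1 hm
  rw [hcs, ← key x hxP, ← key _ hyP] at h2
  refine (h'.fus_iff hxP hyP).2 ⟨y, rfl, H86.emb_injective (Cen (zpowers f)).subtype_injective ?_⟩
  rw [← h2]
  exact (H86.cj_emb (Cen (zpowers f)).subtype y _).symm

end K44
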