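import Mathlib
import Cfsg.Agent.Lib.K44.L4
import Cfsg.Agent.Lib.K44.GB
import Cfsg.Agent.Lib.K44.GD
import Cfsg.Agent.Lib.K44.GE

/-! Blocks whose defect group has a cyclic subgroup of index at most four. -/

set_option autoImplicit false
set_option linter.style.haveILetI false

namespace K44

open Cfsg
open Subgroup (zpowers)

universe u

theorem good_all {D : Type u} [Group D] [Finite D] (hD : IsPGroup 2 D) {x : D}
    (h : (zpowers x).index ≤ 4) : Good D := by
  by_cases h2 : ∃ g : D, Nat.card D ≤ 2 * orderOf g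
  · obtain ⟨g, hg⟩ := h2
    exact good_idx2 hD hg
  push Not at h2
  have h3 := (zpowers x).index_mul_card
  rw [Nat.card_zpowers] at h3
  obtain ⟨j, hj⟩ := hD.index (zpowers x)
  have h4 : Nat.card D = 4 * orderOf x := by
    have h5 := h2 x
    rw [← h3] at h5 ⊢
    have h6 : 2 < (zpowers x).index := Nat.lt_of_mul_lt_mul_right h5
    have h7 : (zpowers x).index ≠ 3 := fun h7 => by
      rw [h7] at hj
      rcases j with _ | j
      · omega
      · rw [pow_succ] at hj; omega
    rw [show (zpowers x).index = 4 by omega]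
  by_cases hc : ∀ g, g * x ^ 2 = x ^ 2 * g
  · exact good_A hD h4 hc
  obtain ⟨n, y, t, hm⟩ := exists_ms hD h4 h2 hc
  rcases hm.th' with ⟨h5, h6⟩ | h5
  · exact good_B hm h5 h6
  · exact good_C hm h5

theorem card_le {G : Type u} [Group G] [Finite G] {M : Ideal AlgInt} (hM : IsPModular 2 M)
    {B : Set (IrrCharacter G)} (hB : IsPBlock M B) {D : Subgroup G} (hD : IsDefectGroup 2 M B D)
    {C : Subgroup G} (hCD : C ≤ D) (hcyc : IsCyclic C) (hidx : C.relIndex D ≤ 4) :
    Nat.card B ≤ Nat.card D := by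
  haveI := H33.isMaximal_of hM
  refine card_le_of_good hM hB hD (fun K _ _ b Q A k a c hb hQ q => ?_) ?_
  · letI := Fintype.ofFinite K
    obtain ⟨e, h⟩ := H85.exists_mp hM hb hQ
    obtain ⟨d, q'⟩ := q.exists_d
    exact rank_le_qs h q'
  · obtain ⟨x, hx⟩ := (Subgroup.isCyclic_iff_exists_zpowers_eq_top C).1 hcyc
    have hxD : x ∈ D := hCD (hx ▸ Subgroup.mem_zpowers x)
    refine good_all (H33.defect_isPGroup hD) (x := ⟨x, hxD⟩) ?_
    rw [Subgroup.relIndex, ← hx] at hidx
    convert hidx using 2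
    ext g
    rw [Subgroup.mem_subgroupOf, Subgroup.mem_zpowers_iff, Subgroup.mem_zpowers_iff]
    exact exists_congr fun n => by rw [Subtype.ext_iff]; rfl

end K44
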