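import Mathlib
import Cfsg.Agent.Lib.K44.F1

set_option autoImplicit false
set_option linter.unusedSectionVars false
set_option linter.style.haveILetI false
attribute [local irreducible] H33.instFieldF

namespace K44

open Cfsg H84 H85
open H33 (F eB)
open H86 (Cen Nor cj cs eS St Mor)
open Subgroup (zpowers)
open scoped SubFin

variable {G : Type*} [Group G] [Fintype G] {M : Ideal AlgInt} [M.IsMaximal]
  {B : Set (IrrCharacter G)} {P A : Subgroup G} {e : MonoidAlgebra (F M) G} {k : ℕ}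
  {a c d s u u' f g t : G}

theorem se_not_Z (q : QS k P A a c d) (hn : s ∉ A) : s ∉ P ⊓ Cen P :=
  fun h => hn (q.toQS0.mem_Z.1 h).1

theorem se_s_mem (hs : s ∈ P) : s ∈ P ⊓ Cen (zpowers s) := ⟨hs, H86.mem_Cen_zpowers.2 rfl⟩

theorem se_Z_le (q : QS k P A a c d) (hs : s ∈ P) (hn : s ∉ A) :
    P ⊓ Cen P ≤ P ⊓ Cen (zpowers s) := fun _ hx => (q.toQS0.mem_E hs hn).2 (Or.inl hx)

theorem se_fix {w z : G} (hw : w ∈ P) (hz : z ∈ P ⊓ Cen P) : w * z * w⁻¹ = z := by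
  rw [H86.mem_Cen.1 hz.2 w hw, mul_inv_cancel_right]

theorem se_mul (q : QS k P A a c d) (hs : s ∈ P) (hn : s ∉ A) {x y : G}
    (hx : x ∈ P ⊓ Cen (zpowers s)) (hy : y ∈ P ⊓ Cen (zpowers s)) (nx : x ∉ P ⊓ Cen P)
    (ny : y ∉ P ⊓ Cen P) : x * y ∈ P ⊓ Cen P := by
  have h1 := ((q.toQS0.mem_E hs hn).1 hx).resolve_left nx
  have h2 := ((q.toQS0.mem_E hs hn).1 hy).resolve_left ny
  have h3 : x * y = s ^ 2 * ((s⁻¹ * x) * (s⁻¹ * y)) := by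
    have := se_fix (inv_mem hs) h1
    calc x * y = s ^ 2 * ((s⁻¹ * (s⁻¹ * x) * s⁻¹⁻¹) * (s⁻¹ * y)) := by rw [sq]; group
      _ = _ := by rw [this]
  rw [h3]
  exact mul_mem (q.toQS0.sq_mem_Z hs hn) (mul_mem h1 h2)

theorem se_sq (q : QS k P A a c d) (hs : s ∈ P) (hn : s ∉ A) (h2 : s ^ 2 = 1) {x : G}
    (hx : x ∈ P ⊓ Cen (zpowers s)) : x ^ 2 = 1 := by
  rcases (q.toQS0.mem_E hs hn).1 hx with h1 | h1
  · exact (q.toQS0.mem_Z.1 h1).2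
  · have h3 := se_fix (inv_mem hs) h1
    have h4 := (q.toQS0.mem_Z.1 h1).2
    calc x ^ 2 = s ^ 2 * ((s⁻¹ * (s⁻¹ * x) * s⁻¹⁻¹) * (s⁻¹ * x)) := by rw [sq, sq]; group
      _ = 1 := by rw [h3, ← sq, h2, h4, mul_one]

theorem se_triv (q : QS k P A a c d) (hs : s ∈ P) (hn : s ∉ A) {w x : G} (hw : w ∈ P)
    (h1 : w * s * w⁻¹ = s) (hx : x ∈ P ⊓ Cen (zpowers s)) : w * x * w⁻¹ = x := by
  rcases (q.toQS0.mem_E hs hn).1 hx with h2 | h2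
  · exact se_fix hw h2
  · calc w * x * w⁻¹ = (w * s * w⁻¹) * (w * (s⁻¹ * x) * w⁻¹) := by group
      _ = x := by rw [h1, se_fix hw h2, mul_inv_cancel_left]

theorem se_act (q : QS k P A a c d) (hs : s ∈ P) (hn : s ∉ A) {w x : G} (hw : w ∈ P)
    (h1 : w * s * w⁻¹ = s * d) (hx : x ∈ P ⊓ Cen (zpowers s)) (nx : x ∉ P ⊓ Cen P) :
    w * x * w⁻¹ = x * d := by
  have h2 := ((q.toQS0.mem_E hs hn).1 hx).resolve_left nx
  calc w * x * w⁻¹ = (w * s * w⁻¹) * (w * (s⁻¹ * x) * w⁻¹) := by group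
    _ = s * (d * (s⁻¹ * x)) := by rw [h1, se_fix hw h2, mul_assoc]
    _ = x * d := by rw [← H86.mem_Cen.1 q.d_mem.2 _ h2.1]; group

theorem se_nor (q : QS k P A a c d) (hs : s ∈ P) (hn : s ∉ A) {w x : G}
    (hw : w ∈ P ⊓ Nor (P ⊓ Cen (zpowers s) : Subgroup G)) (hx : x ∈ P ⊓ Cen (zpowers s)) :
    w * x * w⁻¹ = x ∨ w * x * w⁻¹ = x * d := by
  rcases q.nor_E hs hn hw with h1 | h1
  · exact Or.inl (se_triv q hs hn hw.1 h1 hx)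
  · by_cases nx : x ∈ P ⊓ Cen P
    · exact Or.inl (se_fix hw.1 nx)
    · exact Or.inr (se_act q hs hn hw.1 h1 hx nx)

theorem se_card_cs (g : G) (Q : Subgroup G) : Nat.card (cs g Q) = Nat.card Q :=
  (Nat.card_congr (H86.csEquiv g (rfl : cs g Q = cs g Q)).toEquiv).symm

theorem se_cs_E (q : QS k P A a c d) (hs : s ∈ P) (hn : s ∉ A) (h2 : s ^ 2 = 1)
    (hg : cs g (P ⊓ Cen (zpowers s)) ≤ P) :
    ∃ s' ∈ P, s' ∉ A ∧ cs g (P ⊓ Cen (zpowers s)) = P ⊓ Cen (zpowers s') := by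
  refine q.eq_E hg (fun r hr => ?_) (by rw [se_card_cs, q.toQS0.card_E hs hn])
  have h3 := se_sq q hs hn h2 (H86.mem_cs.1 hr)
  calc r ^ 2 = g * (g⁻¹ * r * g) ^ 2 * g⁻¹ := by rw [sq, sq]; group
    _ = 1 := by rw [h3]; group

theorem fn_E (h : MP 2 M B P e) (q : QS k P A a c d) (hs : s ∈ P) (hn : s ∉ A) (h2 : s ^ 2 = 1) :
    FN 2 P e (P ⊓ Cen (zpowers s)) := by
  intro g hg
  obtain ⟨s', hs', hn', h3⟩ := se_cs_E q hs hn h2 hg.cs_le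
  rw [h3, q.card_nor_E hs' hn', q.card_nor_E hs hn]

theorem se_extN (h : MP 2 M B P e) {Q R : Subgroup G} (hg : Mor 2 ⊤ P e Q g) (hR : cs g Q = R)
    (hf : FN 2 P e R) : ∃ t ∈ SQ 2 M P e R, Mor 2 ⊤ P e (P ⊓ Nor Q) (t * g) := by
  subst hR
  exact extN h hg hf

theorem exists_SQ (h : MP 2 M B P e) (q : QS k P A a c d) (hs : s ∈ P) (hn : s ∉ A)
    (hf : ¬ NF P e A s) :
    s ^ 2 = 1 ∧ ∃ t ∈ SQ 2 M P e (P ⊓ Cen (zpowers s)), t * s * t⁻¹ ∈ P ⊓ Cen P := by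
  have h2 : s ^ 2 = 1 := by_contra fun h2 => hf (nf_of_sq h q hs hn h2)
  refine ⟨h2, ?_⟩
  obtain ⟨u, hu, hus⟩ : ∃ u ∈ A, Fus 2 P e u s := by
    by_contra h3
    exact hf fun u hu h4 => h3 ⟨u, hu, h4⟩
  have huZ : u ∈ P ⊓ Cen P := q.toQS0.mem_Z.2 ⟨hu, (f1_sq hus).1 h2⟩
  obtain ⟨g, hg, hug⟩ := extC h hus.symm (fc_of_central (f1_cen huZ))
  obtain ⟨s', hs', hn', h3⟩ := se_cs_E q hs hn h2 hg.cs_le
  obtain ⟨t, ht, hy⟩ := se_extN h hg.inv (H86.cs_inv_cs _ _) (fn_E h q hs hn h2)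
  refine ⟨t, ht, ?_⟩
  have htN := SQ_le_Nor ht
  have hv := q.v_mem hs' hn'
  rw [← h3] at hv
  have hy' : cs (t * g⁻¹) (cs g (P ⊓ Cen (zpowers s))) = P ⊓ Cen (zpowers s) := by
    rw [H86.cs_mul, H86.cs_inv_cs, H86.mem_Nor_iff_cs.1 htN]
  have hv' : t * g⁻¹ * a ^ 2 ^ k * (t * g⁻¹)⁻¹ ∈ P ⊓ Nor (P ⊓ Cen (zpowers s) : Subgroup G) := by
    refine ⟨hy.cs_le (H86.conj_mem_cs.2 hv), ?_⟩
    have := (H86.conj_mem_cs (x := t * g⁻¹)).2 hv.2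
    rwa [H86.cs_Nor, hy'] at this
  have hx : t * s * t⁻¹ ∈ P ⊓ Cen (zpowers s) := H86.conj_mem_of_Nor htN (se_s_mem hs)
  rcases q.nor_E hs hn hv' with h4 | h4
  · have h5 : t * g⁻¹ * s' * (t * g⁻¹)⁻¹ ∈ P ⊓ Cen (zpowers s) := by
      rw [← hy', H86.conj_mem_cs, h3]
      exact se_s_mem hs'
    have h6 := se_triv q hs hn hv'.1 h4 h5
    rw [show t * g⁻¹ * a ^ 2 ^ k * (t * g⁻¹)⁻¹ * (t * g⁻¹ * s' * (t * g⁻¹)⁻¹) *
      (t * g⁻¹ * a ^ 2 ^ k * (t * g⁻¹)⁻¹)⁻¹ =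
      t * g⁻¹ * (a ^ 2 ^ k * s' * (a ^ 2 ^ k)⁻¹) * (t * g⁻¹)⁻¹ by group, q.dl s' hs' hn',
      mul_left_inj, mul_right_inj, mul_eq_left] at h6
    exact absurd h6 q.d_ne_one
  · by_contra nx
    have h6 := se_act q hs hn hv'.1 h4 hx nx
    have h7 := se_fix hv.1 huZ
    rw [show t * g⁻¹ * a ^ 2 ^ k * (t * g⁻¹)⁻¹ * (t * s * t⁻¹) *
      (t * g⁻¹ * a ^ 2 ^ k * (t * g⁻¹)⁻¹)⁻¹ =
      t * g⁻¹ * (a ^ 2 ^ k * (g * s * g⁻¹) * (a ^ 2 ^ k)⁻¹) * (t * g⁻¹)⁻¹ by group, ← hug, h7, hug,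
      show t * g⁻¹ * (g * s * g⁻¹) * (t * g⁻¹)⁻¹ = t * s * t⁻¹ by group, left_eq_mul] at h6
    exact q.d_ne_one h6

theorem se_idx2 {Q₀ Q : Subgroup G} (hle : Q₀ ≤ Q) (hc : Nat.card Q = Nat.card Q₀ * 2) {w : G}
    (h1 : w ∈ Nor Q) (h0 : w ∈ Nor Q₀) : ∀ x ∈ Q, w * x * w⁻¹ * x⁻¹ ∈ Q₀ := by
  intro x hx
  have hi : (Q₀.subgroupOf Q).index = 2 := by
    have h2 := (Q₀.subgroupOf Q).card_mul_index
    rw [Nat.card_congr (Subgroup.subgroupOfEquivOfLe hle).toEquiv, hc] at h2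
    exact Nat.eq_of_mul_eq_mul_left Nat.card_pos h2
  have h3 := (Subgroup.mul_mem_iff_of_index_two hi
    (a := ⟨w * x * w⁻¹, H86.conj_mem_of_Nor h1 hx⟩) (b := ⟨x⁻¹, inv_mem hx⟩)).2 (by
      simp only [Subgroup.mem_subgroupOf, inv_mem_iff]
      exact (H86.mem_Nor.1 h0 x).symm)
  exact h3

theorem se_nor_of {W : Subgroup G} {w : G} (h : ∀ x ∈ W, w * x * w⁻¹ ∈ W) : w ∈ Nor W :=
  H86.mem_Nor_of_cs_le fun y hy => by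
    have := h _ (H86.mem_cs.1 hy)
    rwa [show w * (w⁻¹ * y * w) * w⁻¹ = y by group] at this

theorem se_flag (h : MP 2 M B P e) (q : QS k P A a c d) (hs : s ∈ P) (hn : s ∉ A) (h2 : s ^ 2 = 1)
    {W : Subgroup G} (hW : W ≤ P ⊓ Cen (zpowers s)) (h4 : Nat.card W = 4) {x : G} (hx : x ∈ W)
    (x1 : x ≠ 1) (hP : ∀ w ∈ P ⊓ Nor (P ⊓ Cen (zpowers s) : Subgroup G),
      w * x * w⁻¹ = x ∧ ∀ y ∈ W, w * y * w⁻¹ ∈ W)
    (hg : g ∈ SQ 2 M P e (P ⊓ Cen (zpowers s))) (gx : g * x * g⁻¹ = x)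
    (gW : ∀ y ∈ W, g * y * g⁻¹ ∈ W) {z : G} (hz : z ∈ P ⊓ Cen P) : g * z * g⁻¹ = z := by
  have cx : ∀ w, w * x * w⁻¹ = x → w ∈ Cen (zpowers x) := fun w hw =>
    H86.mem_Cen_zpowers.2 (mul_inv_eq_iff_eq_mul.1 hw).symm
  have hxW : zpowers x ≤ W := Subgroup.zpowers_le.2 hx
  have hE : P ⊓ Cen (zpowers s) ≤ P := inf_le_left
  obtain ⟨r, hr, h5⟩ := act_of_le h hE (fn_E h q hs hn h2)
    (T := SQ 2 M P e (P ⊓ Cen (zpowers s)) ⊓ (Cen (zpowers x) ⊓ Nor W))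
    (fun w hw => ⟨inf_Nor_le_SQ h hE hw, cx w (hP w hw).1, se_nor_of (hP w hw).2⟩)
    (le_inf (Cen_le_SQ h hE) (le_inf (H86.Cen_anti (hxW.trans hW))
      ((H86.Cen_anti hW).trans (H86.Cen_le_Nor W)))) inf_le_left
    (fun w hw ho => by
      have h6 : Nat.card (zpowers x) = 2 := by
        rw [Nat.card_zpowers, orderOf_eq_prime (se_sq q hs hn h2 (hW hx)) x1]
      have h7 : w ∈ Cen W := H86.mem_Cen_of_comm (h.pgrp.to_le (hxW.trans (hW.trans hE))) ho hw.2.1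
        (se_idx2 hxW (by rw [h4, h6]) hw.2.2 (H86.Cen_le_Nor _ hw.2.1))
      exact H86.mem_Cen_of_comm (h.pgrp.to_le (hW.trans hE)) ho h7
        (se_idx2 hW (by rw [h4, q.toQS0.card_E hs hn]) (SQ_le_Nor hw.1) hw.2.2))
    (t := g) ⟨hg, cx g gx, se_nor_of gW⟩
  rw [h5 z (se_Z_le q hs hn hz), se_fix hr.1 hz]

theorem lemE (h : MP 2 M B P e) (q : QS k P A a c d) (hs : s ∈ P) (hn : s ∉ A) (h2 : s ^ 2 = 1)
    (ht : t ∈ SQ 2 M P e (P ⊓ Cen (zpowers s))) (hts : t * s * t⁻¹ ∈ P ⊓ Cen P) :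
    t * d * t⁻¹ ≠ d ∧ ∃ f ∈ P ⊓ Cen P, f ≠ 1 ∧ f ≠ d ∧ ∀ r ∈ P ⊓ Cen (zpowers s),
      ∃ g ∈ SQ 2 M P e (P ⊓ Cen (zpowers s)), f * g = g * f ∧ g * r * g⁻¹ ∈ P ⊓ Cen P := by
  have htN := SQ_le_Nor ht
  have hv := q.v_mem hs hn
  have hvS := inf_Nor_le_SQ h (inf_le_left : P ⊓ Cen (zpowers s) ≤ P) hv
  have hZ := se_Z_le q hs hn
  obtain ⟨v, hve⟩ : ∃ v, a ^ 2 ^ k = v := ⟨_, rfl⟩
  have hvs : v * s * v⁻¹ = s * d := hve ▸ q.dl s hs hn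
  rw [hve] at hv hvS
  have hg : t * v * t⁻¹ ∈ SQ 2 M P e (P ⊓ Cen (zpowers s)) := mul_mem (mul_mem ht hvS) (inv_mem ht)
  have hd' : t * d * t⁻¹ ∈ P ⊓ Cen (zpowers s) := H86.conj_mem_of_Nor htN (hZ q.d_mem)
  have hV : cs t (P ⊓ Cen P) ≤ P ⊓ Cen (zpowers s) :=
    (H86.cs_mono t hZ).trans (H86.mem_Nor_iff_cs.1 htN).le
  have g1 : ∀ x ∈ cs t (P ⊓ Cen P), t * v * t⁻¹ * x * (t * v * t⁻¹)⁻¹ = x := fun x hx => by
    have := se_fix hv.1 (H86.mem_cs.1 hx)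
    calc _ = t * (v * (t⁻¹ * x * t) * v⁻¹) * t⁻¹ := by group
      _ = x := by rw [this]; group
  have g2 : ∀ x ∈ P ⊓ Cen (zpowers s), x ∉ cs t (P ⊓ Cen P) →
      t * v * t⁻¹ * x * (t * v * t⁻¹)⁻¹ = x * (t * d * t⁻¹) := fun x hx nx => by
    have := se_act q hs hn hv.1 hvs (H86.conj_mem_of_Nor' htN hx) (fun h3 => nx (H86.mem_cs.2 h3))
    calc _ = t * (v * (t⁻¹ * x * t) * v⁻¹) * t⁻¹ := by group
      _ = _ := by rw [this]; group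
  have d1 : t * d * t⁻¹ ≠ 1 := fun h3 => by
    rw [mul_inv_eq_one, mul_eq_left] at h3
    exact q.d_ne_one h3
  have key : t * v * t⁻¹ * (t * s * t⁻¹) * (t * v * t⁻¹)⁻¹ ≠ t * s * t⁻¹ := by
    rw [g2 _ (hZ hts) fun h3 => se_not_Z q hn (H86.conj_mem_cs.1 h3), Ne, mul_eq_left]
    exact d1
  have n1 : t * d * t⁻¹ ∉ P ⊓ Cen P := fun h3 => by
    refine key (se_flag h q hs hn h2 hZ q.toQS0.card_Z h3 d1
      (fun w hw => ⟨se_fix hw.1 h3, fun y hy => by rwa [se_fix hw.1 hy]⟩) hg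
      (g1 _ (H86.conj_mem_cs.2 q.d_mem)) (fun y hy => ?_) hts)
    by_cases h4 : y ∈ cs t (P ⊓ Cen P)
    · rwa [g1 y h4]
    · rw [g2 y (hZ hy) h4]
      exact mul_mem hy h3
  have n2 : d ∉ cs t (P ⊓ Cen P) := fun h3 => by
    refine key (se_flag h q hs hn h2 hV (by rw [se_card_cs, q.toQS0.card_Z]) h3 q.d_ne_one
      (fun w hw => ⟨se_fix hw.1 q.d_mem, fun y hy => ?_⟩) hg (g1 _ h3)
      (fun y hy => by rwa [g1 y hy]) hts)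
    rcases se_nor q hs hn hw (hV hy) with h4 | h4 <;> rw [h4]
    · exact hy
    · exact mul_mem hy h3
  refine ⟨fun h3 => n1 (by rw [h3]; exact q.d_mem), ?_⟩
  obtain ⟨f, hf, f1, f2, f3⟩ : ∃ f ∈ P ⊓ Cen P, f ≠ 1 ∧ f ≠ d ∧ f ∈ cs t (P ⊓ Cen P) := by
    obtain ⟨f, hf, f1, f2⟩ := q.exists_f
    by_cases h3 : f ∈ cs t (P ⊓ Cen P)
    · exact ⟨f, hf, f1, f2, h3⟩
    refine ⟨d * f, mul_mem q.d_mem hf, fun h4 => f2 ?_, fun h4 => f1 (mul_eq_left.1 h4), ?_⟩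
    · have h5 := (q.toQS0.mem_Z.1 q.d_mem).2
      rw [sq, ← h4] at h5
      exact (mul_left_cancel h5).symm
    · rw [H86.mem_cs, show t⁻¹ * (d * f) * t = (t⁻¹ * d * t) * (t⁻¹ * f * t) by group]
      exact se_mul q hs hn (H86.conj_mem_of_Nor' htN (hZ q.d_mem))
        (H86.conj_mem_of_Nor' htN (hZ hf)) (fun h4 => n2 (H86.mem_cs.2 h4))
        fun h4 => h3 (H86.mem_cs.2 h4)
  have c1 : f * (t * v * t⁻¹) = t * v * t⁻¹ * f := (mul_inv_eq_iff_eq_mul.1 (g1 f f3)).symm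
  have c2 : f * v = v * f := (H86.mem_Cen.1 hf.2 v hv.1).symm
  refine ⟨f, hf, f1, f2, fun r hr => ?_⟩
  by_cases r1 : r ∈ P ⊓ Cen P
  · exact ⟨1, one_mem _, by simp, by simpa using r1⟩
  by_cases r2 : r ∈ cs t (P ⊓ Cen P)
  · refine ⟨t * v * t⁻¹ * v, mul_mem hg hvS, ?_, ?_⟩
    · rw [← mul_assoc, c1, mul_assoc _ f, c2, ← mul_assoc]
    · have h3 : r * d ∈ P ⊓ Cen (zpowers s) := mul_mem hr (hZ q.d_mem)
      rw [show t * v * t⁻¹ * v * r * (t * v * t⁻¹ * v)⁻¹ =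
        t * v * t⁻¹ * (v * r * v⁻¹) * (t * v * t⁻¹)⁻¹ by group, se_act q hs hn hv.1 hvs hr r1,
        g2 _ h3 fun h4 => n2 ((Subgroup.mul_mem_cancel_left _ r2).1 h4)]
      exact se_mul q hs hn h3 hd'
        (fun h4 => r1 ((Subgroup.mul_mem_cancel_right _ q.d_mem).1 h4)) n1
  · refine ⟨t * v * t⁻¹, hg, c1, ?_⟩
    rw [g2 r hr r2]
    exact se_mul q hs hn hr hd' r1 n1

theorem rank_d (h : MP 2 M B P e) (q : QS k P A a c d) :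
    blockRank 2 (loc 2 M P e (zpowers d)) = 1 := by
  have hc : P ≤ Cen (zpowers d) := f1_cen q.d_mem
  obtain ⟨e', -, h'⟩ := h.down (Subgroup.zpowers_le.2 q.d_mem.1) hc
  have q' := q.subgroupOf hc (hc (q.le q.toQS0.a_mem)) (hc (q.le q.toQS0.c_mem)) (hc q.d_mem.1)
  have hnf : ∀ s ∈ P.subgroupOf (Cen (zpowers d)), s ∉ A.subgroupOf (Cen (zpowers d)) →
      NF (P.subgroupOf (Cen (zpowers d))) e' (A.subgroupOf (Cen (zpowers d))) s := by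
    intro s hs hn
    by_contra hf
    obtain ⟨h2, t, ht, hts⟩ := exists_SQ h' q' hs hn hf
    refine (lemE h' q' hs hn h2 ht hts).1 (Subtype.ext ?_)
    have := H86.mem_Cen_zpowers.1 t.2
    change (t : G) * d * (t : G)⁻¹ = d
    rw [← this, mul_inv_cancel_right]
  refine h'.blockRank_of_ctrl fun u v huv => ?_
  by_cases hu : u.1 ∈ A.subgroupOf (Cen (zpowers d))
  · have hv : v.1 ∈ A.subgroupOf (Cen (zpowers d)) := by_contra fun hv => hnf _ v.2 hv _ hu huv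
    obtain ⟨s, hs, hn⟩ := q'.ex
    rcases fus_A h' q' hs hn hu hv huv with h1 | h1
    · rw [Subtype.ext h1]
    · exact isConj_iff.2 ⟨⟨s, hs⟩, Subtype.ext h1.symm⟩
  · obtain ⟨r, hr, h1⟩ := (hnf _ u.2 hu).exists_conj h' q' huv
    exact isConj_iff.2 ⟨⟨r, hr⟩, Subtype.ext h1.symm⟩

end K44
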