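import Mathlib
import Cfsg.Agent.Lib.K44.SE
import Cfsg.Agent.Lib.K44.LQ
import Cfsg.Agent.Lib.K44.T0

/-! A lower bound for the number of Brauer characters of a central subsection when the defect
group is dihedral times a group of order two. -/

set_option autoImplicit false
set_option linter.unusedSectionVars false
set_option linter.style.haveILetI false
attribute [local irreducible] H33.instFieldF

namespace K44

open Cfsg H84 H85
open H33 (F eB)
open H86 (Cen Nor cj cs eS St Mor)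
open Subgroup (zpowers)
open scoped SubFin

universe u

variable {G : Type u} [Group G] [Fintype G] {M : Ideal AlgInt} [M.IsMaximal]
  {B : Set (IrrCharacter G)} {P A : Subgroup G} {e : MonoidAlgebra (F M) G} {k : ℕ}
  {a c d s u u' f g t : G}

theorem s5_cov (h : MP 2 M B P e) (q : QS k P A a c d) (hb : ∀ s ∈ P, s ∉ A → s ^ 2 = 1)
    (hf : f ∈ P ⊓ Cen P) (h1 : f ≠ 1) (h2 : f ≠ d) (hu : u ∈ A) :
    u ∈ zpowers f ∨ ∃ i ∈ Finset.Icc 1 (2 ^ (k + 1)), ∃ z ∈ zpowers f,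
      Fus 2 P e (a ^ i * z) u := by
  obtain ⟨s, hs, hn⟩ := q.ex
  obtain ⟨-, i, hi, h3⟩ := q.memA_of_beta hb hf h1 h2 hu
  obtain ⟨z, hz, hz', rfl⟩ : ∃ z ∈ zpowers f, z ∈ P ⊓ Cen P ∧ u = a ^ i * z := by
    rcases h3 with h3 | h3
    · exact ⟨1, one_mem _, one_mem _, by rw [mul_one, h3]⟩
    · exact ⟨f, Subgroup.mem_zpowers f, hf, h3⟩
  rcases Nat.eq_zero_or_pos i with rfl | h4
  · left; simpa using hz
  right
  by_cases h5 : i ≤ 2 ^ (k + 1)
  · exact ⟨i, Finset.mem_Icc.2 ⟨h4, h5⟩, z, hz, h.fus_refl (q.le hu)⟩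
  have ha : a ^ (2 ^ (k + 2) - i) ∈ A := pow_mem q.toQS0.a_mem _
  refine ⟨2 ^ (k + 2) - i, Finset.mem_Icc.2 ⟨by omega, by rw [pow_succ] at hi ⊢; omega⟩, z, hz, ?_⟩
  have h6 := h.fus_conj_mem (mul_mem (q.le ha) hz'.1) hs
  rwa [← conj_mul, q.inv_of_beta hb hs hn ha, H86.mem_Cen.1 hz'.2 s hs, mul_inv_cancel_right,
    inv_eq_of_mul_eq_one_right (b := a ^ i) (by
      rw [← pow_add, Nat.sub_add_cancel hi.le, ← q.ord, pow_orderOf_eq_one])] at h6

theorem s5_main (h : MP 2 M B P e) (q : QS k P A a c d) (hb : ∀ s ∈ P, s ∉ A → s ^ 2 = 1)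
    (hs : s ∈ P) (hn : s ∉ A) (hf : f ∈ P ⊓ Cen P) (h1 : f ≠ 1) (h2 : f ≠ d)
    (hc : ∀ g, f * g = g * f) [DecidableEq G] [DecidablePred (NF P e A)] :
    3 ≤ blockRank 2 B + (({s, s * a} : Finset G).filter (NF P e A)).card := by
  have hcen : zpowers f ≤ Subgroup.center G :=
    Subgroup.zpowers_le.2 (Subgroup.mem_center_iff.2 fun g => (hc g).symm)
  haveI : (zpowers f).Normal := ⟨fun z hz g => by
    rwa [Subgroup.mem_center_iff.1 (hcen hz) g, mul_inv_cancel_right]⟩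
  have hZP : zpowers f ≤ P := Subgroup.zpowers_le.2 hf.1
  have hZ : IsPGroup 2 (zpowers f) := h.pgrp.to_le hZP
  have hq : H86.PQuot 2 (Cen (zpowers f)) ⊤ := H86.pQuot_of_le_center hcen
  have h3 := (tm_bounds h.hM (H86.isPBlock_quotSet h.hM h.hB hZ hq)
    (H86.isDefectGroup_quotSet h.hM h.hB hZ hq h.defect)
    (q.tmG_of_beta hb hs hn hf h1 h2 _ (QuotientGroup.ker_mk' _))).2
  have ha := q.toQS0.a_mem
  have hN : ∀ y ∈ ({s, s * a} : Finset G), y ∈ P := by
    simp only [Finset.mem_insert, Finset.mem_singleton]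
    rintro y (rfl | rfl)
    exacts [hs, mul_mem hs (q.le ha)]
  have h4 := card_quot_le h hZP (fun z hz g => (Subgroup.mem_center_iff.1 (hcen hz) g).symm)
    ((Finset.Icc 1 (2 ^ (k + 1))).image (a ^ ·) ∪ ({s, s * a} : Finset G).filter (NF P e A))
    (fun y hy => by
      rcases Finset.mem_union.1 hy with h4 | h4
      · obtain ⟨i, -, rfl⟩ := Finset.mem_image.1 h4
        exact q.le (pow_mem ha i)
      · exact hN y (Finset.mem_filter.1 h4).1)
    (fun y hy => by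
      rcases Finset.mem_union.1 hy with h4 | h4
      · obtain ⟨i, hi, rfl⟩ := Finset.mem_image.1 h4
        obtain ⟨h5, h6⟩ := Finset.mem_Icc.1 hi
        rcases h6.eq_or_lt with rfl | h6
        · rw [← q.d_eq_of_beta hb]
          exact rank_d h q
        · refine (loc_A h q (pow_mem ha i) fun h7 => ?_).1
          rw [← pow_mul, ← orderOf_dvd_iff_pow_eq_one, q.ord] at h7
          have := Nat.le_of_dvd (by omega) h7
          rw [pow_succ] at this
          omega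
      · exact ((Finset.mem_filter.1 h4).2.loc h q (hN y (Finset.mem_filter.1 h4).1) hf h1
          fun t _ => hc t).1)
    (fun u hu => by
      have kA : ∀ u ∈ A, u ∈ zpowers f ∨ ∃ y ∈ (Finset.Icc 1 (2 ^ (k + 1))).image (a ^ ·) ∪
          ({s, s * a} : Finset G).filter (NF P e A), ∃ z ∈ zpowers f, Fus 2 P e (y * z) u :=
        fun u hu => (s5_cov h q hb hf h1 h2 hu).imp_right fun ⟨i, hi, h4⟩ =>
          ⟨_, Finset.mem_union_left _ (Finset.mem_image_of_mem _ hi), h4⟩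
      by_cases hA : u ∈ A
      · exact kA u hA
      right
      obtain ⟨r, hr, s', h4, h5⟩ := q.rep_of_beta hb hs hn hf h1 h2 hu hA
      have h6 : s' ∈ ({s, s * a} : Finset G) := by simpa using h4
      have h7 : s' ∉ A := by
        rcases h4 with rfl | rfl
        exacts [hn, fun h7 => hn ((Subgroup.mul_mem_cancel_right A ha).1 h7)]
      obtain ⟨y, hy, z, hz, h8⟩ : ∃ y ∈ (Finset.Icc 1 (2 ^ (k + 1))).image (a ^ ·) ∪
          ({s, s * a} : Finset G).filter (NF P e A), ∃ z ∈ zpowers f, Fus 2 P e (y * z) s' := by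
        by_cases h8 : NF P e A s'
        · exact ⟨s', Finset.mem_union_right _ (Finset.mem_filter.2 ⟨h6, h8⟩), 1, one_mem _,
            by rw [mul_one]; exact h.fus_refl (hN _ h6)⟩
        obtain ⟨u₀, h9, h10⟩ : ∃ u₀ ∈ A, Fus 2 P e u₀ s' := by simpa [NF] using h8
        rcases kA u₀ h9 with h11 | ⟨y, hy, z, hz, h11⟩
        · obtain ⟨g, -, h12⟩ := h10
          rw [Subgroup.mem_center_iff.1 (hcen h11) g, mul_inv_cancel_right] at h12
          exact absurd (h12 ▸ h9) h7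
        · exact ⟨y, hy, z, hz, h.fus_trans h11 h10⟩
      rcases h5 with rfl | rfl
      · exact ⟨y, hy, z, hz, h.fus_trans h8 (h.fus_conj_mem (hN _ h6) (q.le hr))⟩
      · exact ⟨y, hy, z * f, mul_mem hz (Subgroup.mem_zpowers f), h.fus_trans
          (mul_assoc y z f ▸ fus_mul h hf.1 hc h8)
          (h.fus_conj_mem (mul_mem (hN _ h6) hf.1) (q.le hr))⟩)
  have h5 := Finset.card_union_le ((Finset.Icc 1 (2 ^ (k + 1))).image (a ^ ·))
    (({s, s * a} : Finset G).filter (NF P e A))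
  have h6 := Finset.card_image_le (s := Finset.Icc 1 (2 ^ (k + 1))) (f := (a ^ ·))
  rw [Nat.card_Icc, Nat.add_sub_cancel] at h6
  generalize 2 ^ (k + 1) = n at h3 h4 h5 h6
  omega

theorem rank_cen (h : MP 2 M B P e) (q : QS k P A a c d) (hb : ∀ s ∈ P, s ∉ A → s ^ 2 = 1)
    (hs : s ∈ P) (hn : s ∉ A) (hf : f ∈ P ⊓ Cen P) (h1 : f ≠ 1) (h2 : f ≠ d)
    (hc : ∀ g, f * g = g * f) :
    (¬ NF P e A s ∨ ¬ NF P e A (s * a) → 2 ≤ blockRank 2 B) ∧
      (¬ NF P e A s → ¬ NF P e A (s * a) → 3 ≤ blockRank 2 B) := by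
  letI := Classical.decEq G
  letI := Classical.decPred (NF P e A)
  have h3 := s5_main h q hb hs hn hf h1 h2 hc
  refine ⟨fun h4 => ?_, fun h4 h5 => ?_⟩
  · have h5 : (({s, s * a} : Finset G).filter (NF P e A)).card ≤ 1 := by
      rcases h4 with h4 | h4
      · rw [Finset.filter_insert, if_neg h4]
        exact (Finset.card_filter_le _ _).trans (Finset.card_singleton _).le
      · rw [Finset.pair_comm, Finset.filter_insert, if_neg h4]
        exact (Finset.card_filter_le _ _).trans (Finset.card_singleton _).le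
    omega
  · rwa [Finset.filter_insert, if_neg h4, Finset.filter_singleton, if_neg h5] at h3

/-- `r` is carried into the centre of `P` by a morphism that fixes `f`. -/
def II (P : Subgroup G) (e : MonoidAlgebra (F M) G) (f r : G) : Prop :=
  ∃ g Q, f ∈ Q ∧ r ∈ Q ∧ Mor 2 ⊤ P e Q g ∧ f * g = g * f ∧ g * r * g⁻¹ ∈ P ⊓ Cen P

theorem rank_loc_f (h : MP 2 M B P e) (q : QS k P A a c d) (hb : ∀ s ∈ P, s ∉ A → s ^ 2 = 1)
    (hs : s ∈ P) (hn : s ∉ A) (hf : f ∈ P ⊓ Cen P) (h1 : f ≠ 1) (h2 : f ≠ d) :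
    (II P e f s ∨ II P e f (s * a) → 2 ≤ blockRank 2 (loc 2 M P e (zpowers f))) ∧
      (II P e f s → II P e f (s * a) → 3 ≤ blockRank 2 (loc 2 M P e (zpowers f))) := by
  have hK : P ≤ Cen (zpowers f) := H86.le_Cen_comm.1 (Subgroup.zpowers_le.2 hf.2)
  obtain ⟨e', he, h'⟩ := h.down (Subgroup.zpowers_le.2 hf.1) hK
  have ha := hK (q.le q.toQS0.a_mem)
  have q' := q.subgroupOf hK ha (hK (q.le q.toQS0.c_mem)) (hK q.d_mem.1)
  have key : ∀ r : Cen (zpowers f), II P e f r →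
      ¬ NF (P.subgroupOf (Cen (zpowers f))) e' (A.subgroupOf (Cen (zpowers f))) r := by
    rintro r ⟨g, Q, h3, h4, h5, h6, h7⟩ h8
    exact h8 _ (show (⟨g, H86.mem_Cen_zpowers.2 h6⟩ : Cen (zpowers f)) * r * _ ∈ _ from
      (q.toQS0.mem_Z.1 h7).1)
      (fus_down h hf he h' h3 (x := r) (y := ⟨g, H86.mem_Cen_zpowers.2 h6⟩) h4 h5).symm
  obtain ⟨h3, h4⟩ := rank_cen (s := ⟨s, hK hs⟩) (f := ⟨f, hK hf.1⟩) h' q'
    (fun r hr hr' => Subtype.ext (hb r hr hr')) hs hn ((mem_Z_subgroupOf hK).2 hf)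
    (fun h3 => h1 (congrArg Subtype.val h3)) (fun h3 => h2 (congrArg Subtype.val h3))
    fun g => Subtype.ext (H86.mem_Cen_zpowers.1 g.2)
  exact ⟨fun h5 => h3 (h5.imp (key ⟨s, hK hs⟩) (key (⟨s, hK hs⟩ * ⟨a, ha⟩))),
    fun h5 h6 => h4 (key ⟨s, hK hs⟩ h5) (key (⟨s, hK hs⟩ * ⟨a, ha⟩) h6)⟩

end K44
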